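import Mathlib
import Cfsg.Agent.Lib.Solvable.HallRel

/-!
# Groups in which abelian subgroups of equal order are conjugate: basic tools
-/

set_option autoImplicit false

open scoped Pointwise

namespace Cfsg.Agent.Lib.AbConj

open Cfsg.Agent.Lib.Solvable.Hall Cfsg.Agent.Lib.Solvable.HallRel

/-- Any two abelian subgroups of the same order are conjugate. -/
def Star (G : Type*) [Group G] : Prop :=
  ∀ A B : Subgroup G, IsMulCommutative A → IsMulCommutative B → Nat.card A = Nat.card B →
    ∃ g : G, MulAut.conj g • A = B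

variable {G : Type*} [Group G]

theorem conj_smul_eq_map (g : G) (A : Subgroup G) :
    MulAut.conj g • A = A.map (MulAut.conj g).toMonoidHom := rfl

theorem isMulCommutative_of (A : Subgroup G) (h : ∀ x ∈ A, ∀ y ∈ A, x * y = y * x) :
    IsMulCommutative A :=
  ⟨⟨fun a b => Subtype.ext (h a a.2 b b.2)⟩⟩

theorem mul_comm_of_isMulCommutative (A : Subgroup G) (h : IsMulCommutative A) {x y : G}
    (hx : x ∈ A) (hy : y ∈ A) : x * y = y * x :=
  congrArg Subtype.val (h.is_comm.comm ⟨x, hx⟩ ⟨y, hy⟩)

theorem mul_conj_mem_conj_smul (g : G) {A : Subgroup G} {x : G} (hx : x ∈ A) :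
    g * x * g⁻¹ ∈ MulAut.conj g • A := by
  rw [mem_conj_smul_iff]
  simpa [mul_assoc] using hx

theorem conj_smul_le_iff {g : G} {A B : Subgroup G} :
    MulAut.conj g • A ≤ B ↔ ∀ x ∈ A, g * x * g⁻¹ ∈ B := by
  constructor
  · intro h x hx
    exact h (mul_conj_mem_conj_smul g hx)
  · intro h x hx
    rw [mem_conj_smul_iff] at hx
    have := h _ hx
    simpa [mul_assoc] using this

theorem conj_smul_eq_self_of_normal_le {g : G} {A : Subgroup G} (h : ∀ x ∈ A, g * x * g⁻¹ = x) :
    MulAut.conj g • A = A := by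
  ext x
  rw [mem_conj_smul_iff]
  constructor
  · intro hx
    have := h _ hx
    have e : g * (g⁻¹ * x * g) * g⁻¹ = x := by group
    rw [e] at this
    rwa [this]
  · intro hx
    have := h _ hx
    have h2 : x * g = g * x := (mul_inv_eq_iff_eq_mul.mp this).symm
    have e : g⁻¹ * x * g = x := by
      rw [mul_assoc, h2, inv_mul_cancel_left]
    rwa [e]

theorem conj_smul_sup (g : G) (A B : Subgroup G) :
    MulAut.conj g • (A ⊔ B) = MulAut.conj g • A ⊔ MulAut.conj g • B :=
  Subgroup.smul_sup _ _ _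

theorem conj_smul_inf (g : G) (A B : Subgroup G) :
    MulAut.conj g • (A ⊓ B) = MulAut.conj g • A ⊓ MulAut.conj g • B :=
  Subgroup.smul_inf _ _ _

theorem Star.zpowers (h : Star G) {x y : G} (hxy : orderOf x = orderOf y) :
    ∃ g : G, MulAut.conj g • Subgroup.zpowers x = Subgroup.zpowers y := by
  apply h
  · infer_instance
  · infer_instance
  · rw [Nat.card_zpowers, Nat.card_zpowers, hxy]

/-- Two commuting subgroups with trivial intersection. -/
theorem card_sup_of_commute [Finite G] (H K : Subgroup G) (hc : ∀ x ∈ H, ∀ y ∈ K, x * y = y * x)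
    (hd : H ⊓ K = ⊥) : Nat.card (H ⊔ K : Subgroup G) = Nat.card H * Nat.card K := by
  have hcomm : ∀ x : H, ∀ y : K, Commute (H.subtype x) (K.subtype y) :=
    fun x y => hc x x.2 y y.2
  let f : H × K →* G := MonoidHom.noncommCoprod H.subtype K.subtype (fun x y => hcomm x y)
  have hr : f.range = H ⊔ K := by
    rw [MonoidHom.noncommCoprod_range]
    simp
  have hinj : Function.Injective f := by
    rw [injective_iff_map_eq_one]
    rintro ⟨a, b⟩ hab
    have hab' : (a : G) * b = 1 := hab
    have h1 : (a : G) = (b : G)⁻¹ := eq_inv_of_mul_eq_one_left hab'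
    have h2 : (a : G) ∈ H ⊓ K := ⟨a.2, by rw [h1]; exact K.inv_mem b.2⟩
    rw [hd, Subgroup.mem_bot] at h2
    have h3 : (b : G) = 1 := by simpa [h2] using hab'
    exact Prod.ext (Subtype.ext h2) (Subtype.ext h3)
  rw [← hr, Nat.card_congr (MonoidHom.ofInjective hinj).symm.toEquiv, Nat.card_prod]

theorem sup_comm_of_commute (H K : Subgroup G) (hH : ∀ x ∈ H, ∀ y ∈ H, x * y = y * x)
    (hK : ∀ x ∈ K, ∀ y ∈ K, x * y = y * x) (hc : ∀ x ∈ H, ∀ y ∈ K, x * y = y * x) :
    ∀ x ∈ H ⊔ K, ∀ y ∈ H ⊔ K, x * y = y * x := by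
  have h1 : H ⊔ K ≤ Subgroup.centralizer ((H ⊔ K : Subgroup G) : Set G) := by
    rw [sup_le_iff]
    constructor
    · intro x hx
      rw [Subgroup.mem_centralizer_iff]
      intro y hy
      have : (H ⊔ K : Subgroup G) ≤ Subgroup.centralizer {x} := by
        rw [sup_le_iff]
        constructor
        · intro z hz
          rw [Subgroup.mem_centralizer_iff]
          intro w hw
          rw [Set.mem_singleton_iff] at hw
          rw [hw]
          exact hH x hx z hz
        · intro z hz
          rw [Subgroup.mem_centralizer_iff]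
          intro w hw
          rw [Set.mem_singleton_iff] at hw
          rw [hw]
          exact hc x hx z hz
      have h2 := this hy
      rw [Subgroup.mem_centralizer_iff] at h2
      exact (h2 x rfl).symm
    · intro x hx
      rw [Subgroup.mem_centralizer_iff]
      intro y hy
      have : (H ⊔ K : Subgroup G) ≤ Subgroup.centralizer {x} := by
        rw [sup_le_iff]
        constructor
        · intro z hz
          rw [Subgroup.mem_centralizer_iff]
          intro w hw
          rw [Set.mem_singleton_iff] at hw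
          rw [hw]
          exact (hc z hz x hx).symm
        · intro z hz
          rw [Subgroup.mem_centralizer_iff]
          intro w hw
          rw [Set.mem_singleton_iff] at hw
          rw [hw]
          exact hK x hx z hz
      have h2 := this hy
      rw [Subgroup.mem_centralizer_iff] at h2
      exact (h2 x rfl).symm
  intro x hx y hy
  have := h1 hx
  rw [Subgroup.mem_centralizer_iff] at this
  exact (this y hy).symm

/-- Two subgroups with coprime orders generate a subgroup whose order is divisible by the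
product; with the product equal to the order of `A`, they generate `A`. -/
theorem sup_eq_of_card [Finite G] {A A₁ A₀ : Subgroup G} (h1 : A₁ ≤ A) (h0 : A₀ ≤ A)
    (hcop : (Nat.card A₁).Coprime (Nat.card A₀)) (hc : Nat.card A = Nat.card A₁ * Nat.card A₀) :
    A₁ ⊔ A₀ = A := by
  apply Subgroup.eq_of_le_of_card_ge (sup_le h1 h0)
  have d1 : Nat.card A₁ ∣ Nat.card (A₁ ⊔ A₀ : Subgroup G) :=
    Subgroup.card_dvd_of_le le_sup_left
  have d2 : Nat.card A₀ ∣ Nat.card (A₁ ⊔ A₀ : Subgroup G) :=
    Subgroup.card_dvd_of_le le_sup_right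
  rw [hc]
  exact Nat.le_of_dvd Nat.card_pos (hcop.mul_dvd_of_dvd_of_dvd d1 d2)

theorem inf_eq_bot_of_coprime [Finite G] {H K : Subgroup G}
    (hcop : (Nat.card H).Coprime (Nat.card K)) : H ⊓ K = ⊥ := by
  rw [eq_bot_iff]
  intro x hx
  rw [Subgroup.mem_bot]
  have h1 : orderOf x ∣ Nat.card H := by
    rw [← Subgroup.orderOf_mk x hx.1]
    exact orderOf_dvd_natCard _
  have h2 : orderOf x ∣ Nat.card K := by
    rw [← Subgroup.orderOf_mk x hx.2]
    exact orderOf_dvd_natCard _
  have h3 := Nat.dvd_gcd h1 h2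
  rw [hcop, Nat.dvd_one, orderOf_eq_one_iff] at h3
  exact h3

/-- Hall part of a subgroup. -/
theorem exists_hall_part [Finite G] {A A₁ : Subgroup G} (h1 : A₁ ≤ A)
    (hA : Group.IsSolvable A) (hcop : (Nat.card A₁).Coprime (A₁.relIndex A)) :
    ∃ A₀ : Subgroup G, A₀ ≤ A ∧ Nat.card A₀ = A₁.relIndex A ∧ A₁ ⊔ A₀ = A := by
  have hc : Nat.card A = A₁.relIndex A * Nat.card A₁ := by
    have := Subgroup.relIndex_mul_relIndex (⊥ : Subgroup G) A₁ A bot_le h1
    rw [Subgroup.relIndex_bot_left, Subgroup.relIndex_bot_left] at this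
    rw [← this, mul_comm]
  obtain ⟨H, hH⟩ := exists_card_eq (G := A) (A₁.relIndex A) (Nat.card A₁) hc hcop.symm
  refine ⟨H.map A.subtype, ?_, ?_, ?_⟩
  · rintro x ⟨y, -, rfl⟩
    exact y.2
  · rw [Subgroup.card_map_of_injective A.subtype_injective, hH]
  · apply sup_eq_of_card h1
    · rintro x ⟨y, -, rfl⟩
      exact y.2
    · rw [Subgroup.card_map_of_injective A.subtype_injective, hH]
      exact hcop
    · rw [Subgroup.card_map_of_injective A.subtype_injective, hH, hc, mul_comm]

section Rel

variable [Finite G] {M D A : Subgroup G}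

theorem relIndex_inf_dvd (hA : A ≤ M) (hDM : D ≤ M)
    (hDn : ∀ m ∈ M, ∀ d ∈ D, m * d * m⁻¹ ∈ D) : (A ⊓ D).relIndex A ∣ D.relIndex M := by
  haveI : (D.subgroupOf M).Normal := by
    constructor
    intro d hd m
    rw [Subgroup.mem_subgroupOf] at hd ⊢
    exact hDn m m.2 d hd
  rw [Subgroup.inf_relIndex_left, ← Subgroup.relIndex_subgroupOf hA]
  exact Subgroup.relIndex_dvd_index_of_normal _ _

theorem card_eq_inf_mul (A D : Subgroup G) :
    Nat.card A = Nat.card (A ⊓ D : Subgroup G) * (A ⊓ D).relIndex A := by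
  have := Subgroup.relIndex_mul_relIndex (⊥ : Subgroup G) (A ⊓ D) A bot_le inf_le_left
  rw [Subgroup.relIndex_bot_left, Subgroup.relIndex_bot_left] at this
  exact this.symm

theorem card_inf_eq_gcd (hA : A ≤ M) (hDM : D ≤ M)
    (hDn : ∀ m ∈ M, ∀ d ∈ D, m * d * m⁻¹ ∈ D) (hcop : (Nat.card D).Coprime (D.relIndex M)) :
    Nat.card (A ⊓ D : Subgroup G) = Nat.gcd (Nat.card A) (Nat.card D) := by
  have h1 := relIndex_inf_dvd hA hDM hDn
  have h2 : (Nat.card D).Coprime ((A ⊓ D).relIndex A) := Nat.Coprime.coprime_dvd_right h1 hcop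
  have h3 : Nat.card (A ⊓ D : Subgroup G) ∣ Nat.card D :=
    Subgroup.card_dvd_of_le inf_le_right
  conv_rhs => rw [card_eq_inf_mul A D]
  rw [Nat.Coprime.gcd_mul_right_cancel _ h2.symm]
  exact (Nat.gcd_eq_left h3).symm

/-- The reduction step: conjugacy in a complement of a normal Hall subgroup gives conjugacy of
subgroups with the same intersection with the normal Hall subgroup. -/
theorem step {L B : Subgroup G} (hMs : Group.IsSolvable M) (hDM : D ≤ M)
    (hDn : ∀ m ∈ M, ∀ d ∈ D, m * d * m⁻¹ ∈ D) (hcop : (Nat.card D).Coprime (D.relIndex M))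
    (hLM : L ≤ M) (hL : Nat.card L = D.relIndex M) (hA : A ≤ M) (hB : B ≤ M)
    (hAB : A ⊓ D = B ⊓ D) (hW : ∀ m ∈ M, MulAut.conj m • (A ⊓ D) = A ⊓ D)
    (hcard : Nat.card A = Nat.card B)
    (hP : ∀ X Y : Subgroup G, X ≤ L → Y ≤ L → Nat.card X = Nat.card Y →
      ∃ c ∈ L, MulAut.conj c • X = Y) :
    ∃ h ∈ M, MulAut.conj h • A = B := by
  have hsolA : Group.IsSolvable A := by
    haveI := hMs
    exact solvable_of_solvable_injective (f := Subgroup.inclusion hA)
      (Subgroup.inclusion_injective hA)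
  have hsolB : Group.IsSolvable B := by
    haveI := hMs
    exact solvable_of_solvable_injective (f := Subgroup.inclusion hB)
      (Subgroup.inclusion_injective hB)
  have hcA : (Nat.card (A ⊓ D : Subgroup G)).Coprime ((A ⊓ D).relIndex A) :=
    Nat.Coprime.coprime_dvd_left (Subgroup.card_dvd_of_le inf_le_right)
      (Nat.Coprime.coprime_dvd_right (relIndex_inf_dvd hA hDM hDn) hcop)
  have hcB : (Nat.card (B ⊓ D : Subgroup G)).Coprime ((B ⊓ D).relIndex B) :=
    Nat.Coprime.coprime_dvd_left (Subgroup.card_dvd_of_le inf_le_right)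
      (Nat.Coprime.coprime_dvd_right (relIndex_inf_dvd hB hDM hDn) hcop)
  obtain ⟨A₀, hA₀, hA₀c, hA₀s⟩ := exists_hall_part inf_le_left hsolA hcA
  obtain ⟨B₀, hB₀, hB₀c, hB₀s⟩ := exists_hall_part inf_le_left hsolB hcB
  have hMc : Nat.card M = Nat.card D * D.relIndex M := by
    have := Subgroup.relIndex_mul_relIndex (⊥ : Subgroup G) D M bot_le hDM
    rw [Subgroup.relIndex_bot_left, Subgroup.relIndex_bot_left] at this
    exact this.symm
  have hLi : L.relIndex M = Nat.card D := by
    have := Subgroup.relIndex_mul_relIndex (⊥ : Subgroup G) L M bot_le hLM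
    rw [Subgroup.relIndex_bot_left, Subgroup.relIndex_bot_left, hMc, hL, mul_comm] at this
    exact Nat.eq_of_mul_eq_mul_right (Nat.pos_of_ne_zero (by
      intro h0
      rw [h0] at hL
      exact (Nat.card_pos (α := L)).ne' hL)) this
  have hcopL : (Nat.card L).Coprime (L.relIndex M) := by
    rw [hL, hLi]
    exact hcop.symm
  have hcA₀ : (Nat.card A₀).Coprime (L.relIndex M) := by
    rw [hA₀c, hLi]
    exact (Nat.Coprime.coprime_dvd_right (relIndex_inf_dvd hA hDM hDn) hcop).symm
  have hcB₀ : (Nat.card B₀).Coprime (L.relIndex M) := by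
    rw [hB₀c, hLi]
    exact (Nat.Coprime.coprime_dvd_right (relIndex_inf_dvd hB hDM hDn) hcop).symm
  obtain ⟨m, hm, hmA⟩ := exists_le_conj_of_le hMs hLM (hA₀.trans hA) hcopL hcA₀
  obtain ⟨m', hm', hmB⟩ := exists_le_conj_of_le hMs hLM (hB₀.trans hB) hcopL hcB₀
  have hX : MulAut.conj m⁻¹ • A₀ ≤ L := by
    have := conj_smul_mono (g := m⁻¹) hmA
    rwa [conj_smul_conj_smul, inv_mul_cancel, map_one, one_smul] at this
  have hY : MulAut.conj m'⁻¹ • B₀ ≤ L := by
    have := conj_smul_mono (g := m'⁻¹) hmB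
    rwa [conj_smul_conj_smul, inv_mul_cancel, map_one, one_smul] at this
  have hcXY : Nat.card (MulAut.conj m⁻¹ • A₀ : Subgroup G) = Nat.card (MulAut.conj m'⁻¹ • B₀ : Subgroup G) := by
    rw [card_conj_smul, card_conj_smul, hA₀c, hB₀c, hAB]
    have h1 := card_eq_inf_mul A D
    have h2 := card_eq_inf_mul B D
    rw [hAB, hcard, h2] at h1
    exact (Nat.eq_of_mul_eq_mul_left Nat.card_pos h1).symm
  obtain ⟨c, hc, hcXY'⟩ := hP _ _ hX hY hcXY
  refine ⟨m' * c * m⁻¹, M.mul_mem (M.mul_mem hm' (hLM hc)) (M.inv_mem hm), ?_⟩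
  have e1 : MulAut.conj (m' * c * m⁻¹) • A₀ = B₀ := by
    rw [← conj_smul_conj_smul, ← conj_smul_conj_smul, hcXY', conj_smul_conj_smul, mul_inv_cancel,
      map_one, one_smul]
  have e2 : MulAut.conj (m' * c * m⁻¹) • (A ⊓ D) = A ⊓ D :=
    hW _ (M.mul_mem (M.mul_mem hm' (hLM hc)) (M.inv_mem hm))
  conv_lhs => rw [← hA₀s]
  rw [conj_smul_sup, e1, e2, hAB, hB₀s]

end Rel

section Cyc

theorem eq_of_card_eq_of_isCyclic {C : Type*} [Group C] [Finite C] [IsCyclic C] (X Y : Subgroup C)
    (h : Nat.card X = Nat.card Y) : X = Y := by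
  classical
  letI : Fintype C := Fintype.ofFinite C
  have key : ∀ Z : Subgroup C, (Z : Set C) = {x : C | x ^ Nat.card Z = 1} := by
    intro Z
    have hsub : (Z : Set C) ⊆ {x : C | x ^ Nat.card Z = 1} := by
      intro x hx
      have : (⟨x, hx⟩ : Z) ^ Nat.card Z = 1 := pow_card_eq_one'
      exact congrArg Subtype.val this
    apply Set.eq_of_subset_of_ncard_le hsub
    · have h1 := IsCyclic.card_pow_eq_one_le (α := C) (n := Nat.card Z) Nat.card_pos
      have h2 : ({x : C | x ^ Nat.card Z = 1}).ncard = (Finset.univ.filter fun a : C => a ^ Nat.card Z = 1).card := by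
        rw [← Set.ncard_coe_finset]
        congr 1
        ext x
        simp
      rw [h2]
      have h3 : (Z : Set C).ncard = Nat.card Z := (Nat.card_coe_set_eq (Z : Set C)).symm
      rw [h3]
      exact h1
  apply SetLike.ext'
  rw [key X, key Y, h]

theorem eq_of_le_of_card_eq_of_isCyclic {C X Y : Subgroup G} (hC : IsCyclic C) [Finite C]
    (hX : X ≤ C) (hY : Y ≤ C) (h : Nat.card X = Nat.card Y) : X = Y := by
  have h1 : X.subgroupOf C = Y.subgroupOf C := by
    apply eq_of_card_eq_of_isCyclic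
    rw [card_subgroupOf_of_le hX, card_subgroupOf_of_le hY, h]
  have h2 := Subgroup.subgroupOf_inj.mp h1
  rwa [inf_eq_left.mpr hX, inf_eq_left.mpr hY] at h2

/-- In a finite group with cyclic Sylow subgroups, any two subgroups of the same order are
conjugate. -/
theorem zgroup_conj {H : Type*} [Group H] [Finite H] [IsZGroup H] (A B : Subgroup H)
    (h : Nat.card A = Nat.card B) : ∃ g : H, MulAut.conj g • A = B := by
  have hcop : (Nat.card (commutator H)).Coprime (commutator H).index :=
    IsZGroup.coprime_commutator_index H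
  haveI hDc : IsCyclic (commutator H) := IsZGroup.isCyclic_commutator H
  obtain ⟨L, hL⟩ := exists_card_eq (G := H) (commutator H).index (Nat.card (commutator H))
    (by rw [mul_comm, Subgroup.card_mul_index]) hcop.symm
  have hLD : L ⊓ commutator H = ⊥ := inf_eq_bot_of_coprime (by rw [hL]; exact hcop.symm)
  haveI hLc : IsCyclic L := by
    let f : L →* Abelianization H := (Abelianization.of).comp L.subtype
    apply isCyclic_of_injective f
    rw [injective_iff_map_eq_one]
    intro x hx
    have h1 : (x : H) ∈ commutator H := by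
      have : ((x : H) : H ⧸ commutator H) = 1 := hx
      rwa [QuotientGroup.eq_one_iff] at this
    have h2 : (x : H) ∈ L ⊓ commutator H := ⟨x.2, h1⟩
    rw [hLD, Subgroup.mem_bot] at h2
    exact Subtype.ext h2
  have hcardI : ∀ X : Subgroup H, Nat.card (X ⊓ commutator H : Subgroup H) =
      Nat.gcd (Nat.card X) (Nat.card (commutator H)) := by
    intro X
    apply card_inf_eq_gcd (M := ⊤) le_top le_top
    · intro m _ d hd
      exact (inferInstance : (commutator H).Normal).conj_mem d hd m
    · rw [Subgroup.relIndex_top_right]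
      exact hcop
  have hAB : A ⊓ commutator H = B ⊓ commutator H := by
    apply eq_of_le_of_card_eq_of_isCyclic hDc inf_le_right inf_le_right
    rw [hcardI, hcardI, h]
  obtain ⟨g, -, hg⟩ := step (M := ⊤) (D := commutator H) (L := L) (A := A) (B := B)
    (by infer_instance) le_top
    (fun m _ d hd => (inferInstance : (commutator H).Normal).conj_mem d hd m)
    (by rw [Subgroup.relIndex_top_right]; exact hcop) le_top
    (by rw [Subgroup.relIndex_top_right]; exact hL) le_top le_top hAB
    (by
      intro m _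
      apply eq_of_le_of_card_eq_of_isCyclic hDc
      · rw [conj_smul_le_iff]
        intro x hx
        exact (inferInstance : (commutator H).Normal).conj_mem x hx.2 m
      · exact inf_le_right
      · rw [card_conj_smul])
    h
    (by
      intro X Y hX hY hXY
      refine ⟨1, L.one_mem, ?_⟩
      rw [map_one, one_smul]
      exact eq_of_le_of_card_eq_of_isCyclic hLc hX hY hXY)
  exact ⟨g, hg⟩

/-- The same inside a subgroup. -/
theorem zgroup_conj_rel [Finite G] {L X Y : Subgroup G} (hL : IsZGroup L) (hX : X ≤ L) (hY : Y ≤ L)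
    (h : Nat.card X = Nat.card Y) : ∃ c ∈ L, MulAut.conj c • X = Y := by
  obtain ⟨g, hg⟩ := zgroup_conj (X.subgroupOf L) (Y.subgroupOf L)
    (by rw [card_subgroupOf_of_le hX, card_subgroupOf_of_le hY, h])
  refine ⟨g, g.2, ?_⟩
  apply Subgroup.eq_of_le_of_card_ge
  · rw [conj_smul_le_iff]
    intro x hx
    have h1 : (⟨x, hX hx⟩ : L) ∈ X.subgroupOf L := hx
    have h2 := mul_conj_mem_conj_smul g h1
    rw [hg] at h2
    exact h2
  · rw [card_conj_smul, h]

end Cyc

end Cfsg.Agent.Lib.AbConj
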