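import Cfsg.Agent.Lib.AbConj.Lines

/-!
# The action of a normal `Q₈` of the complement on the normal abelian Hall subgroup
-/

set_option autoImplicit false
set_option linter.unusedSectionVars false

open scoped Pointwise

namespace Cfsg.Agent.Lib.AbConj

open Cfsg.Agent.Lib.Solvable.Hall Cfsg.Agent.Lib.Solvable.HallRel

variable {G : Type*} [Group G] [Finite G]

/-- The setting of the quaternion case. -/
structure QSet (V K Q : Subgroup G) : Prop where
  star : Star G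
  Vn : V.Normal
  Vc : ∀ x ∈ V, ∀ y ∈ V, x * y = y * x
  dis : V ⊓ K = ⊥
  gen : V ⊔ K = ⊤
  QK : Q ≤ K
  Qn : ∀ k ∈ K, ∀ x ∈ Q, k * x * k⁻¹ ∈ Q
  iso : Nonempty (Q ≃* Q8)
  Vodd : (Nat.card V).Coprime 2
  Vexp : ∀ x ∈ V, ∀ r : ℕ, r.Prime → ∀ n : ℕ, x ^ r ^ n = 1 → x ^ r = 1

/-- The elements of `V` of order dividing `r`. -/
def elemPart (V : Subgroup G) (hc : ∀ x ∈ V, ∀ y ∈ V, x * y = y * x) (r : ℕ) : Subgroup G where
  carrier := {x | x ∈ V ∧ x ^ r = 1}
  mul_mem' := by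
    rintro x y ⟨hx, hx'⟩ ⟨hy, hy'⟩
    refine ⟨V.mul_mem hx hy, ?_⟩
    have : Commute x y := hc x hx y hy
    rw [this.mul_pow, hx', hy', one_mul]
  one_mem' := ⟨V.one_mem, one_pow r⟩
  inv_mem' := by
    rintro x ⟨hx, hx'⟩
    exact ⟨V.inv_mem hx, by rw [inv_pow, hx', inv_one]⟩

theorem mem_elemPart {V : Subgroup G} {hc : ∀ x ∈ V, ∀ y ∈ V, x * y = y * x} {r : ℕ} {x : G} :
    x ∈ elemPart V hc r ↔ x ∈ V ∧ x ^ r = 1 := Iff.rfl

/-- If `t` centralizes a normal subgroup, so does everything generating a conjugate of `⟨t⟩`. -/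
theorem centralize_of_conj {R : Subgroup G} (hRn : R.Normal) {t y : G}
    (ht : ∀ r ∈ R, t * r * t⁻¹ = r) (g : G)
    (hg : MulAut.conj g • Subgroup.zpowers t = Subgroup.zpowers y) : ∀ r ∈ R, y * r * y⁻¹ = r := by
  have h1 : y ∈ MulAut.conj g • Subgroup.zpowers t := by
    rw [hg]
    exact Subgroup.mem_zpowers y
  rw [mem_conj_smul_iff] at h1
  obtain ⟨a, ha⟩ := h1
  simp only at ha
  intro r hr
  have h2 : g⁻¹ * r * g ∈ R := by
    have := hRn.conj_mem _ hr g⁻¹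
    simpa using this
  have h3 : Commute t (g⁻¹ * r * g) := mul_inv_eq_iff_eq_mul.mp (ht _ h2)
  have h4 : Commute (g⁻¹ * y * g) (g⁻¹ * r * g) := by
    rw [← ha]
    exact h3.zpow_left a
  have h5 := h4.eq
  have e1 : (g⁻¹ * y * g) * (g⁻¹ * r * g) = g⁻¹ * (y * r) * g := by group
  have e2 : (g⁻¹ * r * g) * (g⁻¹ * y * g) = g⁻¹ * (r * y) * g := by group
  rw [e1, e2] at h5
  have h6 := mul_left_cancel (mul_right_cancel h5)
  rw [h6, mul_inv_cancel_right]

namespace QSet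

variable {V K Q : Subgroup G}

theorem exists_mul (S : QSet V K Q) (g : G) : ∃ v ∈ V, ∃ k ∈ K, g = v * k := by
  haveI := S.Vn
  have hgm : g ∈ (↑(V ⊔ K) : Set G) := by
    rw [S.gen]
    trivial
  rw [Subgroup.normal_mul, Set.mem_mul] at hgm
  obtain ⟨v, hv, k, hk, rfl⟩ := hgm
  exact ⟨v, hv, k, hk, rfl⟩

theorem conj_mem_V (S : QSet V K Q) (g : G) {u : G} (hu : u ∈ V) : g * u * g⁻¹ ∈ V :=
  S.Vn.conj_mem u hu g

theorem conj_eq (S : QSet V K Q) {v k u : G} (hv : v ∈ V) (hu : u ∈ V) :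
    (v * k) * u * (v * k)⁻¹ = k * u * k⁻¹ := by
  have h1 := S.conj_mem_V k hu
  have h2 : v * (k * u * k⁻¹) = (k * u * k⁻¹) * v := S.Vc v hv _ h1
  calc (v * k) * u * (v * k)⁻¹ = v * (k * u * k⁻¹) * v⁻¹ := by group
    _ = k * u * k⁻¹ := by rw [h2, mul_inv_cancel_right]

/-- Conjugates of `Q`-invariant subgroups of `V` are `Q`-invariant. -/
theorem inv_card (S : QSet V K Q) {W W' : Subgroup G} (hW : W ≤ V) (hW' : W' ≤ V)
    (hc : Nat.card W' = Nat.card W) (hinv : ∀ q ∈ Q, ∀ w ∈ W, q * w * q⁻¹ ∈ W) :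
    ∀ q ∈ Q, ∀ w ∈ W', q * w * q⁻¹ ∈ W' := by
  obtain ⟨g, hg⟩ := S.star W W' (isMulCommutative_of _ fun x hx y hy => S.Vc x (hW hx) y (hW hy))
    (isMulCommutative_of _ fun x hx y hy => S.Vc x (hW' hx) y (hW' hy)) hc.symm
  obtain ⟨v, hv, k, hk, rfl⟩ := S.exists_mul g
  intro q hq w hw
  have h1 : w ∈ MulAut.conj (v * k) • W := by
    rw [hg]
    exact hw
  rw [mem_conj_smul_iff] at h1
  let w₀ : G := (v * k)⁻¹ * w * (v * k)
  have hw₀ : w₀ ∈ W := h1
  have hw₀e : (v * k) * w₀ * (v * k)⁻¹ = w := by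
    simp only [w₀]
    group
  have hwk : w = k * w₀ * k⁻¹ := by
    rw [← S.conj_eq hv (hW hw₀)]
    exact hw₀e.symm
  have hq' : k⁻¹ * q * k ∈ Q := by
    have := S.Qn k⁻¹ (K.inv_mem hk) q hq
    simpa using this
  have h2 := hinv _ hq' w₀ hw₀
  have h3 : q * w * q⁻¹ = (v * k) * ((k⁻¹ * q * k) * w₀ * (k⁻¹ * q * k)⁻¹) * (v * k)⁻¹ := by
    rw [S.conj_eq hv (hW h2), hwk]
    group
  rw [h3, ← hg]
  exact mul_conj_mem_conj_smul _ h2

/-- The dichotomy: a `Q`-invariant subgroup of an elementary part is trivial or everything, or `Q`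
centralizes it. -/
theorem dich (S : QSet V K Q) {r : ℕ} [hr : Fact r.Prime] {W : Subgroup G}
    (hW : W ≤ elemPart V S.Vc r) (hinv : ∀ q ∈ Q, ∀ w ∈ W, q * w * q⁻¹ ∈ W) :
    W = ⊥ ∨ W = elemPart V S.Vc r ∨ ∀ q ∈ Q, ∀ v ∈ elemPart V S.Vc r, q * v * q⁻¹ = v := by
  by_cases h1 : W = ⊥
  · exact Or.inl h1
  by_cases h2 : W = elemPart V S.Vc r
  · exact Or.inr (Or.inl h2)
  right
  right
  obtain ⟨e⟩ := S.iso
  have hVrc : ∀ x ∈ elemPart V S.Vc r, ∀ y ∈ elemPart V S.Vc r, x * y = y * x :=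
    fun x hx y hy => S.Vc x hx.1 y hy.1
  have hVre : ∀ x ∈ elemPart V S.Vc r, x ^ r = 1 := fun x hx => hx.2
  have hVrV : elemPart V S.Vc r ≤ V := fun x hx => hx.1
  have hnorm : (elemPart V S.Vc r).Normal := by
    constructor
    intro x hx g
    exact ⟨S.conj_mem_V g hx.1, by rw [conj_pow, hx.2]; group⟩
  have hl : ∀ q ∈ Q, ∀ v ∈ elemPart V S.Vc r, q * v * q⁻¹ ∈ Subgroup.zpowers v := by
    intro q hq
    apply line_of_all hVrc hVre hW h1 h2 (fun x hx => hnorm.conj_mem x hx q)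
    intro Y hY hYc y hy
    exact S.inv_card (hW.trans hVrV) (hY.trans hVrV) hYc hinv q hq y hy
  obtain ⟨v₀, hv₀W, hv₀⟩ := W.bot_or_exists_ne_one.resolve_left h1
  have hv₀R := hW hv₀W
  have hov : orderOf v₀ = r := orderOf_eq_prime (hVre v₀ hv₀R) hv₀
  obtain ⟨t, ht, hto, htv⟩ := exists_four_fix e (by rw [hov]; exact hr.out)
    (fun q hq => hl q hq v₀ hv₀R)
  have hcent := centralize_of_lines hVrc hVre (hl t ht) hv₀R hv₀ htv
  have hall : ∀ y : G, orderOf y = 4 → y ∈ Subgroup.centralizer (elemPart V S.Vc r : Set G) := by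
    intro y hy
    obtain ⟨g, hg⟩ := S.star.zpowers (x := t) (y := y) (by rw [hto, hy])
    have h3 := centralize_of_conj hnorm hcent g hg
    rw [Subgroup.mem_centralizer_iff]
    intro w hw
    exact (mul_inv_eq_iff_eq_mul.mp (h3 w hw)).symm
  have hQC := le_of_order_four (n := 1) e hall
  intro q hq v hv
  have h3 := hQC hq
  rw [Subgroup.mem_centralizer_iff] at h3
  exact mul_inv_eq_iff_eq_mul.mpr (h3 v hv).symm

/-- An element of `K` preserving the part of `U` centralized by `Q` preserves `U`. -/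
theorem inv_of_centralized (S : QSet V K Q) {U : Subgroup G} (hU : U ≤ V)
    (hinv : ∀ q ∈ Q, ∀ u ∈ U, q * u * q⁻¹ ∈ U) (g : G)
    (hg : ∀ u ∈ U ⊓ Subgroup.centralizer (Q : Set G), g * u * g⁻¹ ∈ U ⊓ Subgroup.centralizer (Q : Set G)) :
    ∀ u ∈ U, g * u * g⁻¹ ∈ U := by
  have hprime : ∀ r : ℕ, r.Prime → ∀ u ∈ U, u ^ r = 1 → g * u * g⁻¹ ∈ U := by
    intro r hr u hu hur
    haveI : Fact r.Prime := ⟨hr⟩
    have hW : U ⊓ elemPart V S.Vc r ≤ elemPart V S.Vc r := inf_le_right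
    have hnorm : ∀ x ∈ elemPart V S.Vc r, g * x * g⁻¹ ∈ elemPart V S.Vc r := by
      intro x hx
      exact ⟨S.conj_mem_V g hx.1, by rw [conj_pow, hx.2]; group⟩
    have hinvW : ∀ q ∈ Q, ∀ w ∈ U ⊓ elemPart V S.Vc r, q * w * q⁻¹ ∈ U ⊓ elemPart V S.Vc r := by
      intro q hq w hw
      refine ⟨hinv q hq w hw.1, S.conj_mem_V q hw.2.1, ?_⟩
      rw [conj_pow, hw.2.2]
      group
    have huR : u ∈ elemPart V S.Vc r := ⟨hU hu, hur⟩
    rcases S.dich hW hinvW with h | h | h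
    · have h1 : u ∈ U ⊓ elemPart V S.Vc r := ⟨hu, huR⟩
      rw [h, Subgroup.mem_bot] at h1
      rw [h1]
      simp [U.one_mem]
    · have h1 := hnorm u huR
      rw [← h] at h1
      exact h1.1
    · have h1 : u ∈ U ⊓ Subgroup.centralizer (Q : Set G) := by
        refine ⟨hu, ?_⟩
        change u ∈ Subgroup.centralizer (Q : Set G)
        rw [Subgroup.mem_centralizer_iff]
        intro q hq
        exact (mul_inv_eq_iff_eq_mul.mp (h q hq u huR))
      exact (hg u h1).1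
  have key : ∀ n : ℕ, ∀ u ∈ U, orderOf u = n → g * u * g⁻¹ ∈ U := by
    intro n
    induction n using Nat.recOnPosPrimePosCoprime with
    | prime_pow r m hr hm =>
      intro u hu huo
      have h1 : u ^ r ^ m = 1 := by
        rw [← huo]
        exact pow_orderOf_eq_one u
      exact hprime r hr u hu (S.Vexp u (hU hu) r hr m h1)
    | zero =>
      intro u _ huo
      exact absurd huo (orderOf_pos u).ne'
    | one =>
      intro u _ huo
      rw [orderOf_eq_one_iff.mp huo]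
      simp [U.one_mem]
    | coprime a b ha hb hab iha ihb =>
      intro u hu huo
      have h1 : orderOf (u ^ b) = a := by
        rw [orderOf_pow_of_dvd (by omega) (by rw [huo]; exact dvd_mul_left b a), huo,
          Nat.mul_div_cancel _ (by omega)]
      have h2 : orderOf (u ^ a) = b := by
        rw [orderOf_pow_of_dvd (by omega) (by rw [huo]; exact dvd_mul_right a b), huo,
          Nat.mul_div_cancel_left _ (by omega)]
      have h3 := iha (u ^ b) (U.pow_mem hu b) h1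
      have h4 := ihb (u ^ a) (U.pow_mem hu a) h2
      have hbez : (1 : ℤ) = a * Nat.gcdA a b + b * Nat.gcdB a b := by
        have := Nat.gcd_eq_gcd_ab a b
        rw [hab] at this
        exact_mod_cast this
      have hu' : u = (u ^ a) ^ Nat.gcdA a b * (u ^ b) ^ Nat.gcdB a b := by
        rw [← zpow_natCast, ← zpow_natCast, ← zpow_mul, ← zpow_mul, ← zpow_add, ← hbez, zpow_one]
      rw [hu']
      have e1 : g * ((u ^ a) ^ Nat.gcdA a b * (u ^ b) ^ Nat.gcdB a b) * g⁻¹ =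
          (g * u ^ a * g⁻¹) ^ Nat.gcdA a b * (g * u ^ b * g⁻¹) ^ Nat.gcdB a b := by
        rw [conj_zpow, conj_zpow]
        group
      rw [e1]
      exact U.mul_mem (U.zpow_mem h4 _) (U.zpow_mem h3 _)
  intro u hu
  exact key _ u hu rfl

/-- Transitivity on the cyclic subgroups of order four of `Q` inside the normalizer of a
`Q`-invariant subgroup of `V`. -/
theorem trans (S : QSet V K Q) {U : Subgroup G} (hU : U ≤ V)
    (hinv : ∀ q ∈ Q, ∀ u ∈ U, q * u * q⁻¹ ∈ U) {t₁ t₂ : G} (ht₁ : t₁ ∈ Q) (ht₂ : t₂ ∈ Q)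
    (h₁ : orderOf t₁ = 4) (h₂ : orderOf t₂ = 4) :
    ∃ k ∈ K, MulAut.conj k • Subgroup.zpowers t₁ = Subgroup.zpowers t₂ ∧ ∀ u ∈ U, k * u * k⁻¹ ∈ U := by
  obtain ⟨e⟩ := S.iso
  let Ub : Subgroup G := U ⊓ Subgroup.centralizer (Q : Set G)
  have hUbV : Ub ≤ V := inf_le_left.trans hU
  have hcop : ∀ t : G, orderOf t = 4 → (Nat.card (Subgroup.zpowers t)).Coprime (Nat.card Ub) := by
    intro t ht
    rw [Nat.card_zpowers, ht, show 4 = 2 ^ 2 by norm_num]
    apply Nat.Coprime.pow_left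
    exact (Nat.Coprime.coprime_dvd_left (Subgroup.card_dvd_of_le hUbV) S.Vodd).symm
  have hcomm : ∀ t ∈ Q, ∀ x ∈ Subgroup.zpowers t, ∀ y ∈ Ub, x * y = y * x := by
    intro t ht x hx y hy
    have h1 : x ∈ Q := by
      have : Subgroup.zpowers t ≤ Q := by
        rw [Subgroup.zpowers_le]
        exact ht
      exact this hx
    have h2 : y ∈ Subgroup.centralizer (Q : Set G) := hy.2
    rw [Subgroup.mem_centralizer_iff] at h2
    exact h2 x h1
  have hab : ∀ t ∈ Q, ∀ x ∈ Subgroup.zpowers t ⊔ Ub, ∀ y ∈ Subgroup.zpowers t ⊔ Ub, x * y = y * x := by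
    intro t ht
    apply sup_comm_of_commute _ _ _ _ (hcomm t ht)
    · rintro x ⟨a, rfl⟩ y ⟨b, rfl⟩
      exact ((Commute.refl t).zpow_zpow a b).eq
    · exact fun x hx y hy => S.Vc x (hUbV hx) y (hUbV hy)
  have hcard : ∀ t ∈ Q, orderOf t = 4 → Nat.card (Subgroup.zpowers t ⊔ Ub : Subgroup G) = 4 * Nat.card Ub := by
    intro t ht hto
    rw [card_sup_of_commute _ _ (hcomm t ht) (inf_eq_bot_of_coprime (hcop t hto)), Nat.card_zpowers, hto]
  obtain ⟨g, hg⟩ := S.star _ _ (isMulCommutative_of _ (hab t₁ ht₁)) (isMulCommutative_of _ (hab t₂ ht₂))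
    (by rw [hcard t₁ ht₁ h₁, hcard t₂ ht₂ h₂])
  obtain ⟨v, hv, k, hk, rfl⟩ := S.exists_mul g
  have hmem : ∀ x ∈ Subgroup.zpowers t₁ ⊔ Ub, (v * k) * x * (v * k)⁻¹ ∈ Subgroup.zpowers t₂ ⊔ Ub := by
    intro x hx
    rw [← hg]
    exact mul_conj_mem_conj_smul _ hx
  have ht₂K : Subgroup.zpowers t₂ ≤ Q := by
    rw [Subgroup.zpowers_le]
    exact ht₂
  refine ⟨k, hk, ?_, ?_⟩
  · -- the `2`-part
    apply Subgroup.eq_of_le_of_card_ge
    · rw [conj_smul_le_iff]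
      intro x hx
      obtain ⟨a, rfl⟩ := hx
      simp only
      rw [← conj_zpow]
      apply Subgroup.zpow_mem
      have h1 := hmem t₁ ((le_sup_left : Subgroup.zpowers t₁ ≤ _) (Subgroup.mem_zpowers t₁))
      obtain ⟨x, hx, y, hy, hxy⟩ := exists_mul_of_mem_sup_of_commute _ _ (hcomm t₂ ht₂) h1
      have hxy4 : y ^ 2 ^ 2 = 1 := by
        have h2 : ((v * k) * t₁ * (v * k)⁻¹) ^ 4 = 1 := by
          rw [conj_pow, ← h₁, pow_orderOf_eq_one]
          group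
        rw [hxy, (show Commute x y from hcomm t₂ ht₂ x hx y hy).mul_pow] at h2
        have h3 : x ^ 4 = 1 := pow_four_eq_one e (ht₂K hx)
        rw [h3, one_mul] at h2
        simpa using h2
      have hy1 : y = 1 := eq_one_of_coprime_two S.Vodd (hUbV hy) hxy4
      rw [hy1, mul_one] at hxy
      -- `k t₁ k⁻¹` lies in `K`
      have hs : k * t₁ * k⁻¹ ∈ K := K.mul_mem (K.mul_mem hk (S.QK ht₁)) (K.inv_mem hk)
      have hxK : x ∈ K := S.QK (ht₂K hx)
      have h4 : x * (k * t₁ * k⁻¹)⁻¹ ∈ K := K.mul_mem hxK (K.inv_mem hs)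
      have h5 : x * (k * t₁ * k⁻¹)⁻¹ ∈ V := by
        rw [← hxy]
        have e1 : (v * k) * t₁ * (v * k)⁻¹ * (k * t₁ * k⁻¹)⁻¹ =
            v * ((k * t₁ * k⁻¹) * v⁻¹ * (k * t₁ * k⁻¹)⁻¹) := by group
        rw [e1]
        exact V.mul_mem hv (S.conj_mem_V _ (V.inv_mem hv))
      have h6 : x * (k * t₁ * k⁻¹)⁻¹ ∈ V ⊓ K := ⟨h5, h4⟩
      rw [S.dis, Subgroup.mem_bot, mul_inv_eq_one] at h6
      rw [← h6]
      exact hx
    · rw [card_conj_smul, Nat.card_zpowers, Nat.card_zpowers, h₁, h₂]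
  · apply S.inv_of_centralized hU hinv
    intro u hu
    have h1 := hmem u ((le_sup_right : Ub ≤ _) hu)
    rw [S.conj_eq hv (hUbV hu)] at h1
    obtain ⟨x, hx, y, hy, hxy⟩ := exists_mul_of_mem_sup_of_commute _ _ (hcomm t₂ ht₂) h1
    have hxK : x ∈ K := S.QK (ht₂K hx)
    have hxV : x ∈ V := by
      have e1 : x = (k * u * k⁻¹) * y⁻¹ := by rw [hxy]; group
      rw [e1]
      exact V.mul_mem (S.conj_mem_V k (hUbV hu)) (V.inv_mem (hUbV hy))
    have h2 : x ∈ V ⊓ K := ⟨hxV, hxK⟩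
    rw [S.dis, Subgroup.mem_bot] at h2
    rw [hxy, h2, one_mul]
    exact hy

end QSet

end Cfsg.Agent.Lib.AbConj
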