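import Cfsg.Agent.Lib.AbConj.Dich

/-!
# Conjugacy of all subgroups of the same order
-/

set_option autoImplicit false
set_option linter.unusedSectionVars false

open scoped Pointwise

namespace Cfsg.Agent.Lib.AbConj

open Cfsg.Agent.Lib.Solvable.Hall Cfsg.Agent.Lib.Solvable.HallRel

universe u

section

variable {G : Type*} [Group G] [Finite G]

theorem isZ_of {L : Subgroup G}
    (hodd : ∀ p : ℕ, p.Prime → p ≠ 2 → ∀ P : Subgroup G, P ≤ L → IsPGroup p P → IsCyclic P)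
    (h2 : ∀ P : Subgroup G, P ≤ L → IsPGroup 2 P → IsCyclic P) : IsZGroup L := by
  constructor
  intro p hp P
  haveI : Fact p.Prime := ⟨hp⟩
  have hmap : IsPGroup p ((P : Subgroup L).map L.subtype) := P.isPGroup'.map _
  have hle : (P : Subgroup L).map L.subtype ≤ L := by
    rintro x ⟨y, -, rfl⟩
    exact y.2
  have hc : IsCyclic ((P : Subgroup L).map L.subtype) := by
    by_cases hp2 : p = 2
    · subst hp2
      exact h2 _ hle hmap
    · exact hodd p hp hp2 _ hle hmap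
  exact isCyclic_of_injective
    (Subgroup.equivMapOfInjective (P : Subgroup L) L.subtype L.subtype_injective).toMonoidHom
    (MulEquiv.injective _)

variable {V K Q : Subgroup G}

theorem le_Q_of_isPGroup (hQ2 : ∀ x ∈ K, ∀ n : ℕ, x ^ 2 ^ n = 1 → x ∈ Q) {P : Subgroup G} (hPK : P ≤ K)
    (hP : IsPGroup 2 P) : P ≤ Q := by
  intro x hx
  obtain ⟨k, hk⟩ := hP ⟨x, hx⟩
  exact hQ2 x (hPK hx) k (congrArg Subtype.val hk)

/-- Subgroups not containing `Q` have cyclic Sylow subgroups. -/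
theorem conj_of_not_le (S : QSet V K Q)
    (hodd : ∀ p : ℕ, p.Prime → p ≠ 2 → ∀ P : Subgroup G, P ≤ K → IsPGroup p P → IsCyclic P)
    (hQ2 : ∀ x ∈ K, ∀ n : ℕ, x ^ 2 ^ n = 1 → x ∈ Q) {L : Subgroup G} (hLK : L ≤ K) (hQL : ¬ Q ≤ L)
    {X Y : Subgroup G} (hX : X ≤ L) (hY : Y ≤ L) (h : Nat.card X = Nat.card Y) :
    ∃ c ∈ L, MulAut.conj c • X = Y := by
  obtain ⟨e⟩ := S.iso
  apply zgroup_conj_rel _ hX hY h
  apply isZ_of (fun p hp hp2 P hP hPp => hodd p hp hp2 P (hP.trans hLK) hPp)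
  intro P hPL hP2
  have hPQ := le_Q_of_isPGroup hQ2 (hPL.trans hLK) hP2
  rcases subgroup_cases e hPQ with ⟨-, hc, -⟩ | ⟨t, ht, hto⟩
  · exact hc
  · have hd : Nat.card P ∣ 8 := by
      rw [← card_eq_eight e]
      exact Subgroup.card_dvd_of_le hPQ
    have hd4 : 4 ∣ Nat.card P := by
      rw [← hto, ← Subgroup.orderOf_mk t ht]
      exact orderOf_dvd_natCard _
    have hle := Nat.le_of_dvd (by norm_num) hd
    obtain ⟨c, hc⟩ := hd4
    have hc2 : c = 1 ∨ c = 2 := by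
      have h1 : 0 < Nat.card P := Nat.card_pos
      omega
    rcases hc2 with rfl | rfl
    · obtain ⟨t', -, -, h4⟩ := eq_zpowers_of_card_four e hPQ (by omega)
      rw [h4]
      infer_instance
    · exfalso
      apply hQL
      have h8 : P = Q := Subgroup.eq_of_le_of_card_ge hPQ (by rw [card_eq_eight e]; omega)
      rw [← h8]
      exact hPL

variable [Group.IsSolvable G]

/-- Subgroups containing `Q`. -/
theorem conj_of_le (S : QSet V K Q)
    (hodd : ∀ p : ℕ, p.Prime → p ≠ 2 → ∀ P : Subgroup G, P ≤ K → IsPGroup p P → IsCyclic P)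
    (hQ2 : ∀ x ∈ K, ∀ n : ℕ, x ^ 2 ^ n = 1 → x ∈ Q) (hcopK : (Nat.card Q).Coprime (Q.relIndex K))
    {U L : Subgroup G} (hU : U ≤ V) (hLK : L ≤ K) (hQL : Q ≤ L)
    (hinv : ∀ q ∈ Q, ∀ u ∈ U, q * u * q⁻¹ ∈ U)
    (hLn : ∀ k ∈ K, (∀ u ∈ U, k * u * k⁻¹ ∈ U) → k ∈ L)
    {X Y : Subgroup G} (hX : X ≤ L) (hY : Y ≤ L) (hXY : Nat.card X = Nat.card Y) :
    ∃ c ∈ L, MulAut.conj c • X = Y := by
  classical
  obtain ⟨e⟩ := S.iso
  have hQ8 := card_eq_eight e
  have hQn : ∀ l ∈ L, ∀ d ∈ Q, l * d * l⁻¹ ∈ Q := fun l hl d hd => S.Qn l (hLK hl) d hd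
  have hrel : Q.relIndex L ∣ Q.relIndex K :=
    Dvd.intro _ (Subgroup.relIndex_mul_relIndex Q L K hQL hLK)
  have hcL : (Nat.card Q).Coprime (Q.relIndex L) := Nat.Coprime.coprime_dvd_right hrel hcopK
  have hsolL : Group.IsSolvable L := inferInstance
  have hLc : Nat.card L = Q.relIndex L * Nat.card Q := by
    have := Subgroup.relIndex_mul_relIndex (⊥ : Subgroup G) Q L bot_le hQL
    rw [Subgroup.relIndex_bot_left, Subgroup.relIndex_bot_left] at this
    rw [← this, mul_comm]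
  obtain ⟨H₀, hH₀⟩ := exists_card_eq (G := L) (Q.relIndex L) (Nat.card Q) hLc hcL.symm
  let H : Subgroup G := H₀.map L.subtype
  have hHL : H ≤ L := by
    rintro x ⟨y, -, rfl⟩
    exact y.2
  have hHc : Nat.card H = Q.relIndex L := by
    rw [Subgroup.card_map_of_injective L.subtype_injective, hH₀]
  have hHi : H.relIndex L = Nat.card Q := by
    have := Subgroup.relIndex_mul_relIndex (⊥ : Subgroup G) H L bot_le hHL
    rw [Subgroup.relIndex_bot_left, Subgroup.relIndex_bot_left, hHc, hLc] at this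
    have hpos : 0 < Q.relIndex L := by
      rw [← hHc]
      exact Nat.card_pos
    exact Nat.eq_of_mul_eq_mul_left hpos this
  have hoddI : (Q.relIndex L).Coprime 2 := by
    have h1 : Nat.Coprime (Nat.card Q) (Q.relIndex L) := hcL
    rw [hQ8, show 8 = 2 ^ 3 by norm_num] at h1
    exact ((Nat.coprime_pow_left_iff (by norm_num : 0 < 3) 2 _).mp h1).symm
  have hHZ : IsZGroup H := by
    apply isZ_of (fun p hp hp2 P hP hPp => hodd p hp hp2 P (hP.trans (hHL.trans hLK)) hPp)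
    intro P hPH hP2
    obtain ⟨k, hk⟩ := IsPGroup.iff_card.mp hP2
    have h1 : Nat.card P ∣ Nat.card H := Subgroup.card_dvd_of_le hPH
    rw [hHc, hk] at h1
    have h3 : Nat.Coprime (2 ^ k) 2 := Nat.Coprime.coprime_dvd_left h1 hoddI
    have h2 : Nat.card P = 1 := by
      rw [hk]
      rcases k with _ | k
      · simp
      · rw [pow_succ] at h3
        have := Nat.Coprime.coprime_mul_left h3
        norm_num at this
    have : Subsingleton P := (Nat.card_eq_one_iff_unique.mp h2).1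
    exact isCyclic_of_subsingleton
  -- Hall parts
  have hsolOf : ∀ A : Subgroup G, Group.IsSolvable A := fun A => inferInstance
  have hpart : ∀ A : Subgroup G, A ≤ L → ∃ A₀ : Subgroup G, A₀ ≤ A ∧ Nat.card A₀ = (A ⊓ Q).relIndex A ∧
      (A ⊓ Q) ⊔ A₀ = A ∧ Nat.card A₀ ∣ Q.relIndex L := by
    intro A hA
    have hd := relIndex_inf_dvd hA hQL hQn
    obtain ⟨A₀, h1, h2, h3⟩ := exists_hall_part (A := A) (A₁ := A ⊓ Q) inf_le_left (hsolOf A)
      (Nat.Coprime.coprime_dvd_left (Subgroup.card_dvd_of_le inf_le_right)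
        (Nat.Coprime.coprime_dvd_right hd hcL))
    exact ⟨A₀, h1, h2, h3, by rw [h2]; exact hd⟩
  obtain ⟨X₀, hX₀, hX₀c, hX₀s, hX₀d⟩ := hpart X hX
  obtain ⟨Y₀, hY₀, hY₀c, hY₀s, hY₀d⟩ := hpart Y hY
  have hcgX := card_inf_eq_gcd hX hQL hQn hcL
  have hcgY := card_inf_eq_gcd hY hQL hQn hcL
  have hIcard : Nat.card (X ⊓ Q : Subgroup G) = Nat.card (Y ⊓ Q : Subgroup G) := by
    rw [hcgX, hcgY, hXY]
  have hc₀ : Nat.card X₀ = Nat.card Y₀ := by
    rw [hX₀c, hY₀c]
    have h1 := card_eq_inf_mul X Q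
    have h2 := card_eq_inf_mul Y Q
    rw [hXY, h2, hIcard] at h1
    exact (Nat.eq_of_mul_eq_mul_left Nat.card_pos h1).symm
  have hcopH : (Nat.card H).Coprime (H.relIndex L) := by
    rw [hHc, hHi]
    exact hcL.symm
  obtain ⟨a, ha, hXa⟩ := exists_le_conj_of_le hsolL hHL (hX₀.trans hX) hcopH (by
    rw [hHi]
    exact (Nat.Coprime.coprime_dvd_right hX₀d hcL).symm)
  obtain ⟨b, hb, hYb⟩ := exists_le_conj_of_le hsolL hHL (hY₀.trans hY) hcopH (by
    rw [hHi]
    exact (Nat.Coprime.coprime_dvd_right hY₀d hcL).symm)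
  have hX' : MulAut.conj a⁻¹ • X₀ ≤ H := by
    have := conj_smul_mono (g := a⁻¹) hXa
    rwa [conj_smul_conj_smul, inv_mul_cancel, map_one, one_smul] at this
  have hY' : MulAut.conj b⁻¹ • Y₀ ≤ H := by
    have := conj_smul_mono (g := b⁻¹) hYb
    rwa [conj_smul_conj_smul, inv_mul_cancel, map_one, one_smul] at this
  obtain ⟨d, hd, hdXY⟩ := zgroup_conj_rel hHZ hX' hY' (by rw [card_conj_smul, card_conj_smul, hc₀])
  let c₁ : G := b * d * a⁻¹
  have hc₁ : c₁ ∈ L := L.mul_mem (L.mul_mem hb (hHL hd)) (L.inv_mem ha)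
  have hc₁X₀ : MulAut.conj c₁ • X₀ = Y₀ := by
    simp only [c₁]
    rw [← conj_smul_conj_smul, ← conj_smul_conj_smul, hdXY, conj_smul_conj_smul, mul_inv_cancel,
      map_one, one_smul]
  -- the two parts of `Q`
  let T₁ : Subgroup G := MulAut.conj c₁ • (X ⊓ Q)
  let T' : Subgroup G := Y ⊓ Q
  have hT₁Q : T₁ ≤ Q := by
    rw [conj_smul_le_iff]
    intro x hx
    exact hQn c₁ hc₁ x hx.2
  have hT'Q : T' ≤ Q := inf_le_right
  have hT₁c : Nat.card T₁ = Nat.card T' := by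
    simp only [T₁, T']
    rw [card_conj_smul, hIcard]
  have hc₁X : MulAut.conj c₁ • X = T₁ ⊔ Y₀ := by
    conv_lhs => rw [← hX₀s]
    rw [conj_smul_sup, hc₁X₀]
  by_cases hTT : T₁ = T'
  · refine ⟨c₁, hc₁, ?_⟩
    rw [hc₁X, hTT]
    exact hY₀s
  -- so these are different subgroups of order four
  have h4 := (eq_or_card_four e hT₁Q hT'Q hT₁c).resolve_left hTT
  obtain ⟨t₁, ht₁T, ht₁o, ht₁⟩ := eq_zpowers_of_card_four e hT₁Q h4
  obtain ⟨t₂, ht₂T, ht₂o, ht₂⟩ := eq_zpowers_of_card_four e hT'Q (by rw [← hT₁c]; exact h4)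
  have ht₁Q := hT₁Q ht₁T
  have ht₂Q := hT'Q ht₂T
  have hne : Subgroup.zpowers t₁ ≠ Subgroup.zpowers t₂ := by
    rw [← ht₁, ← ht₂]
    exact hTT
  -- `Y₀` centralizes `Q`
  have hY₀Q : ∀ y ∈ Y₀, ∀ q ∈ Q, y * q * y⁻¹ = q := by
    intro y hy
    have hyY := hY₀ hy
    have hyL := hY hyY
    have hyX : y ∈ MulAut.conj c₁ • X := by
      rw [hc₁X]
      exact (le_sup_right : Y₀ ≤ _) hy
    have h1 : y * t₁ * y⁻¹ ∈ Subgroup.zpowers t₁ := by
      rw [← ht₁]
      -- `T₁` is the intersection of the conjugate of `X` with `Q`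
      have h2 : t₁ ∈ MulAut.conj c₁ • X := (conj_smul_mono (g := c₁) (inf_le_left : X ⊓ Q ≤ X)) ht₁T
      have h3 : y * t₁ * y⁻¹ ∈ MulAut.conj c₁ • X := Subgroup.mul_mem _ (Subgroup.mul_mem _ hyX h2)
        (Subgroup.inv_mem _ hyX)
      have h4' : y * t₁ * y⁻¹ ∈ Q := hQn y hyL t₁ ht₁Q
      simp only [T₁]
      rw [mem_conj_smul_iff] at h3 ⊢
      refine ⟨h3, ?_⟩
      have h5 := hQn c₁⁻¹ (L.inv_mem hc₁) _ h4'
      simpa using h5
    have h2 : y * t₂ * y⁻¹ ∈ Subgroup.zpowers t₂ := by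
      rw [← ht₂]
      exact ⟨Y.mul_mem (Y.mul_mem hyY ht₂T.1) (Y.inv_mem hyY), hQn y hyL t₂ ht₂Q⟩
    have hoddy : Odd (orderOf y) := by
      have h3 : orderOf y ∣ Q.relIndex L := by
        refine dvd_trans ?_ hY₀d
        rw [← Subgroup.orderOf_mk y hy]
        exact orderOf_dvd_natCard _
      have h5 : (orderOf y).Coprime 2 := Nat.Coprime.coprime_dvd_left h3 hoddI
      exact Nat.odd_iff.mpr (by
        rcases Nat.mod_two_eq_zero_or_one (orderOf y) with h | h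
        · exfalso
          have : 2 ∣ orderOf y := Nat.dvd_of_mod_eq_zero h
          have h6 := Nat.Coprime.coprime_dvd_left this h5
          norm_num at h6
        · exact h)
    exact centralize_of_two e ht₁Q ht₂Q ht₁o ht₂o hne h1 h2 hoddy
  -- an element of `L` moving `T₁` to `T'`
  obtain ⟨k, hk, hkT, hkU⟩ := S.trans hU hinv ht₁Q ht₂Q ht₁o ht₂o
  have hkL : k ∈ L := hLn k hk hkU
  -- the centralizer of `Q` in `L`
  let C : Subgroup G := L ⊓ Subgroup.centralizer (Q : Set G)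
  have hCZ : IsZGroup C := by
    apply isZ_of (fun p hp hp2 P hP hPp => hodd p hp hp2 P (hP.trans (inf_le_left.trans hLK)) hPp)
    intro P hPC hP2
    have hPQ := le_Q_of_isPGroup hQ2 (hPC.trans (inf_le_left.trans hLK)) hP2
    rcases subgroup_cases e hPQ with ⟨-, hc, -⟩ | ⟨t, ht, hto⟩
    · exact hc
    · exfalso
      have h1 : t ∈ Subgroup.centralizer (Q : Set G) := (hPC ht).2
      rw [Subgroup.mem_centralizer_iff] at h1
      have h2 : (e ⟨t, hPQ ht⟩) ^ 2 = 1 := by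
        apply q8_central
        intro w
        obtain ⟨w', rfl⟩ := e.surjective w
        rw [← map_mul, ← map_mul]
        congr 1
        exact Subtype.ext (h1 _ w'.2).symm
      have h3 : (⟨t, hPQ ht⟩ : Q) ^ 2 = 1 := e.injective (by rw [map_pow, h2, map_one])
      have h5 : t ^ 2 = 1 := congrArg Subtype.val h3
      have h6 := orderOf_dvd_of_pow_eq_one h5
      rw [hto] at h6
      norm_num at h6
  have hYC : Y₀ ≤ C := by
    intro y hy
    refine ⟨hY (hY₀ hy), ?_⟩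
    change y ∈ Subgroup.centralizer (Q : Set G)
    rw [Subgroup.mem_centralizer_iff]
    intro q hq
    exact (mul_inv_eq_iff_eq_mul.mp (hY₀Q y hy q hq)).symm
  have hkYC : MulAut.conj k • Y₀ ≤ C := by
    rw [conj_smul_le_iff]
    intro y hy
    refine ⟨L.mul_mem (L.mul_mem hkL (hY (hY₀ hy))) (L.inv_mem hkL), ?_⟩
    change k * y * k⁻¹ ∈ Subgroup.centralizer (Q : Set G)
    rw [Subgroup.mem_centralizer_iff]
    intro q hq
    have hq' : k⁻¹ * q * k ∈ Q := by
      have := hQn k⁻¹ (L.inv_mem hkL) q hq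
      simpa using this
    have h1 := mul_inv_eq_iff_eq_mul.mp (hY₀Q y hy _ hq')
    calc q * (k * y * k⁻¹) = k * ((k⁻¹ * q * k) * y) * k⁻¹ := by group
      _ = k * (y * (k⁻¹ * q * k)) * k⁻¹ := by rw [h1]
      _ = k * y * k⁻¹ * q := by group
  obtain ⟨l, hl, hlY⟩ := zgroup_conj_rel hCZ hkYC hYC (by rw [card_conj_smul])
  let c₂ : G := l * k
  have hlL : l ∈ L := hl.1
  have hc₂ : c₂ ∈ L := L.mul_mem hlL hkL
  have hlQ : ∀ q ∈ Q, l * q * l⁻¹ = q := by
    intro q hq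
    have h1 : l ∈ Subgroup.centralizer (Q : Set G) := hl.2
    rw [Subgroup.mem_centralizer_iff] at h1
    exact mul_inv_eq_iff_eq_mul.mpr (h1 q hq).symm
  have hc₂Y : MulAut.conj c₂ • Y₀ = Y₀ := by
    simp only [c₂]
    rw [← conj_smul_conj_smul, hlY]
  have hc₂T : MulAut.conj c₂ • T₁ = T' := by
    simp only [c₂]
    rw [← conj_smul_conj_smul, ht₁, hkT, ← ht₂]
    apply conj_smul_eq_self_of_normal_le
    intro x hx
    exact hlQ x (hT'Q hx)
  refine ⟨c₂ * c₁, L.mul_mem hc₂ hc₁, ?_⟩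
  rw [← conj_smul_conj_smul, hc₁X, conj_smul_sup, hc₂T, hc₂Y]
  exact hY₀s

end

end Cfsg.Agent.Lib.AbConj
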