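import Cfsg.Agent.Lib.AbConj.Sylow
import Cfsg.Agent.Lib.PReduced.OmegaUnique

/-!
# The structure of a complement without `E_{p ^ 2}`: noncyclic Sylow `2`-subgroups are normal `Q₈`
-/

set_option autoImplicit false
set_option linter.unusedSectionVars false

open scoped Pointwise

namespace Cfsg.Agent.Lib.AbConj

open Cfsg.Agent.Lib.Solvable.Hall Cfsg.Agent.Lib.Solvable.HallRel
open Cfsg.Agent.Lib.Core.Basic Cfsg.Agent.Lib.Solvable.Fitting

universe u

section Quat

open QuaternionGroup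

variable {n : ℕ}

theorem quat_key (hn : 1 ≤ n) {A : Type*} [Group A] (hA : ∀ x y : A, x * y = y * x)
    (ψ : QuaternionGroup (2 ^ n) →* A) (hconj : ψ (xa 1) ∈ Subgroup.zpowers (ψ (xa 0))) :
    ∃ t : QuaternionGroup (2 ^ n), orderOf t = 4 ∧ ψ t = 1 := by
  haveI : NeZero (2 ^ n) := ⟨by positivity⟩
  have h1 : ψ (xa (0 - 1)) = ψ (xa (0 + 1)) := by
    rw [← a_mul_xa, ← xa_mul_a, map_mul, map_mul]
    exact hA _ _
  have h2 : ψ (a 2) = 1 := by
    have e : (xa (0 - 1) * a 2 : QuaternionGroup (2 ^ n)) = xa (0 + 1) := by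
      rw [xa_mul_a]
      congr 1
      ring
    have := congrArg ψ e
    rw [map_mul, h1] at this
    exact mul_eq_left.mp this
  have hb2 : ψ (a 1) ^ 2 = 1 := by
    rw [← map_pow, sq, a_mul_a, one_add_one_eq_two, h2]
  obtain ⟨m, rfl⟩ : ∃ m, n = m + 1 := ⟨n - 1, by omega⟩
  have hd2 : ψ (xa 0) ^ 2 = 1 := by
    rw [← map_pow, xa_sq]
    have e : (a ((2 ^ (m + 1) : ℕ) : ZMod (2 * 2 ^ (m + 1))) : QuaternionGroup (2 ^ (m + 1))) =
        a 1 ^ (2 ^ (m + 1)) := (a_one_pow _).symm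
    have aux : ∀ y : A, y ^ 2 = 1 → y ^ (2 ^ (m + 1)) = 1 := fun y hy => by
      rw [pow_succ', pow_mul, hy, one_pow]
    rw [e, map_pow]
    exact aux _ hb2
  have hb : ψ (a 1) ∈ Subgroup.zpowers (ψ (xa 0)) := by
    have e : ψ (xa 1) = ψ (xa 0) * ψ (a 1) := by
      rw [← map_mul, xa_mul_a, zero_add]
    rw [e] at hconj
    have := (Subgroup.mul_mem_cancel_left _ (Subgroup.mem_zpowers _)).mp hconj
    exact this
  obtain ⟨c, hc⟩ := hb
  simp only at hc
  rcases Int.even_or_odd' c with ⟨k, rfl | rfl⟩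
  · refine ⟨(a 1) ^ 2 ^ m, ?_, ?_⟩
    · rw [orderOf_pow_of_dvd (by positivity), orderOf_a_one]
      · rw [pow_succ]
        have : 2 ^ m ≠ 0 := by positivity
        have h3 : 2 * (2 ^ m * 2) = 2 ^ m * 4 := by ring
        rw [h3, Nat.mul_div_cancel_left _ (by positivity)]
      · rw [orderOf_a_one]
        exact ⟨4, by rw [pow_succ]; ring⟩
    · rw [map_pow, ← hc, zpow_mul, zpow_ofNat, hd2, one_zpow, one_pow]
  · refine ⟨xa (0 - 1), orderOf_xa _, ?_⟩
    rw [← a_mul_xa, map_mul, ← hc, zpow_add, zpow_mul, zpow_ofNat, hd2, one_zpow, one_mul, zpow_one,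
      ← sq, hd2]

theorem quat_gen_four (x : QuaternionGroup (2 ^ n)) :
    orderOf x = 4 ∨ ∃ s t : QuaternionGroup (2 ^ n), orderOf s = 4 ∧ orderOf t = 4 ∧ x = s * t := by
  haveI : NeZero (2 ^ n) := ⟨by positivity⟩
  rcases x with j | i
  · right
    refine ⟨xa 0, xa (j - ((2 ^ n : ℕ) : ZMod (2 * 2 ^ n))), orderOf_xa _, orderOf_xa _, ?_⟩
    rw [xa_mul_xa]
    congr 1
    ring
  · left
    exact orderOf_xa _

theorem quat_conj_not (hn : 2 ≤ n) :
    (a 1 * xa 0 * (a 1)⁻¹ : QuaternionGroup (2 ^ n)) ∉ Subgroup.zpowers (xa 0 : QuaternionGroup (2 ^ n)) := by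
  haveI : NeZero (2 ^ n) := ⟨by positivity⟩
  have hcomp : (a 1 * xa 0 * (a 1)⁻¹ : QuaternionGroup (2 ^ n)) = xa (-2) := by
    have h1 : (a 1)⁻¹ = (a (-1) : QuaternionGroup (2 ^ n)) := by
      apply inv_eq_of_mul_eq_one_right
      rw [a_mul_a, add_neg_cancel, a_zero]
    rw [h1, a_mul_xa, xa_mul_a]
    congr 1
    ring
  rintro ⟨m, hm⟩
  simp only at hm
  rw [hcomp] at hm
  have ho : orderOf (xa 0 : QuaternionGroup (2 ^ n)) = 4 := orderOf_xa 0
  have hm' : (xa 0 : QuaternionGroup (2 ^ n)) ^ (m % 4) = xa (-2) := by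
    have := zpow_mod_orderOf (xa 0 : QuaternionGroup (2 ^ n)) m
    rw [ho] at this
    exact_mod_cast this.trans hm
  have hM : 4 ≤ 2 ^ n := by
    calc 4 = 2 ^ 2 := by norm_num
      _ ≤ 2 ^ n := Nat.pow_le_pow_right (by norm_num) hn
  have hcase : m % 4 = 0 ∨ m % 4 = 1 ∨ m % 4 = 2 ∨ m % 4 = 3 := by omega
  have h2 : (xa 0 : QuaternionGroup (2 ^ n)) ^ 2 = a ((2 ^ n : ℕ) : ZMod (2 * 2 ^ n)) := xa_sq 0
  have hne0 : ¬ (-2 : ZMod (2 * 2 ^ n)) = 0 := by
    intro h
    have h3 : ((2 : ℕ) : ZMod (2 * 2 ^ n)) = 0 := by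
      push_cast
      linear_combination -h
    rw [ZMod.natCast_eq_zero_iff] at h3
    have := Nat.le_of_dvd (by norm_num) h3
    omega
  have hne1 : ¬ (-2 : ZMod (2 * 2 ^ n)) = ((2 ^ n : ℕ) : ZMod (2 * 2 ^ n)) := by
    intro h
    have h3 : ((2 ^ n + 2 : ℕ) : ZMod (2 * 2 ^ n)) = 0 := by
      push_cast at h ⊢
      linear_combination -h
    rw [ZMod.natCast_eq_zero_iff] at h3
    have := Nat.le_of_dvd (by positivity) h3
    omega
  rcases hcase with h | h | h | h <;> rw [h] at hm'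
  · simp only [zpow_zero, QuaternionGroup.one_def] at hm'
    cases hm'
  · simp only [zpow_one] at hm'
    exact hne0 (QuaternionGroup.xa.inj hm').symm
  · rw [show (2 : ℤ) = ((2 : ℕ) : ℤ) by norm_num, zpow_natCast, h2] at hm'
    cases hm'
  · rw [show (3 : ℤ) = ((2 : ℕ) : ℤ) + 1 by norm_num, zpow_add_one, zpow_natCast, h2, a_mul_xa] at hm'
    have h3 := QuaternionGroup.xa.inj hm'
    apply hne1
    have h4 : ((2 * 2 ^ n : ℕ) : ZMod (2 * 2 ^ n)) = 0 := ZMod.natCast_self _
    push_cast at h3 h4 ⊢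
    linear_combination (-1) * h3 - h4

theorem quat_normal_a (w : QuaternionGroup (2 ^ n)) (j : ZMod (2 * 2 ^ n)) :
    w * a j * w⁻¹ ∈ Subgroup.zpowers (a j : QuaternionGroup (2 ^ n)) := by
  rcases w with i | i
  · have h : (a i * a j : QuaternionGroup (2 ^ n)) = a j * a i := by
      rw [a_mul_a, a_mul_a, add_comm]
    rw [h, mul_inv_cancel_right]
    exact Subgroup.mem_zpowers _
  · have h : (a j * xa i * a j : QuaternionGroup (2 ^ n)) = xa i := by
      rw [a_mul_xa, xa_mul_a]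
      congr 1
      ring
    have h2 : (xa i * a j * (xa i)⁻¹ : QuaternionGroup (2 ^ n)) = (a j)⁻¹ := by
      have e : (xa i * a j : QuaternionGroup (2 ^ n)) = (a j)⁻¹ * (a j * xa i * a j) := by group
      rw [e, h, mul_inv_cancel_right]
    rw [h2]
    exact Subgroup.inv_mem _ (Subgroup.mem_zpowers _)

end Quat

section K

variable {K : Type*} [Group K] [Finite K]

theorem mem_of_order_four {D : Subgroup K} [hD : D.Normal] (hS : Star K) {t : K} (ht : t ∈ D)
    (hto : orderOf t = 4) {y : K} (hy : orderOf y = 4) : y ∈ D := by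
  obtain ⟨g, hg⟩ := hS.zpowers (x := t) (y := y) (by rw [hto, hy])
  have h1 : y ∈ MulAut.conj g • Subgroup.zpowers t := by
    rw [hg]
    exact Subgroup.mem_zpowers y
  rw [mem_conj_smul_iff] at h1
  obtain ⟨a, ha⟩ := h1
  have h2 : g⁻¹ * y * g ∈ D := by
    rw [← ha]
    exact Subgroup.zpow_mem _ ht a
  have h3 := hD.conj_mem _ h2 g
  have e : g * (g⁻¹ * y * g) * g⁻¹ = y := by group
  rwa [e] at h3

theorem le_of_order_four {Q : Subgroup K} {n : ℕ} (e : Q ≃* QuaternionGroup (2 ^ n))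
    {D : Subgroup K} (hD : ∀ y : K, orderOf y = 4 → y ∈ D) : Q ≤ D := by
  intro x hx
  have hx' : x = (e.symm (e ⟨x, hx⟩) : Q) := by simp
  have hord : ∀ w : QuaternionGroup (2 ^ n), orderOf w = 4 → ((e.symm w : Q) : K) ∈ D := by
    intro w hw
    apply hD
    rw [Subgroup.orderOf_coe, MulEquiv.orderOf_eq, hw]
  rcases quat_gen_four (e ⟨x, hx⟩) with h | ⟨s, t, hs, ht, hst⟩
  · rw [hx']
    exact hord _ h
  · rw [hx', hst, map_mul]
    exact D.mul_mem (hord _ hs) (hord _ ht)

/-- A homomorphism to an abelian group kills `Q`. -/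
theorem hom_kills {Q : Subgroup K} {n : ℕ} (hn : 1 ≤ n) (e : Q ≃* QuaternionGroup (2 ^ n))
    (hS : Star K) {A : Type*} [Group A] (hA : ∀ x y : A, x * y = y * x) (φ : K →* A) :
    ∀ q ∈ Q, φ q = 1 := by
  haveI : NeZero (2 ^ n) := ⟨by positivity⟩
  have hord : ∀ w : QuaternionGroup (2 ^ n), orderOf w = 4 → orderOf ((e.symm w : Q) : K) = 4 := by
    intro w hw
    rw [Subgroup.orderOf_coe, MulEquiv.orderOf_eq, hw]
  have hz : ∀ x y : K, orderOf x = 4 → orderOf y = 4 → φ y ∈ Subgroup.zpowers (φ x) := by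
    intro x y hx hy
    obtain ⟨g, hg⟩ := hS.zpowers (x := x) (y := y) (by rw [hx, hy])
    have h1 : y ∈ MulAut.conj g • Subgroup.zpowers x := by
      rw [hg]
      exact Subgroup.mem_zpowers y
    rw [mem_conj_smul_iff] at h1
    obtain ⟨a, ha⟩ := h1
    simp only at ha
    have h2 : φ y = φ x ^ a := by
      have e1 : y = g * (g⁻¹ * y * g) * g⁻¹ := by group
      rw [e1, ← ha, map_mul, map_mul, map_zpow, map_inv, hA (φ g), mul_assoc, mul_inv_cancel, mul_one]
    rw [h2]
    exact Subgroup.zpow_mem_zpowers _ _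
  let ψ : QuaternionGroup (2 ^ n) →* A := φ.comp (Q.subtype.comp e.symm.toMonoidHom)
  obtain ⟨t, ht, hψt⟩ := quat_key hn hA ψ (hz _ _ (hord _ (QuaternionGroup.orderOf_xa _))
    (hord _ (QuaternionGroup.orderOf_xa _)))
  have hker : ∀ y : K, orderOf y = 4 → y ∈ φ.ker := by
    intro y hy
    have h1 := hz _ y (hord t ht) hy
    have h2 : φ ((e.symm t : Q) : K) = 1 := hψt
    rw [h2, Subgroup.zpowers_one_eq_bot, Subgroup.mem_bot] at h1
    exact h1
  intro q hq
  exact le_of_order_four e hker hq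

theorem mulAut_comm_of_isCyclic {C : Type*} [Group C] [IsCyclic C] (σ τ : MulAut C) :
    σ * τ = τ * σ := by
  apply (IsCyclic.mulAutMulEquiv C).injective
  rw [map_mul, map_mul, mul_comm]

theorem centralize_of_isCyclic {Q : Subgroup K} {n : ℕ} (hn : 1 ≤ n)
    (e : Q ≃* QuaternionGroup (2 ^ n)) (hS : Star K) {L : Type*} [Group L] (π : K →* L)
    (X : Subgroup L) [X.Normal] [IsCyclic X] : ∀ q ∈ Q, ∀ x ∈ X, π q * x * (π q)⁻¹ = x := by
  intro q hq
  have h1 := hom_kills hn e hS (A := MulAut X) mulAut_comm_of_isCyclic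
    ((MulAut.conjNormal : L →* MulAut X).comp π) q hq
  exact conjNormal_eq_one_iff.mp h1

/-- The group of odd order normal part has cyclic Sylow subgroups. -/
theorem isZGroup_of_odd {N : Subgroup K} (hE : ∀ (p : ℕ) [Fact p.Prime], ¬ HasE p K)
    (hN : (Nat.card N).Coprime 2) : IsZGroup N := by
  constructor
  intro p hp P
  haveI : Fact p.Prime := ⟨hp⟩
  by_cases hp2 : p = 2
  · subst hp2
    obtain ⟨k, hk⟩ := IsPGroup.iff_card.mp P.isPGroup'
    have h1 : Nat.card P ∣ Nat.card N := Subgroup.card_subgroup_dvd_card _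
    have h2 : Nat.card P = 1 := by
      rw [hk] at h1 ⊢
      have h3 : Nat.Coprime (2 ^ k) 2 := Nat.Coprime.coprime_dvd_left h1 hN
      rcases k with _ | k
      · simp
      · rw [pow_succ] at h3
        have := Nat.Coprime.coprime_mul_left h3
        norm_num at this
    have : Subsingleton P := (Nat.card_eq_one_iff_unique.mp h2).1
    exact isCyclic_of_subsingleton
  · have hmap : IsPGroup p ((P : Subgroup N).map N.subtype) := P.isPGroup'.map _
    rcases cyclic_or_quat_of_not_hasE (hE p) _ hmap with h | ⟨h, -⟩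
    · exact isCyclic_of_injective
        (Subgroup.equivMapOfInjective (P : Subgroup N) N.subtype N.subtype_injective).toMonoidHom
        (MulEquiv.injective _)
    · exact absurd h hp2

theorem eq_one_of_coprime_two {N : Subgroup K} (hN : (Nat.card N).Coprime 2) {d : K} (hd : d ∈ N)
    {a : ℕ} (h : d ^ 2 ^ a = 1) : d = 1 := by
  have h1 : orderOf d ∣ 2 ^ a := orderOf_dvd_of_pow_eq_one h
  have h2 : orderOf d ∣ Nat.card N := by
    rw [← Subgroup.orderOf_mk d hd]
    exact orderOf_dvd_natCard _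
  have h3 : Nat.Coprime (Nat.card N) (2 ^ a) := Nat.Coprime.pow_right a hN
  have h4 := Nat.dvd_gcd h2 h1
  rw [h3, Nat.dvd_one, orderOf_eq_one_iff] at h4
  exact h4

/-- `Q` centralizes a normal subgroup of odd order. -/
theorem centralize_odd {Q N : Subgroup K} [hNn : N.Normal] {n : ℕ} (hn : 1 ≤ n)
    (e : Q ≃* QuaternionGroup (2 ^ n)) (hQ : IsPGroup 2 Q) (hS : Star K)
    (hE : ∀ (p : ℕ) [Fact p.Prime], ¬ HasE p K) (hN : (Nat.card N).Coprime 2) :
    ∀ q ∈ Q, ∀ m ∈ N, q * m * q⁻¹ = m := by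
  haveI hZ : IsZGroup N := isZGroup_of_odd hE hN
  have hmap : (commutator N).map N.subtype = ⁅N, N⁆ := Subgroup.map_subtype_commutator N
  haveI hc1 : IsCyclic (⁅N, N⁆ : Subgroup K) := by
    rw [← hmap]
    haveI := IsZGroup.isCyclic_commutator N
    exact isCyclic_of_surjective _
      (Subgroup.equivMapOfInjective (commutator N) N.subtype N.subtype_injective).surjective
  have hN'N : (⁅N, N⁆ : Subgroup K) ≤ N := Subgroup.commutator_le_left N N
  have h1 := centralize_of_isCyclic hn e hS (MonoidHom.id K) ⁅N, N⁆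
  let π' : K →* K ⧸ (⁅N, N⁆ : Subgroup K) := QuotientGroup.mk' _
  have hπ' : Function.Surjective π' := QuotientGroup.mk'_surjective _
  haveI hXn : (N.map π').Normal := hNn.map π' hπ'
  haveI hXc : IsCyclic (N.map π') := by
    let f : N →* N.map π' := π'.subgroupMap N
    have hf : Function.Surjective f := π'.subgroupMap_surjective N
    have hk : ∀ x ∈ commutator N, f x = 1 := by
      intro x hx
      apply Subtype.ext
      have h2 : (x : K) ∈ (⁅N, N⁆ : Subgroup K) := by
        rw [← hmap]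
        exact Subgroup.mem_map_of_mem _ hx
      exact (QuotientGroup.eq_one_iff (x : K)).mpr h2
    let f' : Abelianization N →* N.map π' := QuotientGroup.lift (commutator N) f hk
    apply isCyclic_of_surjective f'
    intro y
    obtain ⟨x, hx⟩ := hf y
    exact ⟨(x : N ⧸ commutator N), hx⟩
  have h2 := centralize_of_isCyclic hn e hS π' (N.map π')
  intro q hq m hm
  let d : K := q * m * q⁻¹ * m⁻¹
  have hd : d ∈ (⁅N, N⁆ : Subgroup K) := by
    have h3 := h2 q hq (π' m) (Subgroup.mem_map_of_mem _ hm)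
    have h4 : π' d = 1 := by
      simp only [d, map_mul, map_inv]
      rw [h3, mul_inv_cancel]
    exact (QuotientGroup.eq_one_iff d).mp h4
  have hdq : Commute q d := by
    have h3 := h1 q hq d hd
    exact mul_inv_eq_iff_eq_mul.mp h3
  have hqm : q * m = d * m * q := by
    simp only [d]
    group
  have hpow : ∀ i : ℕ, q ^ i * m = d ^ i * m * q ^ i := by
    intro i
    induction i with
    | zero => simp
    | succ i ih =>
      calc q ^ (i + 1) * m = q ^ i * (q * m) := by rw [pow_succ]; group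
        _ = q ^ i * (d * m * q) := by rw [hqm]
        _ = d * (q ^ i * m) * q := by
          have := (hdq.pow_left i).eq
          simp only [← mul_assoc]
          rw [this]
        _ = d * (d ^ i * m * q ^ i) * q := by rw [ih]
        _ = d ^ (i + 1) * m * q ^ (i + 1) := by
          rw [pow_succ', pow_succ]
          group
  obtain ⟨a, ha⟩ := hQ ⟨q, hq⟩
  have ha' : q ^ 2 ^ a = 1 := congrArg Subtype.val ha
  have h5 := hpow (2 ^ a)
  rw [ha', one_mul, mul_one] at h5
  have h6 : d ^ 2 ^ a = 1 := by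
    have : d ^ 2 ^ a * m = 1 * m := by rw [one_mul]; exact h5.symm
    exact mul_right_cancel this
  have h7 := eq_one_of_coprime_two hN (hN'N hd) h6
  have h8 : q * m * q⁻¹ * m⁻¹ = 1 := h7
  exact mul_inv_eq_one.mp h8

theorem exists_order_four_of_sq_ne {Q : Subgroup K} (hQ : IsPGroup 2 Q) {x : K} (hx : x ∈ Q)
    (hx2 : x ^ 2 ≠ 1) : ∃ k : ℕ, orderOf (x ^ k) = 4 := by
  obtain ⟨a, ha⟩ := hQ ⟨x, hx⟩
  have ha' : x ^ 2 ^ a = 1 := congrArg Subtype.val ha
  obtain ⟨m, -, hm⟩ := (Nat.dvd_prime_pow Nat.prime_two).mp (orderOf_dvd_of_pow_eq_one ha')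
  have hm2 : 2 ≤ m := by
    by_contra h
    push Not at h
    apply hx2
    apply orderOf_dvd_iff_pow_eq_one.mp
    rw [hm]
    exact pow_dvd_pow 2 (by omega : m ≤ 1) |>.trans (by norm_num)
  obtain ⟨m', rfl⟩ : ∃ m', m = m' + 2 := ⟨m - 2, by omega⟩
  refine ⟨2 ^ m', ?_⟩
  rw [orderOf_pow_of_dvd (by positivity) (by rw [hm]; exact pow_dvd_pow 2 (by omega)), hm, pow_add,
    Nat.mul_div_cancel_left _ (by positivity)]
  norm_num

/-- A Sylow `2`-subgroup which is generalized quaternion is normal. -/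
theorem quat_normal [Group.IsSolvable K] {n : ℕ} (hn : 1 ≤ n) (P : Sylow 2 K)
    (e : (P : Subgroup K) ≃* QuaternionGroup (2 ^ n)) (hS : Star K)
    (hE : ∀ (p : ℕ) [Fact p.Prime], ¬ HasE p K) : (P : Subgroup K).Normal := by
  classical
  haveI : NeZero (2 ^ n) := ⟨by positivity⟩
  haveI : Fact (Nat.Prime 2) := ⟨Nat.prime_two⟩
  let Q : Subgroup K := P
  have hQ : IsPGroup 2 Q := P.isPGroup'
  let N : Subgroup K := pPrimeCore 2 K
  have hNodd : (Nat.card N).Coprime 2 := pPrimeCore_coprime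
  let π : K →* K ⧸ N := QuotientGroup.mk' N
  have hπ : Function.Surjective π := QuotientGroup.mk'_surjective N
  let Rb : Subgroup (K ⧸ N) := pCore 2 (K ⧸ N)
  have hRbP : ∀ r ∈ Rb, ∃ x ∈ Q, π x = r := by
    intro r hr
    have h1 := pCore_le_sylow (P.mapSurjective hπ) hr
    exact h1
  have hO : pPrimeCore 2 (K ⧸ N) = ⊥ := pPrimeCore_quotient_eq_bot
  have hC : Subgroup.centralizer (Rb : Set (K ⧸ N)) ≤ Rb := centralizer_pCore_le 2 hO
  have hord : ∀ w : QuaternionGroup (2 ^ n), orderOf w = 4 → orderOf ((e.symm w : Q) : K) = 4 := by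
    intro w hw
    rw [Subgroup.orderOf_coe, MulEquiv.orderOf_eq, hw]
  have hex : ∃ x ∈ Q, π x ∈ Rb ∧ x ^ 2 ≠ 1 := by
    by_contra hall
    push Not at hall
    let z : K := (e.symm (QuaternionGroup.a ((2 ^ n : ℕ) : ZMod (2 * 2 ^ n))) : Q)
    have hRz : ∀ r ∈ Rb, r = 1 ∨ r = π z := by
      intro r hr
      obtain ⟨x, hx, rfl⟩ := hRbP r hr
      have h2 := hall x hx hr
      have h3 : (e ⟨x, hx⟩) ^ 2 = 1 := by
        rw [← map_pow]
        have : (⟨x, hx⟩ : Q) ^ 2 = 1 := Subtype.ext h2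
        rw [this, map_one]
      rcases Cfsg.Agent.Lib.PReduced.OmegaUnique.sq_eq_one_quaternion _ h3 with h4 | h4
      · left
        have h5 : (⟨x, hx⟩ : Q) = 1 := by
          apply e.injective
          rw [h4, map_one]
        rw [show x = 1 from congrArg Subtype.val h5, map_one]
      · right
        have h5 : (⟨x, hx⟩ : Q) = e.symm (QuaternionGroup.a ((2 ^ n : ℕ) : ZMod (2 * 2 ^ n))) := by
          apply e.injective
          rw [h4, MulEquiv.apply_symm_apply]
        exact congrArg π (congrArg Subtype.val h5)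
    have hRn : Rb.Normal := inferInstance
    have hall2 : ∀ k : K ⧸ N, k ∈ Rb := by
      intro k
      apply hC
      rw [Subgroup.mem_centralizer_iff]
      intro r hr
      have hr' : r ∈ Rb := hr
      rcases hRz r hr' with rfl | h1
      · simp
      · by_cases hz1 : π z = 1
        · rw [h1, hz1]
          simp
        have h2 := hRn.conj_mem r hr' k
        rcases hRz _ h2 with h3 | h3
        · exfalso
          rw [conj_eq_one_iff] at h3
          exact hz1 (h1 ▸ h3)
        · rw [← h1] at h3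
          exact (mul_inv_eq_iff_eq_mul.mp h3).symm
    have hx₀ := hall2 (π ((e.symm (QuaternionGroup.xa 0) : Q) : K))
    have h1 := hall _ (e.symm (QuaternionGroup.xa 0) : Q).2 hx₀
    have h2 := hord (QuaternionGroup.xa 0) (QuaternionGroup.orderOf_xa _)
    have h3 := orderOf_dvd_of_pow_eq_one h1
    rw [h2] at h3
    norm_num at h3
  obtain ⟨x, hxQ, hxR, hx2⟩ := hex
  obtain ⟨k, hk⟩ := exists_order_four_of_sq_ne hQ hxQ hx2
  let M : Subgroup K := Rb.comap π
  haveI hMn : M.Normal := inferInstance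
  have htM : x ^ k ∈ M := by
    change π (x ^ k) ∈ Rb
    rw [map_pow]
    exact Rb.pow_mem hxR k
  have hQM : Q ≤ M := le_of_order_four e (fun y hy => mem_of_order_four hS htM hk hy)
  have hcent := centralize_odd (N := N) hn e hQ hS hE hNodd
  constructor
  intro x hx g
  have h1 : g * x * g⁻¹ ∈ M := hMn.conj_mem x (hQM hx) g
  obtain ⟨y, hy, hyx⟩ := hRbP _ h1
  have h2 : y⁻¹ * (g * x * g⁻¹) ∈ N := QuotientGroup.eq.mp hyx
  let m : K := y⁻¹ * (g * x * g⁻¹)
  have hym : Commute y m := by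
    have := hcent y hy m h2
    exact mul_inv_eq_iff_eq_mul.mp this
  have hgx : g * x * g⁻¹ = y * m := by
    simp [m]
  obtain ⟨a, ha⟩ := IsPGroup.iff_card.mp hQ
  have hxa : x ^ 2 ^ a = 1 := by
    rw [← ha]
    have : (⟨x, hx⟩ : Q) ^ Nat.card Q = 1 := pow_card_eq_one'
    exact congrArg Subtype.val this
  have hya : y ^ 2 ^ a = 1 := by
    rw [← ha]
    have : (⟨y, hy⟩ : Q) ^ Nat.card Q = 1 := pow_card_eq_one'
    exact congrArg Subtype.val this
  have h3 : m ^ 2 ^ a = 1 := by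
    have h4 : (g * x * g⁻¹) ^ 2 ^ a = 1 := by
      rw [conj_pow, hxa]
      group
    rw [hgx, hym.mul_pow, hya, one_mul] at h4
    exact h4
  have h5 : m = 1 := eq_one_of_coprime_two hNodd h2 h3
  rw [hgx, h5, mul_one]
  exact hy

/-- The structure theorem for the complement. -/
theorem kstruct [Group.IsSolvable K] (hS : Star K) (hE : ∀ (p : ℕ) [Fact p.Prime], ¬ HasE p K)
    (hnz : ¬ IsZGroup K) :
    ∃ Q : Subgroup K, Q.Normal ∧ Nonempty (Q ≃* QuaternionGroup 2) ∧ (Nat.card Q).Coprime Q.index := by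
  classical
  have hex : ∃ (p : ℕ) (_ : Fact p.Prime) (P : Sylow p K), ¬ IsCyclic P := by
    by_contra h
    push Not at h
    apply hnz
    constructor
    intro p hp P
    exact h p ⟨hp⟩ P
  obtain ⟨p, hp, P, hPc⟩ := hex
  rcases cyclic_or_quat_of_not_hasE (hE p) (P : Subgroup K) P.isPGroup' with hc | ⟨rfl, n, ⟨e⟩⟩
  · exact absurd hc hPc
  have hn : 1 ≤ n := by
    by_contra h
    have h0 : n = 0 := by omega
    subst h0
    haveI : IsCyclic (QuaternionGroup (2 ^ 0)) := QuaternionGroup.quaternionGroup_one_isCyclic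
    exact hPc (isCyclic_of_surjective _ e.symm.surjective)
  have hQn := quat_normal hn P e hS hE
  have hn1 : n = 1 := by
    by_contra hne
    have hn2 : 2 ≤ n := by omega
    haveI : NeZero (2 ^ n) := ⟨by positivity⟩
    obtain ⟨m, rfl⟩ : ∃ m, n = m + 1 := ⟨n - 1, by omega⟩
    let j : ZMod (2 * 2 ^ (m + 1)) := ((2 ^ m : ℕ) : ZMod (2 * 2 ^ (m + 1)))
    have hjo : orderOf (QuaternionGroup.a j : QuaternionGroup (2 ^ (m + 1))) = 4 := by
      have e1 : (QuaternionGroup.a j : QuaternionGroup (2 ^ (m + 1))) = QuaternionGroup.a 1 ^ 2 ^ m :=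
        (QuaternionGroup.a_one_pow _).symm
      rw [e1, orderOf_pow_of_dvd (by positivity), QuaternionGroup.orderOf_a_one]
      · rw [pow_succ]
        have h3 : 2 * (2 ^ m * 2) = 2 ^ m * 4 := by ring
        rw [h3, Nat.mul_div_cancel_left _ (by positivity)]
      · rw [QuaternionGroup.orderOf_a_one]
        exact ⟨4, by rw [pow_succ]; ring⟩
    have hord : ∀ w : QuaternionGroup (2 ^ (m + 1)), orderOf w = 4 →
        orderOf (((e.symm w : (P : Subgroup K))) : K) = 4 := by
      intro w hw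
      rw [Subgroup.orderOf_coe, MulEquiv.orderOf_eq, hw]
    let t₁ : K := (e.symm (QuaternionGroup.a j) : (P : Subgroup K))
    let t₂ : K := (e.symm (QuaternionGroup.xa 0) : (P : Subgroup K))
    let c : K := (e.symm (QuaternionGroup.a 1) : (P : Subgroup K))
    have hc : c ∈ (P : Subgroup K) := (e.symm (QuaternionGroup.a 1)).2
    have hnorm : ∀ q ∈ (P : Subgroup K), q * t₁ * q⁻¹ ∈ Subgroup.zpowers t₁ := by
      intro q hq
      obtain ⟨b, hb⟩ := quat_normal_a (e ⟨q, hq⟩) j
      simp only at hb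
      refine ⟨b, ?_⟩
      have h1 := congrArg (fun w => ((e.symm w : (P : Subgroup K)) : K)) hb
      simp only [map_zpow, map_mul, map_inv, MulEquiv.symm_apply_apply, Subgroup.coe_zpow,
        Subgroup.coe_mul, Subgroup.coe_inv] at h1
      exact h1
    obtain ⟨g, hg⟩ := hS.zpowers (x := t₁) (y := t₂) (by
      rw [hord _ hjo, hord _ (QuaternionGroup.orderOf_xa _)])
    have h1 : t₂ ∈ MulAut.conj g • Subgroup.zpowers t₁ := by
      rw [hg]
      exact Subgroup.mem_zpowers _
    rw [mem_conj_smul_iff] at h1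
    obtain ⟨b, hb⟩ := h1
    simp only at hb
    have h2 : g⁻¹ * c * g ∈ (P : Subgroup K) := by
      have := hQn.conj_mem c hc g⁻¹
      simpa using this
    obtain ⟨b', hb'⟩ := hnorm _ h2
    simp only at hb'
    have h3 : c * t₂ * c⁻¹ ∈ MulAut.conj g • Subgroup.zpowers t₁ := by
      rw [mem_conj_smul_iff]
      refine ⟨b' * b, ?_⟩
      simp only
      rw [zpow_mul, hb', conj_zpow, hb]
      group
    rw [hg] at h3
    obtain ⟨d, hd⟩ := h3
    simp only at hd
    apply quat_conj_not hn2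
    refine ⟨d, ?_⟩
    simp only
    apply e.symm.injective
    apply Subtype.ext
    simp only [map_zpow, map_mul, map_inv, Subgroup.coe_zpow, Subgroup.coe_mul, Subgroup.coe_inv]
    exact hd
  subst hn1
  exact ⟨P, hQn, ⟨e⟩, P.card_coprime_index⟩

end K

end Cfsg.Agent.Lib.AbConj
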