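import Cfsg.Agent.Lib.AbConj.Q8

/-!
# Elementary abelian groups: subgroups through a point avoiding another point, and lines
-/

set_option autoImplicit false
set_option linter.unusedSectionVars false

open scoped Pointwise

namespace Cfsg.Agent.Lib.AbConj

open Cfsg.Agent.Lib.Solvable.Hall Cfsg.Agent.Lib.Solvable.HallRel

variable {G : Type*} [Group G] [Finite G]

section

variable {r : ℕ} [hr : Fact r.Prime] {R : Subgroup G}

/-- In an elementary abelian group a subgroup of any given order contains `v` and avoids `w`, if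
`w` is not a power of `v` and the order is proper and nontrivial. -/
theorem exists_between (hRc : ∀ x ∈ R, ∀ y ∈ R, x * y = y * x) (hRe : ∀ x ∈ R, x ^ r = 1)
    {v w : G} (hv : v ∈ R) (hw : w ∈ R) (hvw : w ∉ Subgroup.zpowers v) {W : Subgroup G} (hWR : W ≤ R)
    (hW1 : W ≠ ⊥) (hW2 : W ≠ R) : ∃ Y : Subgroup G, Y ≤ R ∧ Nat.card Y = Nat.card W ∧ v ∈ Y ∧ w ∉ Y := by
  classical
  have hP : IsPGroup r R := fun x => ⟨1, Subtype.ext (by simpa using hRe x x.2)⟩
  let s : Set (Subgroup G) := {Y | Y ≤ R ∧ v ∈ Y ∧ w ∉ Y}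
  have h0 : Subgroup.zpowers v ∈ s := ⟨by rw [Subgroup.zpowers_le]; exact hv, Subgroup.mem_zpowers v, hvw⟩
  obtain ⟨Y₁, hY₁⟩ := (Set.toFinite s).exists_maximal ⟨_, h0⟩
  obtain ⟨⟨hY₁R, hvY₁, hwY₁⟩, hY₁max⟩ := hY₁
  have hw1 : w ≠ 1 := fun h => hvw (by rw [h]; exact Subgroup.one_mem _)
  have how : orderOf w = r := orderOf_eq_prime (hRe w hw) hw1
  have hcY : ∀ x ∈ Y₁, ∀ y ∈ Subgroup.zpowers w, x * y = y * x := by
    intro x hx y hy
    have hyR : y ∈ R := by
      have : Subgroup.zpowers w ≤ R := by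
        rw [Subgroup.zpowers_le]
        exact hw
      exact this hy
    exact hRc x (hY₁R hx) y hyR
  have hsup : Y₁ ⊔ Subgroup.zpowers w = R := by
    apply le_antisymm
    · apply sup_le hY₁R
      rw [Subgroup.zpowers_le]
      exact hw
    · intro u hu
      by_contra hux
      have hu1 : u ≠ 1 := fun h => hux (by rw [h]; exact Subgroup.one_mem _)
      have hou : orderOf u = r := orderOf_eq_prime (hRe u hu) hu1
      have huY : Subgroup.zpowers u ≤ R := by
        rw [Subgroup.zpowers_le]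
        exact hu
      by_cases hwY₂ : w ∈ Y₁ ⊔ Subgroup.zpowers u
      · have hc : ∀ x ∈ Y₁, ∀ y ∈ Subgroup.zpowers u, x * y = y * x :=
          fun x hx y hy => hRc x (hY₁R hx) y (huY hy)
        obtain ⟨y, hy, b, hb, hwe⟩ := exists_mul_of_mem_sup_of_commute _ _ hc hwY₂
        by_cases hb1 : b = 1
        · apply hwY₁
          rw [hwe, hb1, mul_one]
          exact hy
        · have h1 : u ∈ Subgroup.zpowers b :=
            mem_zpowers_of_orderOf_prime (by rw [hou]; exact hr.out) hb hb1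
          have h2 : b ∈ Y₁ ⊔ Subgroup.zpowers w := by
            have e : b = y⁻¹ * w := by rw [hwe]; group
            rw [e]
            exact Subgroup.mul_mem _ ((le_sup_left : Y₁ ≤ _) (Y₁.inv_mem hy))
              ((le_sup_right : Subgroup.zpowers w ≤ _) (Subgroup.mem_zpowers w))
          have h3 : Subgroup.zpowers b ≤ Y₁ ⊔ Subgroup.zpowers w := by
            rw [Subgroup.zpowers_le]
            exact h2
          exact hux (h3 h1)
      · have h1 : Y₁ ⊔ Subgroup.zpowers u ∈ s :=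
          ⟨sup_le hY₁R huY, (le_sup_left : Y₁ ≤ _) hvY₁, hwY₂⟩
        have h2 := hY₁max h1 le_sup_left
        have h3 : u ∈ Y₁ := h2 ((le_sup_right : Subgroup.zpowers u ≤ _) (Subgroup.mem_zpowers u))
        exact hux ((le_sup_left : Y₁ ≤ _) h3)
  have hdis : Y₁ ⊓ Subgroup.zpowers w = ⊥ := by
    rw [eq_bot_iff]
    rintro x ⟨hx1, hx2⟩
    rw [Subgroup.mem_bot]
    by_contra hx
    have h1 : w ∈ Subgroup.zpowers x :=
      mem_zpowers_of_orderOf_prime (by rw [how]; exact hr.out) hx2 hx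
    have h2 : Subgroup.zpowers x ≤ Y₁ := by
      rw [Subgroup.zpowers_le]
      exact hx1
    exact hwY₁ (h2 h1)
  have hcardR : Nat.card R = Nat.card Y₁ * r := by
    rw [← hsup, card_sup_of_commute _ _ hcY hdis, Nat.card_zpowers, how]
  obtain ⟨n, hn⟩ := IsPGroup.iff_card.mp hP
  obtain ⟨d, -, hd⟩ := (Nat.dvd_prime_pow hr.out).mp (hn ▸ Subgroup.card_dvd_of_le hWR)
  have hdn : d < n := by
    by_contra h
    push Not at h
    apply hW2
    apply Subgroup.eq_of_le_of_card_ge hWR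
    rw [hn, hd]
    exact Nat.pow_le_pow_right hr.out.pos h
  have hd1 : 1 ≤ d := by
    by_contra h
    have h0 : d = 0 := by omega
    apply hW1
    rw [h0, pow_zero] at hd
    exact Subgroup.eq_bot_of_card_eq _ hd
  have hY₁c : Nat.card Y₁ = r ^ (n - 1) := by
    have h1 : Nat.card Y₁ * r = r ^ (n - 1) * r := by
      rw [← hcardR, hn, ← pow_succ]
      congr 1
      omega
    exact Nat.eq_of_mul_eq_mul_right hr.out.pos h1
  -- a subgroup of order `r ^ d` in `Y₁` containing `v`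
  have hH : ∃ k ≤ 1, Nat.card ((Subgroup.zpowers v).subgroupOf Y₁) = r ^ k := by
    have hle : Subgroup.zpowers v ≤ Y₁ := by
      rw [Subgroup.zpowers_le]
      exact hvY₁
    rw [card_subgroupOf_of_le hle, Nat.card_zpowers]
    by_cases hv1 : v = 1
    · exact ⟨0, by omega, by simp [hv1]⟩
    · exact ⟨1, le_rfl, by rw [orderOf_eq_prime (hRe v hv) hv1, pow_one]⟩
  obtain ⟨k, hk1, hk⟩ := hH
  obtain ⟨Y'', hY''c, hY''⟩ := Sylow.exists_subgroup_card_pow_prime_le r (n := k) (m := d)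
    (G := Y₁) (by rw [hY₁c]; exact pow_dvd_pow r (by omega)) _ hk (by omega)
  refine ⟨Y''.map Y₁.subtype, ?_, ?_, ?_, ?_⟩
  · rintro x ⟨y, -, rfl⟩
    exact hY₁R y.2
  · rw [Subgroup.card_map_of_injective Y₁.subtype_injective, hY''c, hd]
  · have h1 : (⟨v, hvY₁⟩ : Y₁) ∈ (Subgroup.zpowers v).subgroupOf Y₁ := by
      rw [Subgroup.mem_subgroupOf]
      exact Subgroup.mem_zpowers v
    exact ⟨⟨v, hvY₁⟩, hY'' h1, rfl⟩
  · rintro ⟨y, -, hy⟩
    apply hwY₁
    rw [← hy]
    exact y.2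

/-- An element preserving all subgroups of the order of `W` preserves all lines. -/
theorem line_of_all (hRc : ∀ x ∈ R, ∀ y ∈ R, x * y = y * x) (hRe : ∀ x ∈ R, x ^ r = 1)
    {W : Subgroup G} (hWR : W ≤ R) (hW1 : W ≠ ⊥) (hW2 : W ≠ R) {q : G}
    (hqR : ∀ x ∈ R, q * x * q⁻¹ ∈ R)
    (hq : ∀ Y : Subgroup G, Y ≤ R → Nat.card Y = Nat.card W → ∀ y ∈ Y, q * y * q⁻¹ ∈ Y) :
    ∀ v ∈ R, q * v * q⁻¹ ∈ Subgroup.zpowers v := by
  intro v hv
  by_contra hcon
  obtain ⟨Y, hYR, hYc, hvY, hwY⟩ := exists_between hRc hRe hv (hqR v hv) hcon hWR hW1 hW2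
  exact hwY (hq Y hYR hYc v hvY)

/-- An element preserving all lines and fixing a nontrivial point is trivial. -/
theorem centralize_of_lines (hRc : ∀ x ∈ R, ∀ y ∈ R, x * y = y * x) (hRe : ∀ x ∈ R, x ^ r = 1) {t : G}
    (hl : ∀ v ∈ R, t * v * t⁻¹ ∈ Subgroup.zpowers v) {v₀ : G} (hv₀ : v₀ ∈ R) (hv₁ : v₀ ≠ 1)
    (hfix : t * v₀ * t⁻¹ = v₀) : ∀ w ∈ R, t * w * t⁻¹ = w := by
  intro w hw
  have hov : orderOf v₀ = r := orderOf_eq_prime (hRe v₀ hv₀) hv₁
  by_cases hwv : w ∈ Subgroup.zpowers v₀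
  · obtain ⟨a, rfl⟩ := hwv
    simp only
    rw [← conj_zpow, hfix]
  · have hw1 : w ≠ 1 := fun h => hwv (by rw [h]; exact Subgroup.one_mem _)
    have how : orderOf w = r := orderOf_eq_prime (hRe w hw) hw1
    obtain ⟨c, hc⟩ := hl w hw
    obtain ⟨d, hd⟩ := hl (v₀ * w) (R.mul_mem hv₀ hw)
    simp only at hc hd
    have hcomm : Commute v₀ w := hRc v₀ hv₀ w hw
    have e1 : t * (v₀ * w) * t⁻¹ = v₀ * w ^ c := by
      have : t * (v₀ * w) * t⁻¹ = (t * v₀ * t⁻¹) * (t * w * t⁻¹) := by group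
      rw [this, hfix, hc]
    rw [e1, hcomm.mul_zpow] at hd
    -- `v₀ ^ (d - 1) = w ^ (c - d)`
    have e2 : v₀ ^ (d - 1) = w ^ (c - d) := by
      rw [zpow_sub_one, zpow_sub]
      have h1 : v₀ ^ d = v₀ * w ^ c * (w ^ d)⁻¹ := by
        rw [← hd]
        group
      rw [h1]
      have h2 : Commute (w ^ c) (w ^ d)⁻¹ := ((Commute.refl w).zpow_zpow c d).inv_right
      have h3 : Commute v₀ (w ^ c * (w ^ d)⁻¹) := ((hcomm.zpow_right c).mul_right (hcomm.zpow_right d).inv_right)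
      calc v₀ * w ^ c * (w ^ d)⁻¹ * v₀⁻¹ = v₀ * (w ^ c * (w ^ d)⁻¹) * v₀⁻¹ := by group
        _ = w ^ c * (w ^ d)⁻¹ := by
          rw [h3.eq, mul_inv_cancel_right]
    have h4 : v₀ ^ (d - 1) = 1 := by
      by_contra hne
      have h5 : v₀ ^ (d - 1) ∈ Subgroup.zpowers w := by
        rw [e2]
        exact Subgroup.zpow_mem_zpowers _ _
      have h6 : w ∈ Subgroup.zpowers (v₀ ^ (d - 1)) :=
        mem_zpowers_of_orderOf_prime (by rw [how]; exact hr.out) h5 hne
      have h7 : Subgroup.zpowers (v₀ ^ (d - 1)) ≤ Subgroup.zpowers v₀ := by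
        rw [Subgroup.zpowers_le]
        exact Subgroup.zpow_mem_zpowers _ _
      exact hwv (h7 h6)
    have h5 : w ^ (c - d) = 1 := by rw [← e2, h4]
    have h6 : (r : ℤ) ∣ d - 1 := by
      rw [← hov]
      exact orderOf_dvd_iff_zpow_eq_one.mpr h4
    have h7 : w ^ (d - 1) = 1 := by
      apply orderOf_dvd_iff_zpow_eq_one.mp
      rw [how]
      exact h6
    have h8 : w ^ c = w := by
      have e3 : c = (c - d) + (d - 1) + 1 := by ring
      rw [e3, zpow_add, zpow_add, h5, h7, one_mul, one_mul, zpow_one]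
    rw [← hc, h8]

end

/-- The action of `x` on a line is by `± 1` if `x y x = y`. -/
theorem pm_one_of_rel {v x y : G} (hv : (orderOf v).Prime) (hx : x * v * x⁻¹ ∈ Subgroup.zpowers v)
    (hy : y * v * y⁻¹ ∈ Subgroup.zpowers v) (hrel : x * y * x = y) :
    x * v * x⁻¹ = v ∨ x * v * x⁻¹ = v⁻¹ := by
  obtain ⟨α, hα⟩ := hx
  obtain ⟨β, hβ⟩ := hy
  simp only at hα hβ
  have h1 : (x * y * x) * v * (x * y * x)⁻¹ = v ^ (α * β * α) := by
    have e1 : (x * y * x) * v * (x * y * x)⁻¹ = x * (y * (x * v * x⁻¹) * y⁻¹) * x⁻¹ := by group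
    rw [e1, ← hα, ← conj_zpow, ← hβ, ← zpow_mul, ← conj_zpow, ← hα, ← zpow_mul]
    congr 1
    ring
  rw [hrel, ← hβ] at h1
  have hr : Prime ((orderOf v : ℕ) : ℤ) := Nat.prime_iff_prime_int.mp hv
  have h2 : ((orderOf v : ℕ) : ℤ) ∣ α * β * α - β := by
    apply orderOf_dvd_iff_zpow_eq_one.mpr
    rw [zpow_sub, ← h1, mul_inv_cancel]
  have hβ1 : ¬ ((orderOf v : ℕ) : ℤ) ∣ β := by
    intro h
    have h3 : v ^ β = 1 := orderOf_dvd_iff_zpow_eq_one.mp h
    rw [h3] at hβ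
    have h4 : v = 1 := by
      have := hβ.symm
      rwa [conj_eq_one_iff] at this
    rw [h4, orderOf_one] at hv
    exact Nat.not_prime_one hv
  have h3 : ((orderOf v : ℕ) : ℤ) ∣ β * ((α - 1) * (α + 1)) := by
    have e : β * ((α - 1) * (α + 1)) = α * β * α - β := by ring
    rw [e]
    exact h2
  rcases hr.dvd_or_dvd h3 with h4 | h4
  · exact absurd h4 hβ1
  rcases hr.dvd_or_dvd h4 with h5 | h5
  · left
    have h6 : v ^ (α - 1) = 1 := orderOf_dvd_iff_zpow_eq_one.mp h5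
    rw [← hα]
    have e : α = (α - 1) + 1 := by ring
    rw [e, zpow_add, h6, one_mul, zpow_one]
  · right
    have h6 : v ^ (α + 1) = 1 := orderOf_dvd_iff_zpow_eq_one.mp h5
    rw [← hα]
    rw [zpow_add, zpow_one] at h6
    exact eq_inv_of_mul_eq_one_left h6

/-- An element of order `4` in `Q₈` fixing a given point of a line. -/
theorem exists_four_fix {Q : Subgroup G} (e : Q ≃* Q8) {v : G} (hv : (orderOf v).Prime)
    (hl : ∀ q ∈ Q, q * v * q⁻¹ ∈ Subgroup.zpowers v) : ∃ t ∈ Q, orderOf t = 4 ∧ t * v * t⁻¹ = v := by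
  let i : Q := e.symm (QuaternionGroup.a 1)
  let j : Q := e.symm (QuaternionGroup.xa 0)
  have hij : i * j * i = j := by
    apply e.injective
    simp only [i, j, map_mul, MulEquiv.apply_symm_apply]
    exact q8_rel.1
  have hji : j * i * j = i := by
    apply e.injective
    simp only [i, j, map_mul, MulEquiv.apply_symm_apply]
    exact q8_rel.2
  have hsq : ∀ x : Q, (e x) ^ 2 ≠ 1 → orderOf (x : G) = 4 := by
    intro x hx
    apply orderOf_eq_four e x.2
    intro h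
    apply hx
    have : x ^ 2 = 1 := Subtype.ext h
    rw [← map_pow, this, map_one]
  have hoi : orderOf (i : G) = 4 := hsq i (by
    simp only [i, MulEquiv.apply_symm_apply]
    exact q8_sq_ne.1)
  have hoj : orderOf (j : G) = 4 := hsq j (by
    simp only [j, MulEquiv.apply_symm_apply]
    exact q8_sq_ne.2.1)
  have hoij : orderOf ((i * j : Q) : G) = 4 := hsq (i * j) (by
    simp only [i, j, map_mul, MulEquiv.apply_symm_apply]
    exact q8_sq_ne.2.2)
  have hij' : (i : G) * j * i = j := congrArg Subtype.val hij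
  have hji' : (j : G) * i * j = i := congrArg Subtype.val hji
  rcases pm_one_of_rel hv (hl _ i.2) (hl _ j.2) hij' with h1 | h1
  · exact ⟨i, i.2, hoi, h1⟩
  rcases pm_one_of_rel hv (hl _ j.2) (hl _ i.2) hji' with h2 | h2
  · exact ⟨j, j.2, hoj, h2⟩
  refine ⟨(i * j : Q), (i * j : Q).2, hoij, ?_⟩
  have e1 : (((i * j : Q) : G)) * v * ((i * j : Q) : G)⁻¹ = (i : G) * ((j : G) * v * (j : G)⁻¹) * (i : G)⁻¹ := by
    simp only [Subgroup.coe_mul]
    group
  rw [e1, h2]
  have e2 : (i : G) * v⁻¹ * (i : G)⁻¹ = ((i : G) * v * (i : G)⁻¹)⁻¹ := by group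
  rw [e2, h1, inv_inv]

end Cfsg.Agent.Lib.AbConj
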