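import Cfsg.Agent.Lib.AbConj.Final

/-!
# Solvable groups in which abelian subgroups of the same order are conjugate
-/

set_option autoImplicit false
set_option linter.unusedSectionVars false

open scoped Pointwise

namespace Cfsg.Agent.Lib.AbConj

open Cfsg.Agent.Lib.Solvable.Hall Cfsg.Agent.Lib.Solvable.HallRel
open Cfsg.Agent.Lib.Core.Basic

universe u

variable {G : Type u} [Group G] [Finite G] [Group.IsSolvable G]

/-- The normal abelian Hall subgroup collecting all primes with a noncyclic abelian subgroup of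
order `p ^ 2`. -/
theorem exists_V (hS : Star G) : ∃ V : Subgroup G, V.Normal ∧ (∀ x ∈ V, ∀ y ∈ V, x * y = y * x) ∧
    (Nat.card V).Coprime V.index ∧ (∀ p : ℕ, p.Prime → p ∣ Nat.card V → HasE p G) ∧
    (∀ p : ℕ, p.Prime → p ∣ V.index → ¬ HasE p G) := by
  classical
  let s : Set (Subgroup G) := {W | W.Normal ∧ (∀ x ∈ W, ∀ y ∈ W, x * y = y * x) ∧
    (Nat.card W).Coprime W.index ∧ ∀ p : ℕ, p.Prime → p ∣ Nat.card W → HasE p G}
  have h0 : (⊥ : Subgroup G) ∈ s := by
    refine ⟨inferInstance, ?_, ?_, ?_⟩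
    · intro x hx y hy
      rw [Subgroup.mem_bot] at hx hy
      rw [hx, hy]
    · simp
    · intro p hp hd
      simp only [Subgroup.card_bot, Nat.dvd_one] at hd
      exact absurd hd hp.one_lt.ne'
  obtain ⟨V, hV⟩ := (Set.toFinite s).exists_maximal ⟨_, h0⟩
  obtain ⟨⟨hVn, hVc, hVcop, hVp⟩, hVmax⟩ := hV
  refine ⟨V, hVn, hVc, hVcop, hVp, ?_⟩
  intro p hp hpi hE
  haveI : Fact p.Prime := ⟨hp⟩
  haveI := hVn
  obtain ⟨S, hSn, hSmem, hSexp, hSc⟩ := normal_sylow _ G rfl hS p hE
  haveI := hSn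
  have hpV : ¬ p ∣ Nat.card V := by
    intro h
    have := Nat.dvd_gcd h hpi
    rw [hVcop, Nat.dvd_one] at this
    exact hp.one_lt.ne' this
  have hSP : IsPGroup p S := fun x => ⟨1, Subtype.ext (by simpa using hSexp x x.2)⟩
  obtain ⟨a, ha⟩ := IsPGroup.iff_card.mp hSP
  have hcopVS : (Nat.card V).Coprime (Nat.card S) := by
    rw [ha]
    exact Nat.Coprime.pow_right a ((Nat.Prime.coprime_iff_not_dvd hp).mpr hpV).symm
  have hd : V ⊓ S = ⊥ := inf_eq_bot_of_coprime hcopVS
  have hcomm : ∀ x ∈ V, ∀ y ∈ S, x * y = y * x := by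
    intro x hx y hy
    have h1 : x * y * x⁻¹ * y⁻¹ ∈ V ⊓ S := by
      refine ⟨?_, ?_⟩
      · have e : x * y * x⁻¹ * y⁻¹ = x * (y * x⁻¹ * y⁻¹) := by group
        rw [e]
        exact V.mul_mem hx (hVn.conj_mem _ (V.inv_mem hx) y)
      · exact S.mul_mem (hSn.conj_mem y hy x) (S.inv_mem hy)
    rw [hd, Subgroup.mem_bot, mul_inv_eq_one] at h1
    exact mul_inv_eq_iff_eq_mul.mp h1
  have hWc := card_sup_of_commute V S hcomm hd
  let P₀ : Sylow p G := default
  have hSP₀ : S = (P₀ : Subgroup G) := by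
    apply le_antisymm
    · exact (le_pCore hSn hSP).trans (pCore_le_sylow P₀)
    · intro x hx
      obtain ⟨k, hk⟩ := P₀.isPGroup' ⟨x, hx⟩
      exact hSmem x (pow_eq_one_of_hasE hS hE (k := k) (congrArg Subtype.val hk))
  have hScop : (Nat.card S).Coprime S.index := by
    rw [hSP₀]
    exact P₀.card_coprime_index
  have hW : V ⊔ S ∈ s := by
    refine ⟨inferInstance, sup_comm_of_commute _ _ hVc hSc hcomm, ?_, ?_⟩
    · rw [hWc]
      apply Nat.Coprime.mul_left
      · exact Nat.Coprime.coprime_dvd_right (Subgroup.index_dvd_of_le le_sup_left) hVcop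
      · exact Nat.Coprime.coprime_dvd_right (Subgroup.index_dvd_of_le le_sup_right) hScop
    · intro r hr hrd
      rw [hWc] at hrd
      rcases (Nat.Prime.dvd_mul hr).mp hrd with h | h
      · exact hVp r hr h
      · rw [ha] at h
        have := (Nat.prime_dvd_prime_iff_eq hr hp).mp (hr.dvd_of_dvd_pow h)
        rw [this]
        exact hE
  have hle := hVmax hW le_sup_left
  have hSV : S ≤ V := le_sup_right.trans hle
  obtain ⟨z, t, hz, ht, hz1, -, -⟩ := hE
  apply hpV
  have hzV := hSV (hSmem z hz)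
  rw [← orderOf_eq_prime hz hz1, ← Subgroup.orderOf_mk z hzV]
  exact orderOf_dvd_natCard _

omit [Group.IsSolvable G] in
theorem le_normalizer_inf (A V : Subgroup G) [hV : V.Normal] : A ≤ Subgroup.normalizer ((A ⊓ V : Subgroup G) : Set G) := by
  intro a ha
  rw [mem_normalizer_iff_conj]
  apply Subgroup.eq_of_le_of_card_ge
  · rw [conj_smul_le_iff]
    intro x hx
    exact ⟨A.mul_mem (A.mul_mem ha hx.1) (A.inv_mem ha), hV.conj_mem x hx.2 a⟩
  · rw [card_conj_smul]

/-- The reduction to the complement. -/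
theorem reduce (hS : Star G) {V K : Subgroup G} [hVn : V.Normal] (hVc : ∀ x ∈ V, ∀ y ∈ V, x * y = y * x)
    (hcop : (Nat.card V).Coprime V.index) (hKc : Nat.card K = V.index)
    (hP : ∀ U : Subgroup G, U ≤ V → ∀ X Y : Subgroup G,
      X ≤ K ⊓ Subgroup.normalizer (U : Set G) → Y ≤ K ⊓ Subgroup.normalizer (U : Set G) →
      Nat.card X = Nat.card Y → ∃ c ∈ K ⊓ Subgroup.normalizer (U : Set G), MulAut.conj c • X = Y)
    (A B : Subgroup G) (h : Nat.card A = Nat.card B) : ∃ g : G, MulAut.conj g • A = B := by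
  have hd : V ⊓ K = ⊥ := inf_eq_bot_of_coprime (by rw [hKc]; exact hcop)
  have hs : V ⊔ K = ⊤ := by
    apply sup_eq_of_card le_top le_top (by rw [hKc]; exact hcop)
    rw [Subgroup.card_top, hKc, Subgroup.card_mul_index]
  have hDn : ∀ m ∈ (⊤ : Subgroup G), ∀ d ∈ V, m * d * m⁻¹ ∈ V := fun m _ d hd => hVn.conj_mem d hd m
  have hcopT : (Nat.card V).Coprime (V.relIndex ⊤) := by
    rw [Subgroup.relIndex_top_right]
    exact hcop
  have hcI : Nat.card (A ⊓ V : Subgroup G) = Nat.card (B ⊓ V : Subgroup G) := by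
    rw [card_inf_eq_gcd le_top le_top hDn hcopT, card_inf_eq_gcd le_top le_top hDn hcopT, h]
  obtain ⟨g₀, hg₀⟩ := hS (A ⊓ V) (B ⊓ V)
    (isMulCommutative_of _ fun x hx y hy => hVc x hx.2 y hy.2)
    (isMulCommutative_of _ fun x hx y hy => hVc x hx.2 y hy.2) hcI
  have hVconj : ∀ g : G, MulAut.conj g • V = V := by
    intro g
    apply Subgroup.eq_of_le_of_card_ge
    · rw [conj_smul_le_iff]
      intro x hx
      exact hVn.conj_mem x hx g
    · rw [card_conj_smul]
  let A' : Subgroup G := MulAut.conj g₀ • A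
  have hA'I : A' ⊓ V = B ⊓ V := by
    rw [← hg₀, conj_smul_inf, hVconj]
  let U : Subgroup G := B ⊓ V
  let M : Subgroup G := Subgroup.normalizer (U : Set G)
  have hUV : U ≤ V := inf_le_right
  have hVM : V ≤ M := by
    intro v hv
    rw [mem_normalizer_iff_conj]
    apply conj_smul_eq_self_of_normal_le
    intro x hx
    have := hVc v hv x (hUV hx)
    rw [this, mul_inv_cancel_right]
  have hBM : B ≤ M := le_normalizer_inf B V
  have hA'M : A' ≤ M := by
    have := le_normalizer_inf A' V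
    rwa [hA'I] at this
  let L : Subgroup G := K ⊓ M
  have hLV : L ⊓ V = ⊥ := by
    rw [eq_bot_iff]
    rintro x ⟨hx1, hx2⟩
    have : x ∈ V ⊓ K := ⟨hx2, hx1.1⟩
    rwa [hd] at this
  have hLsup : L ⊔ V = M := by
    apply le_antisymm (sup_le inf_le_right hVM)
    intro m hm
    have hgm : m ∈ (↑(V ⊔ K) : Set G) := by
      rw [hs]
      trivial
    rw [Subgroup.normal_mul, Set.mem_mul] at hgm
    obtain ⟨v, hv, k, hk, rfl⟩ := hgm
    have hkM : k ∈ M := by
      have : k = v⁻¹ * (v * k) := by group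
      rw [this]
      exact M.mul_mem (M.inv_mem (hVM hv)) hm
    exact Subgroup.mul_mem _ ((le_sup_right : V ≤ L ⊔ V) hv) ((le_sup_left : L ≤ L ⊔ V) ⟨hk, hkM⟩)
  have hLc : Nat.card L = V.relIndex M := by
    have h1 := card_sup_mul_card_inf L V
    rw [hLsup, hLV, Subgroup.card_bot, mul_one] at h1
    have h2 := Subgroup.relIndex_mul_relIndex (⊥ : Subgroup G) V M bot_le hVM
    rw [Subgroup.relIndex_bot_left, Subgroup.relIndex_bot_left, h1, mul_comm] at h2
    exact (Nat.eq_of_mul_eq_mul_right Nat.card_pos h2).symm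
  obtain ⟨m, -, hm⟩ := step (M := M) (D := V) (L := L) (A := A') (B := B) inferInstance hVM
    (fun m _ d hd => hVn.conj_mem d hd m)
    (Nat.Coprime.coprime_dvd_right (Subgroup.relIndex_dvd_index_of_normal V M) hcop)
    inf_le_right hLc hA'M hBM hA'I
    (by
      intro m hm
      rw [hA'I]
      exact mem_normalizer_iff_conj.mp hm)
    (by rw [card_conj_smul, h])
    (hP U hUV)
  refine ⟨m * g₀, ?_⟩
  rw [← conj_smul_conj_smul]
  exact hm

/-- **Main theorem.** -/
theorem main (hS : Star G) (A B : Subgroup G) (h : Nat.card A = Nat.card B) :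
    ∃ g : G, MulAut.conj g • A = B := by
  classical
  obtain ⟨V, hVn, hVc, hVcop, hVp, hVi⟩ := exists_V hS
  haveI := hVn
  obtain ⟨K, hKc⟩ := exists_card_eq (G := G) V.index (Nat.card V)
    (by rw [mul_comm, Subgroup.card_mul_index]) hVcop.symm
  have hd : V ⊓ K = ⊥ := inf_eq_bot_of_coprime (by rw [hKc]; exact hVcop)
  have hs : V ⊔ K = ⊤ := by
    apply sup_eq_of_card le_top le_top (by rw [hKc]; exact hVcop)
    rw [Subgroup.card_top, hKc, Subgroup.card_mul_index]
  have hKS : Star K := star_complement hd hs hS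
  have hEK : ∀ (p : ℕ) [Fact p.Prime], ¬ HasE p K := by
    intro p hp hE
    obtain ⟨z, t, hz, ht, hz1, hzt, hti⟩ := hE
    apply hVi p hp.out
    · rw [← hKc, ← orderOf_eq_prime hz hz1]
      exact orderOf_dvd_natCard _
    · exact ⟨z, t, congrArg Subtype.val hz, congrArg Subtype.val ht,
        fun h => hz1 (Subtype.ext h), congrArg Subtype.val hzt.eq,
        fun i h => hti i (Subtype.ext h)⟩
  apply reduce hS hVc hVcop hKc _ A B h
  by_cases hz : IsZGroup K
  · intro U _ X Y hX hY hXY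
    have hZ : IsZGroup (K ⊓ Subgroup.normalizer (U : Set G) : Subgroup G) :=
      IsZGroup.of_injective (Subgroup.inclusion_injective (inf_le_left :
        K ⊓ Subgroup.normalizer (U : Set G) ≤ K))
    exact zgroup_conj_rel hZ hX hY hXY
  obtain ⟨Q₀, hQ₀n, ⟨e₀⟩, hQ₀c⟩ := kstruct hKS hEK hz
  haveI := hQ₀n
  let Q : Subgroup G := Q₀.map K.subtype
  let eQ : Q₀ ≃* Q := Q₀.equivMapOfInjective K.subtype K.subtype_injective
  have hQcard : Nat.card Q = Nat.card Q₀ := Subgroup.card_map_of_injective K.subtype_injective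
  have hQ₀8 : Nat.card Q₀ = 8 := card_eq_eight e₀
  have hQK : Q ≤ K := by
    rintro x ⟨y, -, rfl⟩
    exact y.2
  have hQn : ∀ k ∈ K, ∀ x ∈ Q, k * x * k⁻¹ ∈ Q := by
    rintro k hk x ⟨y, hy, rfl⟩
    exact ⟨_, hQ₀n.conj_mem y hy ⟨k, hk⟩, rfl⟩
  have hcopK2 : (V.index).Coprime (Nat.card V) := hVcop.symm
  have h2index : 2 ∣ V.index := by
    rw [← hKc]
    refine dvd_trans ?_ (Subgroup.card_subgroup_dvd_card Q₀)
    rw [hQ₀8]
    norm_num
  have hVodd : (Nat.card V).Coprime 2 := Nat.Coprime.coprime_dvd_right h2index hVcop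
  have hVexp : ∀ x ∈ V, ∀ r : ℕ, r.Prime → ∀ n : ℕ, x ^ r ^ n = 1 → x ^ r = 1 := by
    intro x hx r hr n hxn
    by_cases hx1 : x = 1
    · rw [hx1, one_pow]
    haveI : Fact r.Prime := ⟨hr⟩
    obtain ⟨m, -, hm⟩ := (Nat.dvd_prime_pow hr).mp (orderOf_dvd_of_pow_eq_one hxn)
    have hm0 : m ≠ 0 := by
      intro h0
      rw [h0, pow_zero, orderOf_eq_one_iff] at hm
      exact hx1 hm
    have hdvd : r ∣ Nat.card V := by
      have h1 : orderOf x ∣ Nat.card V := by
        rw [← Subgroup.orderOf_mk x hx]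
        exact orderOf_dvd_natCard _
      rw [hm] at h1
      exact (dvd_pow_self r hm0).trans h1
    exact pow_eq_one_of_hasE hS (hVp r hr hdvd) hxn
  have S : QSet V K Q :=
    { star := hS
      Vn := hVn
      Vc := hVc
      dis := hd
      gen := hs
      QK := hQK
      Qn := hQn
      iso := ⟨eQ.symm.trans e₀⟩
      Vodd := hVodd
      Vexp := hVexp }
  have hodd : ∀ p : ℕ, p.Prime → p ≠ 2 → ∀ P : Subgroup G, P ≤ K → IsPGroup p P → IsCyclic P := by
    intro p hp hp2 P hPK hPp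
    haveI : Fact p.Prime := ⟨hp⟩
    have hP' : IsPGroup p (P.subgroupOf K) :=
      hPp.of_equiv (Subgroup.subgroupOfEquivOfLe hPK).symm
    rcases cyclic_or_quat_of_not_hasE (hEK p) _ hP' with h1 | ⟨h1, -⟩
    · exact isCyclic_of_surjective _ (Subgroup.subgroupOfEquivOfLe hPK).surjective
    · exact absurd h1 hp2
  have hQ2 : ∀ x ∈ K, ∀ n : ℕ, x ^ 2 ^ n = 1 → x ∈ Q := by
    intro x hx n hxn
    have h1 : ((⟨x, hx⟩ : K) : K ⧸ Q₀) = 1 := by
      rw [← orderOf_eq_one_iff]
      have h2 : orderOf ((⟨x, hx⟩ : K) : K ⧸ Q₀) ∣ 2 ^ n := by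
        apply orderOf_dvd_of_pow_eq_one
        rw [← QuotientGroup.mk_pow]
        have : (⟨x, hx⟩ : K) ^ 2 ^ n = 1 := Subtype.ext hxn
        rw [this, QuotientGroup.mk_one]
      have h3 : orderOf ((⟨x, hx⟩ : K) : K ⧸ Q₀) ∣ Q₀.index := by
        rw [Subgroup.index_eq_card]
        exact orderOf_dvd_natCard _
      have h4 : (Q₀.index).Coprime 2 := by
        have h5 := hQ₀c
        rw [hQ₀8, show 8 = 2 ^ 3 by norm_num] at h5
        exact ((Nat.coprime_pow_left_iff (by norm_num : 0 < 3) 2 _).mp h5).symm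
      have h6 := Nat.dvd_gcd h3 h2
      rw [Nat.Coprime.pow_right n h4, Nat.dvd_one] at h6
      exact h6
    rw [QuotientGroup.eq_one_iff] at h1
    exact ⟨⟨x, hx⟩, h1, rfl⟩
  have hcopK : (Nat.card Q).Coprime (Q.relIndex K) := by
    have h1 : Q.subgroupOf K = Q₀ := by
      ext x
      rw [Subgroup.mem_subgroupOf]
      constructor
      · rintro ⟨y, hy, hyx⟩
        have : y = x := Subtype.ext hyx
        rw [← this]
        exact hy
      · intro hx
        exact ⟨x, hx, rfl⟩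
    rw [Subgroup.relIndex, h1, hQcard]
    exact hQ₀c
  intro U hU X Y hX hY hXY
  by_cases hQL : Q ≤ K ⊓ Subgroup.normalizer (U : Set G)
  · have hinv : ∀ q ∈ Q, ∀ u ∈ U, q * u * q⁻¹ ∈ U := by
      intro q hq u hu
      exact (Subgroup.mem_normalizer_iff.mp (hQL hq).2 u).mp hu
    refine conj_of_le S hodd hQ2 hcopK hU inf_le_left hQL hinv ?_ hX hY hXY
    intro k hk hkU
    refine ⟨hk, ?_⟩
    change k ∈ Subgroup.normalizer (U : Set G)
    rw [mem_normalizer_iff_conj]
    apply Subgroup.eq_of_le_of_card_ge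
    · rw [conj_smul_le_iff]
      exact hkU
    · rw [card_conj_smul]
  · exact conj_of_not_le S hodd hQ2 inf_le_left hQL hX hY hXY

end Cfsg.Agent.Lib.AbConj
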