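import Cfsg.Agent.Lib.AbConj.KStruct

/-!
# Facts on a subgroup isomorphic to `Q₈`
-/

set_option autoImplicit false
set_option linter.unusedSectionVars false

open scoped Pointwise

namespace Cfsg.Agent.Lib.AbConj

open Cfsg.Agent.Lib.Solvable.Hall Cfsg.Agent.Lib.Solvable.HallRel
open QuaternionGroup

abbrev Q8 : Type := QuaternionGroup 2

theorem q8_sq : ∀ x : Q8, x ^ 2 = 1 → x = 1 ∨ x = a 2 := by decide
theorem q8_four : ∀ x : Q8, x ^ 4 = 1 := by decide
theorem q8_central : ∀ x : Q8, (∀ w : Q8, x * w = w * x) → x ^ 2 = 1 := by decide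
theorem q8_noncomm : ∀ u v : Q8, (u ^ 2 ≠ 1 ∧ v ^ 2 ≠ 1 ∧ v ≠ u ∧ v ≠ u ^ 3) → u * v ≠ v * u := by decide
theorem q8_gens : ∀ u v w : Q8, u * v ≠ v * u → ∃ i j : Fin 4, w = u ^ (i : ℕ) * v ^ (j : ℕ) := by
  decide +kernel
theorem q8_rel : (a 1 * xa 0 * a 1 : Q8) = xa 0 ∧ (xa 0 * a 1 * xa 0 : Q8) = a 1 := by decide
theorem q8_sq_ne : (a 1 : Q8) ^ 2 ≠ 1 ∧ (xa 0 : Q8) ^ 2 ≠ 1 ∧ (a 1 * xa 0 : Q8) ^ 2 ≠ 1 := by decide

section

variable {G : Type*} [Group G] {Q : Subgroup G}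

theorem sq_eq_or (e : Q ≃* Q8) {x y : G} (hx : x ∈ Q) (hy : y ∈ Q) (hx2 : x ^ 2 = 1) (hx1 : x ≠ 1)
    (hy2 : y ^ 2 = 1) (hy1 : y ≠ 1) : x = y := by
  have aux : ∀ w : G, ∀ hw : w ∈ Q, w ^ 2 = 1 → w ≠ 1 → e ⟨w, hw⟩ = a 2 := by
    intro w hw hw2 hw1
    have h1 : (e ⟨w, hw⟩) ^ 2 = 1 := by
      rw [← map_pow]
      have : (⟨w, hw⟩ : Q) ^ 2 = 1 := Subtype.ext hw2
      rw [this, map_one]
    rcases q8_sq _ h1 with h2 | h2
    · exfalso
      apply hw1
      have : (⟨w, hw⟩ : Q) = 1 := e.injective (by rw [h2, map_one])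
      exact congrArg Subtype.val this
    · exact h2
  have := e.injective ((aux x hx hx2 hx1).trans (aux y hy hy2 hy1).symm)
  exact congrArg Subtype.val this

theorem pow_four_eq_one (e : Q ≃* Q8) {x : G} (hx : x ∈ Q) : x ^ 4 = 1 := by
  have h1 : e (⟨x, hx⟩ ^ 4) = 1 := by
    rw [map_pow, q8_four]
  have h2 : (⟨x, hx⟩ : Q) ^ 4 = 1 := e.injective (by rw [h1, map_one])
  exact congrArg Subtype.val h2

theorem orderOf_eq_four (e : Q ≃* Q8) {x : G} (hx : x ∈ Q) (hx2 : x ^ 2 ≠ 1) : orderOf x = 4 := by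
  have h4 := pow_four_eq_one e hx
  have hd : orderOf x ∣ 2 ^ 2 := orderOf_dvd_of_pow_eq_one (by simpa using h4)
  obtain ⟨m, hm, hm'⟩ := (Nat.dvd_prime_pow Nat.prime_two).mp hd
  interval_cases m
  · exfalso
    apply hx2
    have h1 : x = 1 := orderOf_eq_one_iff.mp (by simpa using hm')
    rw [h1]
    simp
  · exfalso
    apply hx2
    exact orderOf_dvd_iff_pow_eq_one.mp (by rw [hm']; norm_num)
  · simpa using hm'

variable [Finite G]

theorem card_eq_eight (e : Q ≃* Q8) : Nat.card Q = 8 := by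
  rw [Nat.card_congr e.toEquiv]
  simp [Nat.card_eq_fintype_card, QuaternionGroup.card]

/-- A subgroup of `Q` either has all squares trivial, or contains an element of order `4`. -/
theorem subgroup_cases (e : Q ≃* Q8) {T : Subgroup G} (hT : T ≤ Q) :
    (Nat.card T ≤ 2 ∧ IsCyclic T ∧ ∀ x ∈ T, x ^ 2 = 1) ∨ (∃ t ∈ T, orderOf t = 4) := by
  by_cases h : ∀ x ∈ T, x ^ 2 = 1
  · left
    rcases T.bot_or_exists_ne_one with hb | ⟨z, hz, hz1⟩
    · subst hb
      refine ⟨by simp, inferInstance, h⟩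
    · have hTz : T = Subgroup.zpowers z := by
        apply le_antisymm
        · intro x hx
          by_cases hx1 : x = 1
          · rw [hx1]
            exact Subgroup.one_mem _
          · rw [sq_eq_or e (hT hx) (hT hz) (h x hx) hx1 (h z hz) hz1]
            exact Subgroup.mem_zpowers z
        · rw [Subgroup.zpowers_le]
          exact hz
      have hz2 : orderOf z = 2 := orderOf_eq_prime (h z hz) hz1
      refine ⟨?_, ?_, h⟩
      · rw [hTz, Nat.card_zpowers, hz2]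
      · rw [hTz]
        infer_instance
  · right
    push Not at h
    obtain ⟨x, hx, hx2⟩ := h
    exact ⟨x, hx, orderOf_eq_four e (hT hx) hx2⟩

/-- A subgroup of `Q` of order `4` is generated by an element of order `4`. -/
theorem eq_zpowers_of_card_four (e : Q ≃* Q8) {T : Subgroup G} (hT : T ≤ Q) (h4 : Nat.card T = 4) :
    ∃ t ∈ T, orderOf t = 4 ∧ T = Subgroup.zpowers t := by
  rcases subgroup_cases e hT with ⟨h, -, -⟩ | ⟨t, ht, hto⟩
  · omega
  · refine ⟨t, ht, hto, ?_⟩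
    symm
    apply Subgroup.eq_of_le_of_card_ge
    · rw [Subgroup.zpowers_le]
      exact ht
    · rw [h4, Nat.card_zpowers, hto]

/-- Two subgroups of `Q` of the same order coincide unless they are different subgroups of order
`4`. -/
theorem eq_or_card_four (e : Q ≃* Q8) {T T' : Subgroup G} (hT : T ≤ Q) (hT' : T' ≤ Q)
    (h : Nat.card T = Nat.card T') : T = T' ∨ Nat.card T = 4 := by
  rcases subgroup_cases e hT with ⟨h1, hc, h2⟩ | ⟨t, ht, hto⟩
  · left
    have h3 : T ≤ T' := by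
      intro x hx
      by_cases hx1 : x = 1
      · rw [hx1]
        exact T'.one_mem
      have h4 : 2 ≤ Nat.card T := by
        rw [← orderOf_eq_prime (h2 x hx) hx1, ← Subgroup.orderOf_mk x hx]
        exact Nat.le_of_dvd Nat.card_pos (orderOf_dvd_natCard _) |>.trans' (by
          rw [Subgroup.orderOf_mk, orderOf_eq_prime (h2 x hx) hx1])
      have h5 : Nat.card T' = 2 := by omega
      haveI : Fact (Nat.Prime 2) := ⟨Nat.prime_two⟩
      obtain ⟨y, hy⟩ : ∃ y : T', orderOf y = 2 := exists_prime_orderOf_dvd_card' 2 (by rw [h5])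
      have hy1 : (y : G) ≠ 1 := by
        intro h6
        have : y = 1 := Subtype.ext h6
        rw [this, orderOf_one] at hy
        omega
      have hy2 : (y : G) ^ 2 = 1 := by
        have : y ^ 2 = 1 := by rw [← hy]; exact pow_orderOf_eq_one y
        exact congrArg Subtype.val this
      rw [sq_eq_or e (hT hx) (hT' y.2) (h2 x hx) hx1 hy2 hy1]
      exact y.2
    exact Subgroup.eq_of_le_of_card_ge h3 h.ge
  · have hd : Nat.card T ∣ 8 := by
      rw [← card_eq_eight e]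
      exact Subgroup.card_dvd_of_le hT
    have hd4 : 4 ∣ Nat.card T := by
      rw [← hto, ← Subgroup.orderOf_mk t ht]
      exact orderOf_dvd_natCard _
    have hle := Nat.le_of_dvd (by norm_num) hd
    obtain ⟨c, hc⟩ := hd4
    have hc2 : c = 1 ∨ c = 2 := by
      have h1 : 0 < Nat.card T := Nat.card_pos
      omega
    rcases hc2 with rfl | rfl
    · right
      omega
    · left
      have h8 : Nat.card T = 8 := by omega
      have h1 : T = Q := Subgroup.eq_of_le_of_card_ge hT (by rw [card_eq_eight e, h8])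
      have h2 : T' = Q := Subgroup.eq_of_le_of_card_ge hT' (by rw [card_eq_eight e, ← h, h8])
      rw [h1, h2]

/-- An element normalizing two distinct subgroups of order `4` of `Q` and of odd order
centralizes `Q`. -/
theorem centralize_of_two (e : Q ≃* Q8) {t₁ t₂ y : G} (ht₁ : t₁ ∈ Q) (ht₂ : t₂ ∈ Q) (h₁ : orderOf t₁ = 4)
    (h₂ : orderOf t₂ = 4) (hne : Subgroup.zpowers t₁ ≠ Subgroup.zpowers t₂)
    (hy₁ : y * t₁ * y⁻¹ ∈ Subgroup.zpowers t₁) (hy₂ : y * t₂ * y⁻¹ ∈ Subgroup.zpowers t₂)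
    (hodd : Odd (orderOf y)) : ∀ q ∈ Q, y * q * y⁻¹ = q := by
  -- the square of `y` fixes `t₁` and `t₂`
  have aux : ∀ t : G, orderOf t = 4 → y * t * y⁻¹ ∈ Subgroup.zpowers t → y ^ 2 * t * (y ^ 2)⁻¹ = t := by
    intro t ht hy
    obtain ⟨m, hm⟩ := hy
    simp only at hm
    have ht4 : t ^ (4 : ℤ) = 1 := by
      have := pow_orderOf_eq_one t
      rw [ht] at this
      exact_mod_cast this
    have hmodd : Odd m := by
      by_contra hev
      rw [Int.not_odd_iff_even] at hev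
      obtain ⟨c, hc⟩ := hev
      have h1 : (y * t * y⁻¹) ^ 2 = 1 := by
        rw [← hm, hc, ← zpow_natCast, ← zpow_mul]
        have e1 : (c + c) * ((2 : ℕ) : ℤ) = 4 * c := by push_cast; ring
        rw [e1, zpow_mul, ht4, one_zpow]
      rw [conj_pow, conj_eq_one_iff] at h1
      have h2 := orderOf_dvd_of_pow_eq_one h1
      rw [ht] at h2
      norm_num at h2
    obtain ⟨c, hc⟩ := hmodd
    have e1 : y ^ 2 * t * (y ^ 2)⁻¹ = y * (y * t * y⁻¹) * y⁻¹ := by
      rw [sq]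
      group
    rw [e1, ← hm, ← conj_zpow, ← hm, ← zpow_mul, hc]
    have e2 : (2 * c + 1) * (2 * c + 1) = 4 * (c * (c + 1)) + 1 := by ring
    rw [e2, zpow_add, zpow_mul, ht4, one_zpow, one_mul, zpow_one]
  have hc₁ := aux t₁ h₁ hy₁
  have hc₂ := aux t₂ h₂ hy₂
  have hcomm₁ : Commute (y ^ 2) t₁ := mul_inv_eq_iff_eq_mul.mp hc₁
  have hcomm₂ : Commute (y ^ 2) t₂ := mul_inv_eq_iff_eq_mul.mp hc₂
  have hord : ∀ t : G, ∀ ht : t ∈ Q, orderOf t = 4 → (e ⟨t, ht⟩) ^ 2 ≠ 1 := by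
    intro t ht hto h
    have h1 : (⟨t, ht⟩ : Q) ^ 2 = 1 := e.injective (by rw [map_pow, h, map_one])
    have h2 : t ^ 2 = 1 := congrArg Subtype.val h1
    have h3 := orderOf_dvd_of_pow_eq_one h2
    rw [hto] at h3
    norm_num at h3
  have hnc : e ⟨t₁, ht₁⟩ * e ⟨t₂, ht₂⟩ ≠ e ⟨t₂, ht₂⟩ * e ⟨t₁, ht₁⟩ := by
    apply q8_noncomm
    refine ⟨hord _ _ h₁, hord _ _ h₂, ?_, ?_⟩
    · intro h
      have h1 := e.injective h
      have h2 : t₂ = t₁ := congrArg Subtype.val h1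
      exact hne (by rw [h2])
    · intro h
      have h0 : e ⟨t₂, ht₂⟩ = e (⟨t₁, ht₁⟩ ^ 3) := by rw [h, map_pow]
      have h1 := e.injective h0
      have h2 : t₂ = t₁ ^ 3 := congrArg Subtype.val h1
      apply hne
      have h3 : t₂ = t₁⁻¹ := by
        rw [h2]
        apply eq_inv_of_mul_eq_one_left
        rw [← pow_succ]
        have := pow_orderOf_eq_one t₁
        rwa [h₁] at this
      rw [h3, Subgroup.zpowers_inv]
  intro q hq
  obtain ⟨i, j, hij⟩ := q8_gens _ _ (e ⟨q, hq⟩) hnc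
  have hq' : q = t₁ ^ (i : ℕ) * t₂ ^ (j : ℕ) := by
    have h1 : (⟨q, hq⟩ : Q) = ⟨t₁, ht₁⟩ ^ (i : ℕ) * ⟨t₂, ht₂⟩ ^ (j : ℕ) :=
      e.injective (by rw [hij, map_mul, map_pow, map_pow])
    exact congrArg Subtype.val h1
  have hcq : Commute (y ^ 2) q := by
    rw [hq']
    exact (hcomm₁.pow_right _).mul_right (hcomm₂.pow_right _)
  obtain ⟨c, hc⟩ := exists_pow_eq_self_of_coprime (x := y) (n := 2)
    (Nat.coprime_two_left.mpr hodd)
  have hcy : Commute y q := by
    rw [← hc]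
    exact hcq.pow_left c
  exact mul_inv_eq_iff_eq_mul.mpr hcy.eq

end

end Cfsg.Agent.Lib.AbConj
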