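import Cfsg.Agent.Lib.AbConj.Basic
import Cfsg.Agent.Lib.FG7.EqualOrder
import Cfsg.Agent.Lib.Zassen.QuatAut
import Cfsg.Agent.Lib.Solvable.Fitting

/-!
# Primes with a noncyclic abelian subgroup of order `p ^ 2`
-/

set_option autoImplicit false
set_option linter.unusedSectionVars false

open scoped Pointwise

namespace Cfsg.Agent.Lib.AbConj

open Cfsg.Agent.Lib.Solvable.Hall Cfsg.Agent.Lib.Solvable.HallRel

universe u

variable {G : Type*} [Group G]

/-- `G` has a noncyclic abelian subgroup of order `p ^ 2`, in terms of generators. -/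
def HasE (p : ℕ) (G : Type*) [Group G] : Prop :=
  ∃ z t : G, z ^ p = 1 ∧ t ^ p = 1 ∧ z ≠ 1 ∧ Commute z t ∧ ∀ i : ℕ, t * z ^ i ≠ 1

theorem exists_mul_of_mem_sup_of_commute (H K : Subgroup G) (hc : ∀ x ∈ H, ∀ y ∈ K, x * y = y * x)
    {x : G} (hx : x ∈ H ⊔ K) : ∃ a ∈ H, ∃ b ∈ K, x = a * b := by
  have hcomm : ∀ x : H, ∀ y : K, Commute (H.subtype x) (K.subtype y) :=
    fun x y => hc x x.2 y y.2
  have hr : (MonoidHom.noncommCoprod H.subtype K.subtype (fun x y => hcomm x y)).range = H ⊔ K := by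
    rw [MonoidHom.noncommCoprod_range]
    simp
  rw [← hr] at hx
  obtain ⟨⟨a, b⟩, hab⟩ := hx
  exact ⟨a, a.2, b, b.2, hab.symm⟩

theorem orderOf_eq_prime' {p : ℕ} [hp : Fact p.Prime] {x : G} (h1 : x ^ p = 1) (h2 : x ≠ 1) :
    orderOf x = p := orderOf_eq_prime h1 h2

theorem mem_zpowers_of_orderOf_prime [Finite G] {v w : G} (hv : (orderOf v).Prime) (hw : w ∈ Subgroup.zpowers v)
    (hne : w ≠ 1) : v ∈ Subgroup.zpowers w := by
  have hle : Subgroup.zpowers w ≤ Subgroup.zpowers v := by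
    rw [Subgroup.zpowers_le]
    exact hw
  have hcard : Nat.card (Subgroup.zpowers w) ∣ Nat.card (Subgroup.zpowers v) :=
    Subgroup.card_dvd_of_le hle
  rw [Nat.card_zpowers, Nat.card_zpowers] at hcard
  rcases (Nat.dvd_prime hv).mp hcard with h | h
  · exact absurd (orderOf_eq_one_iff.mp h) hne
  · have heq : Subgroup.zpowers w = Subgroup.zpowers v := by
      apply Subgroup.eq_of_le_of_card_ge hle
      rw [Nat.card_zpowers, Nat.card_zpowers, h]
    rw [heq]
    exact Subgroup.mem_zpowers v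

section HasE

variable {p : ℕ} [hp : Fact p.Prime]

theorem HasE.exists_E [Finite G] (hE : ∃ z t : G, z ^ p = 1 ∧ t ^ p = 1 ∧ z ≠ 1 ∧ Commute z t ∧
      ∀ i : ℕ, t * z ^ i ≠ 1) :
    ∃ (z t : G) (E : Subgroup G), z ^ p = 1 ∧ t ^ p = 1 ∧ z ≠ 1 ∧ Commute z t ∧
      (∀ i : ℕ, t * z ^ i ≠ 1) ∧ z ∈ E ∧ t ∈ E ∧ IsMulCommutative E ∧ Nat.card E = p ^ 2 ∧
      ∀ x ∈ E, x ^ p = 1 := by
  obtain ⟨z, t, hz, ht, hz1, hzt, hti⟩ := hE
  have ht1 : t ≠ 1 := by simpa using hti 0
  have hoz : orderOf z = p := orderOf_eq_prime hz hz1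
  have hot : orderOf t = p := orderOf_eq_prime ht ht1
  have hc : ∀ x ∈ Subgroup.zpowers z, ∀ y ∈ Subgroup.zpowers t, x * y = y * x := by
    rintro x ⟨a, rfl⟩ y ⟨b, rfl⟩
    exact (hzt.zpow_zpow a b).eq
  have hd : Subgroup.zpowers z ⊓ Subgroup.zpowers t = ⊥ := by
    rw [eq_bot_iff]
    rintro x ⟨hx1, hx2⟩
    rw [Subgroup.mem_bot]
    by_contra hx
    have h1 : t ∈ Subgroup.zpowers x := mem_zpowers_of_orderOf_prime (by rw [hot]; exact hp.out) hx2 hx
    have h2 : t ∈ Subgroup.zpowers z := by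
      have : Subgroup.zpowers x ≤ Subgroup.zpowers z := by
        rw [Subgroup.zpowers_le]
        exact hx1
      exact this h1
    obtain ⟨a, ha⟩ := h2
    have h3 : t * z ^ ((-a) % (p : ℤ)).toNat = 1 := by
      have h4 : z ^ ((-a) % (p : ℤ)).toNat = z ^ (-a) := by
        rw [← zpow_natCast, Int.toNat_of_nonneg (Int.emod_nonneg _ (by exact_mod_cast hp.out.ne_zero))]
        rw [← hoz, zpow_mod_orderOf]
      rw [h4, ← ha, zpow_neg, mul_inv_cancel]
    exact hti _ h3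
  have hcomm : ∀ x ∈ Subgroup.zpowers z ⊔ Subgroup.zpowers t, ∀ y ∈ Subgroup.zpowers z ⊔ Subgroup.zpowers t,
      x * y = y * x := by
    apply sup_comm_of_commute _ _ _ _ hc
    · rintro x ⟨a, rfl⟩ y ⟨b, rfl⟩
      exact ((Commute.refl z).zpow_zpow a b).eq
    · rintro x ⟨a, rfl⟩ y ⟨b, rfl⟩
      exact ((Commute.refl t).zpow_zpow a b).eq
  refine ⟨z, t, Subgroup.zpowers z ⊔ Subgroup.zpowers t, hz, ht, hz1, hzt, hti,
    (le_sup_left : _ ≤ Subgroup.zpowers z ⊔ Subgroup.zpowers t) (Subgroup.mem_zpowers z),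
    (le_sup_right : _ ≤ Subgroup.zpowers z ⊔ Subgroup.zpowers t) (Subgroup.mem_zpowers t),
    isMulCommutative_of _ hcomm, ?_, ?_⟩
  · rw [card_sup_of_commute _ _ hc hd, Nat.card_zpowers, Nat.card_zpowers, hoz, hot, sq]
  · intro x hx
    obtain ⟨a, ha, b, hb, rfl⟩ := exists_mul_of_mem_sup_of_commute _ _ hc hx
    have hab : Commute a b := hc a ha b hb
    rw [hab.mul_pow]
    obtain ⟨i, rfl⟩ := ha
    obtain ⟨j, rfl⟩ := hb
    simp only
    rw [← zpow_natCast, ← zpow_natCast, ← zpow_mul, ← zpow_mul, mul_comm i, mul_comm j, zpow_mul, zpow_mul,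
      zpow_natCast, zpow_natCast, hz, ht]
    simp

/-- Exponent `p` for primes with a noncyclic abelian subgroup of order `p ^ 2`. -/
theorem pow_eq_one_of_hasE [Finite G] (hS : Star G) (hE : HasE p G) {x : G} {k : ℕ}
    (hx : x ^ p ^ k = 1) : x ^ p = 1 := by
  obtain ⟨z, t, E, hz, ht, hz1, hzt, hti, hzE, htE, hEc, hEcard, hEexp⟩ := HasE.exists_E hE
  obtain ⟨m, -, hm⟩ := (Nat.dvd_prime_pow hp.out).mp (orderOf_dvd_of_pow_eq_one hx)
  by_cases hm2 : m ≤ 1
  · have h1 : orderOf x ∣ p := by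
      rw [hm]
      exact (pow_dvd_pow p hm2).trans (by simp)
    exact orderOf_dvd_iff_pow_eq_one.mp h1
  · exfalso
    push Not at hm2
    obtain ⟨m', rfl⟩ : ∃ m', m = m' + 2 := ⟨m - 2, by omega⟩
    have hy : orderOf (x ^ p ^ m') = p ^ 2 := by
      rw [orderOf_pow_of_dvd (by exact pow_ne_zero _ hp.out.ne_zero) (by rw [hm]; exact pow_dvd_pow p (by omega)), hm,
        pow_add, Nat.mul_div_cancel_left _ (pow_pos hp.out.pos _)]
    obtain ⟨g, hg⟩ := hS (Subgroup.zpowers (x ^ p ^ m')) E inferInstance hEc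
      (by rw [Nat.card_zpowers, hy, hEcard])
    have h1 : g * (x ^ p ^ m') * g⁻¹ ∈ E := by
      rw [← hg]
      exact mul_conj_mem_conj_smul g (Subgroup.mem_zpowers _)
    have h2 := hEexp _ h1
    rw [conj_pow, conj_eq_one_iff] at h2
    have h3 := orderOf_dvd_of_pow_eq_one h2
    rw [hy] at h3
    have h4 := Nat.le_of_dvd hp.out.pos h3
    have h5 := hp.out.two_le
    nlinarith

/-- Without `E_{p ^ 2}`, `p`-subgroups are cyclic or generalized quaternion. -/
theorem cyclic_or_quat_of_not_hasE [Finite G] (hE : ¬ HasE p G) (P : Subgroup G) (hP : IsPGroup p P) :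
    IsCyclic P ∨ (p = 2 ∧ ∃ n : ℕ, Nonempty (P ≃* QuaternionGroup (2 ^ n))) := by
  apply Cfsg.Agent.S0016.result p hP
  intro H K hH hK
  by_contra hne
  obtain ⟨z, t, hz, ht, hz1, hzt, hti⟩ := Cfsg.Agent.Lib.FG7.EqualOrder.exists_pair_of_two hP hH hK hne
  refine hE ⟨z, t, congrArg Subtype.val hz, congrArg Subtype.val ht, ?_, ?_, ?_⟩
  · intro h
    exact hz1 (Subtype.ext h)
  · exact congrArg Subtype.val hzt.eq
  · intro i h
    exact hti i (Subtype.ext h)

end HasE

section Regular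

/-- A regular vector for an abelian group of exponent `p` acting coprimely. -/
theorem exists_regular {V : Type*} [Group V] [Finite V] (hV : ∀ x y : V, x * y = y * x) {p : ℕ}
    (hp : p.Prime) (hcop : (Nat.card V).Coprime p) (Γ : Subgroup (MulAut V))
    (hc : ∀ a ∈ Γ, ∀ b ∈ Γ, a * b = b * a) (hexp : ∀ a ∈ Γ, a ^ p = 1) :
    ∃ v : V, ∀ σ ∈ Γ, σ v = v → σ = 1 := by
  classical
  letI : CommGroup V := { (inferInstance : Group V) with mul_comm := hV }
  have hinj : ∀ x y : V, x ^ p = y ^ p → x = y := by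
    intro x y h
    exact (powCoprime hcop).injective h
  haveI : Finite Γ := inferInstance
  let f : V → ℕ := fun v => Nat.card {σ : Γ // (σ : MulAut V) v = v}
  obtain ⟨v, hv⟩ := Finite.exists_min f
  refine ⟨v, ?_⟩
  by_contra hcon
  push Not at hcon
  obtain ⟨c, hcΓ, hcv, hc1⟩ := hcon
  have hw : ∃ w, c w ≠ w := by
    by_contra hall
    push Not at hall
    exact hc1 (MulEquiv.ext hall)
  obtain ⟨w, hw⟩ := hw
  let N : V →* V :=
    { toFun := fun x => ∏ i ∈ Finset.range p, (c ^ i) x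
      map_one' := by simp
      map_mul' := by
        intro x y
        simp [Finset.prod_mul_distrib] }
  have hNdef : ∀ x, N x = ∏ i ∈ Finset.range p, (c ^ i) x := fun x => rfl
  have hN2 : ∀ x, c (N x) = N x := by
    intro x
    rw [hNdef, map_prod]
    have h3 : ∀ k, c ((c ^ k) x) = (c ^ (k + 1)) x := by
      intro k
      rw [pow_succ']
      rfl
    simp only [h3]
    have h4 := Finset.prod_range_succ' (fun k => (c ^ k) x) p
    have h5 := Finset.prod_range_succ (fun k => (c ^ k) x) p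
    rw [h4] at h5
    simp only [hexp c hcΓ, pow_zero] at h5
    exact mul_right_cancel h5
  have hN3 : ∀ σ ∈ Γ, ∀ x, σ (N x) = N (σ x) := by
    intro σ hσ x
    rw [hNdef, hNdef, map_prod]
    apply Finset.prod_congr rfl
    intro i _
    have h6 : σ * c ^ i = c ^ i * σ := by
      have : Commute σ c := hc σ hσ c hcΓ
      exact (this.pow_right i).eq
    have h7 := congrArg (fun τ : MulAut V => τ x) h6
    exact h7
  have hN4 : ∀ x, c x = x → N x = x ^ p := by
    intro x hx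
    rw [hNdef]
    have h8 : ∀ i, (c ^ i) x = x := by
      intro i
      induction i with
      | zero => rfl
      | succ n ih =>
        rw [pow_succ', MulAut.mul_apply, ih, hx]
    simp [h8]
  let w' : V := w ^ p * (N w)⁻¹
  have hNw' : N w' = 1 := by
    have : N (N w) = (N w) ^ p := hN4 _ (hN2 w)
    simp only [w', map_mul, map_pow, map_inv, this, mul_inv_cancel]
  have hNu : N (v * w') = v ^ p := by
    rw [map_mul, hNw', mul_one, hN4 v hcv]
  have hsub : ∀ σ ∈ Γ, σ (v * w') = v * w' → σ v = v := by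
    intro σ hσ h
    have h1 := hN3 σ hσ (v * w')
    rw [h, hNu, map_pow] at h1
    exact hinj _ _ h1
  have hcu : c (v * w') ≠ v * w' := by
    intro h
    rw [map_mul, hcv] at h
    have h1 : c w' = w' := mul_left_cancel h
    have h2 := hN4 w' h1
    rw [hNw'] at h2
    have h3 : w' = 1 := hinj _ _ (by rw [← h2, one_pow])
    have h4 : w ^ p = N w := by
      have : w ^ p * (N w)⁻¹ = 1 := h3
      exact mul_inv_eq_one.mp this
    apply hw
    apply hinj
    rw [← map_pow, h4, hN2]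
  have hlt : f (v * w') < f v := by
    have hinjF : Function.Injective
        (fun σ : {σ : Γ // (σ : MulAut V) (v * w') = v * w'} =>
          (⟨σ.1, hsub _ σ.1.2 σ.2⟩ : {σ : Γ // (σ : MulAut V) v = v})) := by
      rintro ⟨σ, h⟩ ⟨σ', h'⟩ hh
      have := congrArg Subtype.val hh
      exact Subtype.ext this
    have hnsurj : ¬ Function.Surjective
        (fun σ : {σ : Γ // (σ : MulAut V) (v * w') = v * w'} =>
          (⟨σ.1, hsub _ σ.1.2 σ.2⟩ : {σ : Γ // (σ : MulAut V) v = v})) := by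
      intro hs
      obtain ⟨⟨σ, h⟩, hh⟩ := hs ⟨⟨c, hcΓ⟩, hcv⟩
      have h1 : σ = ⟨c, hcΓ⟩ := congrArg Subtype.val hh
      rw [h1] at h
      exact hcu h
    apply lt_of_le_of_ne (Nat.card_le_card_of_injective _ hinjF)
    intro heq
    exact hnsurj (Function.Injective.bijective_of_nat_card_le hinjF heq.ge).2
  exact absurd (hv (v * w')) (not_le.mpr hlt)

/-- Two commuting automorphisms of order dividing `p` of a nontrivial abelian `p'`-group: some
nontrivial combination has a nontrivial fixed point. -/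
theorem exists_fixed_of_pair {V : Type*} [Group V] [Finite V] [Nontrivial V]
    (hV : ∀ x y : V, x * y = y * x) {p : ℕ} (hp : p.Prime) (hcop : (Nat.card V).Coprime p)
    (σ τ : MulAut V) (hcomm : σ * τ = τ * σ) (hσ : σ ^ p = 1) (hτ : τ ^ p = 1) :
    ∃ w : V, w ≠ 1 ∧ (τ w = w ∨ ∃ i : ℕ, (σ * τ ^ i) w = w) := by
  by_contra hcon
  push Not at hcon
  obtain ⟨v, hv⟩ := exists_ne (1 : V)
  have h1 : ∀ (i : ℕ) (w : V), (σ * τ ^ i) w = w → w = 1 := by
    intro i w hw
    by_contra hne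
    exact (hcon w hne).2 i hw
  have h2 : ∀ w : V, τ w = w → w = 1 := by
    intro w hw
    by_contra hne
    exact (hcon w hne).1 hw
  have h3 := Cfsg.Agent.Lib.FG7.EqualOrder.no_fpf_pair hV hp σ τ hcomm hσ hτ h1 h2 v
  have h4 : orderOf v ∣ Nat.gcd (Nat.card V) p :=
    Nat.dvd_gcd (orderOf_dvd_natCard v) (orderOf_dvd_of_pow_eq_one h3)
  rw [hcop, Nat.dvd_one, orderOf_eq_one_iff] at h4
  exact hv h4

end Regular

section Complement

/-- The hypothesis passes to complements of normal subgroups. -/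
theorem star_complement {V K : Subgroup G} [hVn : V.Normal] (hd : V ⊓ K = ⊥) (hs : V ⊔ K = ⊤)
    [Finite G] (hS : Star G) : Star K := by
  intro C D hC hD hcard
  have hinj := K.subtype_injective
  obtain ⟨g, hg⟩ := hS (C.map K.subtype) (D.map K.subtype)
    (isMulCommutative_of _ (by
      rintro x ⟨a, ha, rfl⟩ y ⟨b, hb, rfl⟩
      exact congrArg Subtype.val (mul_comm_of_isMulCommutative C hC ha hb)))
    (isMulCommutative_of _ (by
      rintro x ⟨a, ha, rfl⟩ y ⟨b, hb, rfl⟩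
      exact congrArg Subtype.val (mul_comm_of_isMulCommutative D hD ha hb)))
    (by rw [Subgroup.card_map_of_injective hinj, Subgroup.card_map_of_injective hinj, hcard])
  have hgm : g ∈ (↑(V ⊔ K) : Set G) := by
    rw [hs]
    trivial
  rw [Subgroup.normal_mul, Set.mem_mul] at hgm
  obtain ⟨v, hv, k, hk, rfl⟩ := hgm
  refine ⟨⟨k, hk⟩, ?_⟩
  apply Subgroup.eq_of_le_of_card_ge
  · rw [conj_smul_le_iff]
    intro x hx
    have h1 : (v * k) * (x : G) * (v * k)⁻¹ ∈ D.map K.subtype := by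
      rw [← hg]
      exact mul_conj_mem_conj_smul _ (Subgroup.mem_map_of_mem K.subtype hx)
    have h2 : (v * k) * (x : G) * (v * k)⁻¹ ∈ K := by
      obtain ⟨y, -, hy⟩ := h1
      rw [← hy]
      exact y.2
    have hs' : k * (x : G) * k⁻¹ ∈ K := K.mul_mem (K.mul_mem hk x.2) (K.inv_mem hk)
    have h3 : (v * k) * (x : G) * (v * k)⁻¹ * (k * (x : G) * k⁻¹)⁻¹ ∈ K :=
      K.mul_mem h2 (K.inv_mem hs')
    have h4 : (v * k) * (x : G) * (v * k)⁻¹ * (k * (x : G) * k⁻¹)⁻¹ ∈ V := by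
      have e : (v * k) * (x : G) * (v * k)⁻¹ * (k * (x : G) * k⁻¹)⁻¹ =
          v * ((k * (x : G) * k⁻¹) * v⁻¹ * (k * (x : G) * k⁻¹)⁻¹) := by group
      rw [e]
      exact V.mul_mem hv (hVn.conj_mem _ (V.inv_mem hv) _)
    have h5 : (v * k) * (x : G) * (v * k)⁻¹ * (k * (x : G) * k⁻¹)⁻¹ ∈ V ⊓ K := ⟨h4, h3⟩
    rw [hd, Subgroup.mem_bot, mul_inv_eq_one] at h5
    rw [h5] at h1
    obtain ⟨y, hy, hyx⟩ := h1
    have : (⟨k, hk⟩ : K) * x * (⟨k, hk⟩ : K)⁻¹ = y := Subtype.ext hyx.symm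
    rw [this]
    exact hy
  · rw [card_conj_smul, hcard]

end Complement

section Core

open Cfsg.Agent.Lib.Core.Basic Cfsg.Agent.Lib.Solvable.Fitting

variable {p : ℕ} [hp : Fact p.Prime]

theorem pCore_case [Finite G] (hS : Star G) (hE : HasE p G) (hne : pCore p G ≠ ⊥) :
    (∀ x : G, x ^ p = 1 → x ∈ pCore p G) ∧ (∀ x ∈ pCore p G, x ^ p = 1) ∧
      (∀ x ∈ pCore p G, ∀ y ∈ pCore p G, x * y = y * x) := by
  have hPP : IsPGroup p (pCore p G) := pCore_isPGroup
  have hexp : ∀ x ∈ pCore p G, x ^ p = 1 := by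
    intro x hx
    obtain ⟨k, hk⟩ := hPP ⟨x, hx⟩
    exact pow_eq_one_of_hasE hS hE (k := k) (congrArg Subtype.val hk)
  haveI hnt : Nontrivial (pCore p G) := (Subgroup.nontrivial_iff_ne_bot _).mpr hne
  haveI hcn := hPP.center_nontrivial
  obtain ⟨z₁, hz₁⟩ : ∃ z₁ : Subgroup.center (pCore p G), orderOf z₁ = p := by
    have hd : p ∣ Nat.card (Subgroup.center (pCore p G)) := by
      obtain ⟨n, hn, hcard⟩ := (hPP.to_subgroup _).nontrivial_iff_card.mp hcn
      rw [hcard]
      exact dvd_pow_self p hn.ne'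
    exact exists_prime_orderOf_dvd_card' p hd
  have hz₁1 : ((z₁ : pCore p G) : G) ≠ 1 := by
    intro h
    have : z₁ = 1 := Subtype.ext (Subtype.ext h)
    rw [this, orderOf_one] at hz₁
    exact hp.out.one_lt.ne hz₁
  have hz₁o : orderOf ((z₁ : pCore p G) : G) = p := by
    rw [Subgroup.orderOf_coe, Subgroup.orderOf_coe, hz₁]
  have hn : (pCore p G).Normal := inferInstance
  have hconj : ∀ x : G, x ^ p = 1 → x ≠ 1 →
      ∃ g : G, MulAut.conj g • Subgroup.zpowers ((z₁ : pCore p G) : G) = Subgroup.zpowers x := by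
    intro x hx hx1
    apply hS.zpowers
    rw [hz₁o, orderOf_eq_prime hx hx1]
  have hmem : ∀ x : G, x ^ p = 1 → x ∈ pCore p G := by
    intro x hx
    by_cases hx1 : x = 1
    · rw [hx1]
      exact Subgroup.one_mem _
    obtain ⟨g, hg⟩ := hconj x hx hx1
    have h1 : x ∈ MulAut.conj g • Subgroup.zpowers ((z₁ : pCore p G) : G) := by
      rw [hg]
      exact Subgroup.mem_zpowers x
    rw [mem_conj_smul_iff] at h1
    obtain ⟨a, ha⟩ := h1
    have h2 : g⁻¹ * x * g ∈ pCore p G := by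
      rw [← ha]
      exact Subgroup.zpow_mem _ (z₁ : pCore p G).2 a
    have h3 := hn.conj_mem _ h2 g
    have e : g * (g⁻¹ * x * g) * g⁻¹ = x := by group
    rwa [e] at h3
  refine ⟨hmem, hexp, ?_⟩
  intro x hx y hy
  by_cases hx1 : x = 1
  · rw [hx1, one_mul, mul_one]
  obtain ⟨g, hg⟩ := hconj x (hexp x hx) hx1
  have h1 : x ∈ MulAut.conj g • Subgroup.zpowers ((z₁ : pCore p G) : G) := by
    rw [hg]
    exact Subgroup.mem_zpowers x
  rw [mem_conj_smul_iff] at h1
  obtain ⟨a, ha⟩ := h1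
  have h2 : g⁻¹ * y * g ∈ pCore p G := by
    have := hn.conj_mem _ hy g⁻¹
    simpa using this
  have h3 : Commute ((z₁ : pCore p G) : G) (g⁻¹ * y * g) := by
    have := (Subgroup.mem_center_iff.mp z₁.2) ⟨_, h2⟩
    exact (congrArg Subtype.val this).symm
  have h4 : Commute (g⁻¹ * x * g) (g⁻¹ * y * g) := by
    rw [← ha]
    exact h3.zpow_left a
  have h5 := h4.eq
  have e1 : (g⁻¹ * x * g) * (g⁻¹ * y * g) = g⁻¹ * (x * y) * g := by group
  have e2 : (g⁻¹ * y * g) * (g⁻¹ * x * g) = g⁻¹ * (y * x) * g := by group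
  rw [e1, e2] at h5
  have h6 := mul_left_cancel (mul_right_cancel h5)
  exact h6

end Core

end Cfsg.Agent.Lib.AbConj
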