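import Cfsg.Agent.Lib.AbConj.Rho

/-!
# Normality of Sylow subgroups for primes with a noncyclic abelian subgroup of order `p ^ 2`
-/

set_option autoImplicit false
set_option linter.unusedSectionVars false

open scoped Pointwise

namespace Cfsg.Agent.Lib.AbConj

open Cfsg.Agent.Lib.Solvable.Hall Cfsg.Agent.Lib.Solvable.HallRel
open Cfsg.Agent.Lib.Core.Basic Cfsg.Agent.Lib.Solvable.Fitting

universe u

variable {G : Type*} [Group G]

theorem conjNormal_eq_one_iff {R : Subgroup G} [R.Normal] {y : G} :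
    (MulAut.conjNormal y : MulAut R) = 1 ↔ ∀ r ∈ R, y * r * y⁻¹ = r := by
  constructor
  · intro h r hr
    have h1 := congrArg (fun σ : MulAut R => ((σ ⟨r, hr⟩ : R) : G)) h
    simpa [MulAut.conjNormal_apply] using h1
  · intro h
    apply MulEquiv.ext
    intro r
    apply Subtype.ext
    rw [MulAut.conjNormal_apply]
    exact h r r.2

section

variable {p : ℕ} [hp : Fact p.Prime] [Finite G]

/-- If one element of order `p` acts nontrivially on a normal subgroup, all of them do. -/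
theorem not_centralize_of_star (hS : Star G) (R : Subgroup G) [hRn : R.Normal] {z : G} (hz : z ^ p = 1)
    (hz1 : z ≠ 1) (hzR : ¬ ∀ r ∈ R, z * r * z⁻¹ = r) :
    ∀ y : G, y ^ p = 1 → y ≠ 1 → ¬ ∀ r ∈ R, y * r * y⁻¹ = r := by
  intro y hy hy1 hyR
  apply hzR
  obtain ⟨g, hg⟩ := hS.zpowers (x := y) (y := z) (by
    rw [orderOf_eq_prime hy hy1, orderOf_eq_prime hz hz1])
  have h1 : z ∈ MulAut.conj g • Subgroup.zpowers y := by
    rw [hg]
    exact Subgroup.mem_zpowers z
  rw [mem_conj_smul_iff] at h1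
  obtain ⟨a, ha⟩ := h1
  intro r hr
  have h2 : g⁻¹ * r * g ∈ R := by
    have := hRn.conj_mem _ hr g⁻¹
    simpa using this
  have h3 : Commute y (g⁻¹ * r * g) := by
    have := hyR _ h2
    exact (mul_inv_eq_iff_eq_mul.mp this)
  have h4 : Commute (g⁻¹ * z * g) (g⁻¹ * r * g) := by
    rw [← ha]
    exact h3.zpow_left a
  have h5 := h4.eq
  have e1 : (g⁻¹ * z * g) * (g⁻¹ * r * g) = g⁻¹ * (z * r) * g := by group
  have e2 : (g⁻¹ * r * g) * (g⁻¹ * z * g) = g⁻¹ * (r * z) * g := by group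
  rw [e1, e2] at h5
  have h6 := mul_left_cancel (mul_right_cancel h5)
  rw [h6, mul_inv_cancel_right]

/-- A cyclic normal subgroup. -/
theorem false_of_isCyclic {q : ℕ} [hq : Fact q.Prime] (hpq : p ≠ q) (R : Subgroup G) [hRn : R.Normal]
    (hRq : IsPGroup q R) (hRc : IsCyclic R) {z t : G} (hz : z ^ p = 1) (ht : t ^ p = 1)
    (hz1 : z ≠ 1) (hzt : Commute z t) (hti : ∀ i : ℕ, t * z ^ i ≠ 1)
    (hnc : ∀ y : G, y ^ p = 1 → y ≠ 1 → ¬ ∀ r ∈ R, y * r * y⁻¹ = r) : False := by
  have hσ1 : (MulAut.conjNormal z : MulAut R) ≠ 1 := fun h =>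
    hnc z hz hz1 (conjNormal_eq_one_iff.mp h)
  have ht1 : t ≠ 1 := by simpa using hti 0
  have hτ1 : (MulAut.conjNormal t : MulAut R) ≠ 1 := fun h =>
    hnc t ht ht1 (conjNormal_eq_one_iff.mp h)
  have hσp : (MulAut.conjNormal z : MulAut R) ^ p = 1 := by
    rw [← map_pow, hz, map_one]
  have hτp : (MulAut.conjNormal t : MulAut R) ^ p = 1 := by
    rw [← map_pow, ht, map_one]
  by_cases hq2 : q = 2
  · subst hq2
    have hodd : Odd p := hp.out.odd_of_ne_two hpq
    exact hσ1 (Cfsg.Agent.Lib.Zassen.QuatAut.cyclic_odd_aut hRq _ hodd hσp)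
  · obtain ⟨n, hn⟩ := IsPGroup.iff_card.mp hRq
    haveI hcyc : IsCyclic (MulAut R) := by
      have h1 : IsCyclic (ZMod (Nat.card R))ˣ := by
        rw [hn]
        exact ZMod.isCyclic_units_of_prime_pow q hq.out hq2 n
      exact isCyclic_of_surjective _ (IsCyclic.mulAutMulEquiv R).symm.surjective
    have hoσ := orderOf_eq_prime hσp hσ1
    have hoτ := orderOf_eq_prime hτp hτ1
    have heq : Subgroup.zpowers (MulAut.conjNormal z : MulAut R) =
        Subgroup.zpowers (MulAut.conjNormal t : MulAut R) := by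
      apply eq_of_card_eq_of_isCyclic
      rw [Nat.card_zpowers, Nat.card_zpowers, hoσ, hoτ]
    have hmem : (MulAut.conjNormal t : MulAut R) ∈ Subgroup.zpowers (MulAut.conjNormal z : MulAut R) := by
      rw [heq]
      exact Subgroup.mem_zpowers _
    obtain ⟨a, ha⟩ := hmem
    have hjpow : (MulAut.conjNormal z : MulAut R) ^ ((-a) % (p : ℤ)).toNat =
        (MulAut.conjNormal z : MulAut R) ^ (-a) := by
      rw [← zpow_natCast, Int.toNat_of_nonneg (Int.emod_nonneg _ (by exact_mod_cast hp.out.ne_zero))]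
      rw [← hoσ, zpow_mod_orderOf]
    have hyc : (MulAut.conjNormal (t * z ^ ((-a) % (p : ℤ)).toNat) : MulAut R) = 1 := by
      rw [map_mul, map_pow, hjpow, ← ha, zpow_neg]
      exact mul_inv_cancel _
    refine hnc _ ?_ (hti _) (conjNormal_eq_one_iff.mp hyc)
    have hc : Commute t (z ^ ((-a) % (p : ℤ)).toNat) := (hzt.symm).pow_right _
    rw [hc.mul_pow, ht, one_mul, ← pow_mul, mul_comm, pow_mul, hz, one_pow]

/-- A quaternion normal subgroup. -/
theorem false_of_quat (hp2 : p ≠ 2) (R : Subgroup G) [hRn : R.Normal] (hRq : IsPGroup 2 R) {n : ℕ}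
    (e : R ≃* QuaternionGroup (2 ^ n)) {z t : G} {E : Subgroup G} (hz : z ^ p = 1) (ht : t ^ p = 1)
    (hz1 : z ≠ 1) (hzt : Commute z t) (hti : ∀ i : ℕ, t * z ^ i ≠ 1) (hEcard : Nat.card E = p ^ 2)
    (hEexp : ∀ x ∈ E, x ^ p = 1)
    (hnc : ∀ y : G, y ^ p = 1 → y ≠ 1 → ¬ ∀ r ∈ R, y * r * y⁻¹ = r) : False := by
  haveI : Fact (Nat.Prime 2) := ⟨Nat.prime_two⟩
  have hodd : Odd p := hp.out.odd_of_ne_two hp2
  have hσ1 : (MulAut.conjNormal z : MulAut R) ≠ 1 := fun h =>
    hnc z hz hz1 (conjNormal_eq_one_iff.mp h)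
  have hσp : (MulAut.conjNormal z : MulAut R) ^ p = 1 := by
    rw [← map_pow, hz, map_one]
  obtain rfl | rfl | hn : n = 0 ∨ n = 1 ∨ 2 ≤ n := by omega
  · have hc : IsCyclic R := by
      haveI : IsCyclic (QuaternionGroup (2 ^ 0)) := QuaternionGroup.quaternionGroup_one_isCyclic
      exact isCyclic_of_surjective _ e.symm.surjective
    exact false_of_isCyclic (q := 2) hp2 R hRq hc hz ht hz1 hzt hti hnc
  · let e' : R ≃* QuaternionGroup 2 := e
    let f : E →* MulAut (QuaternionGroup 2) :=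
      (MulAut.congr e').toMonoidHom.comp ((MulAut.conjNormal : G →* MulAut R).comp E.subtype)
    have hinj : Function.Injective f := by
      rw [injective_iff_map_eq_one]
      intro x hx
      have h1 : (MulAut.conjNormal (x : G) : MulAut R) = 1 := by
        apply (MulAut.congr e').injective
        rw [map_one]
        exact hx
      by_contra hne
      exact hnc _ (hEexp _ x.2) (fun h => hne (Subtype.ext h)) (conjNormal_eq_one_iff.mp h1)
    have h1 : p ^ 2 ∣ 24 := by
      rw [← hEcard]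
      exact (Subgroup.card_dvd_of_injective f hinj).trans
        Cfsg.Agent.Lib.PermMod.MinNormal.card_mulAut_quaternion_dvd
    have h2 : p ^ 2 ≤ 24 := Nat.le_of_dvd (by norm_num) h1
    have h3 : p ≤ 4 := by nlinarith
    have h4 := hp.out
    interval_cases p
    · exact absurd h4 (by norm_num)
    · exact absurd h4 (by norm_num)
    · exact hp2 rfl
    · norm_num at h1
    · exact absurd h4 (by norm_num)
  · apply hσ1
    have h1 := Cfsg.Agent.Lib.Zassen.QuatAut.quat_large_odd_aut n hn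
      (MulAut.congr e (MulAut.conjNormal z : MulAut R)) hodd (by rw [← map_pow, hσp, map_one])
    apply (MulAut.congr e).injective
    rw [h1, map_one]

/-- The branch with an abelian normal Sylow subgroup on which `p`-elements act. -/
theorem false_of_normal_sylow {q : ℕ} [hq : Fact q.Prime] (hpq : p ≠ q) (hS : Star G) {z t : G} {E : Subgroup G}
    (hz : z ^ p = 1) (ht : t ^ p = 1) (hz1 : z ≠ 1) (hzt : Commute z t) (hti : ∀ i : ℕ, t * z ^ i ≠ 1)
    (hzE : z ∈ E) (htE : t ∈ E) (hEcard : Nat.card E = p ^ 2) [hsol : Group.IsSolvable G]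
    (R : Subgroup G) [hRn : R.Normal] (hRne : R ≠ ⊥) (hRq : IsPGroup q R)
    (hRcop : (Nat.card R).Coprime R.index)
    (hRexp : ∀ x ∈ R, x ^ q = 1) (hRc : ∀ x ∈ R, ∀ y ∈ R, x * y = y * x)
    (hnc : ∀ y : G, y ^ p = 1 → y ≠ 1 → ¬ ∀ r ∈ R, y * r * y⁻¹ = r)
    (IH : ∀ K : Subgroup G, Nat.card K < Nat.card G → Star K → HasE p K →
      ∃ S : Subgroup K, S.Normal ∧ (∀ x : K, x ^ p = 1 → x ∈ S) ∧ (∀ x ∈ S, x ^ p = 1) ∧
        (∀ x ∈ S, ∀ y ∈ S, x * y = y * x)) : False := by
  classical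
  have hpqc : Nat.Coprime p q := (Nat.coprime_primes hp.out hq.out).mpr hpq
  obtain ⟨a, ha⟩ := IsPGroup.iff_card.mp hRq
  have hRnt : Nontrivial R := (Subgroup.nontrivial_iff_ne_bot _).mpr hRne
  have hR1 : 1 < Nat.card R := Finite.one_lt_card
  have hRp : (Nat.card R).Coprime p := by
    rw [ha]
    exact (hpqc.symm).pow_left a
  have hEcop : (Nat.card E).Coprime (Nat.card R) := by
    rw [hEcard, ha]
    exact hpqc.pow _ _
  obtain ⟨K, hKc, hEK⟩ := exists_card_eq_le (G := G) R.index (Nat.card R)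
    (by rw [mul_comm, Subgroup.card_mul_index]) hRcop.symm E hEcop
  have hd : R ⊓ K = ⊥ := inf_eq_bot_of_coprime (by rw [hKc]; exact hRcop)
  have hs : R ⊔ K = ⊤ := by
    apply sup_eq_of_card le_top le_top (by rw [hKc]; exact hRcop)
    rw [Subgroup.card_top, hKc, Subgroup.card_mul_index]
  have hKlt : Nat.card K < Nat.card G := by
    rw [hKc, ← Subgroup.card_mul_index R]
    have hi : 0 < R.index := Nat.pos_of_ne_zero Subgroup.index_ne_zero_of_finite
    nlinarith
  have hzK := hEK hzE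
  have htK := hEK htE
  obtain ⟨S, hSn, hSmem, hSexp, hSc⟩ := IH K hKlt (star_complement hd hs hS) ⟨⟨z, hzK⟩, ⟨t, htK⟩,
    Subtype.ext hz, Subtype.ext ht, fun h => hz1 (congrArg Subtype.val h),
    Subtype.ext hzt.eq, fun i h => hti i (congrArg Subtype.val h)⟩
  let ρ : K →* MulAut R := (MulAut.conjNormal : G →* MulAut R).comp K.subtype
  have hρ : ∀ (y : K) (r : R), ((ρ y r : R) : G) = (y : G) * r * (y : G)⁻¹ := fun y r =>
    MulAut.conjNormal_apply _ _
  have hfreeρ : ∀ y ∈ S, ρ y = 1 → y = 1 := by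
    intro y hy h1
    by_contra hne
    exact hnc y (congrArg Subtype.val (hSexp y hy)) (fun h => hne (Subtype.ext h))
      (conjNormal_eq_one_iff.mp h1)
  have hV : ∀ x y : R, x * y = y * x := fun x y => Subtype.ext (hRc x x.2 y y.2)
  obtain ⟨v, hv⟩ := exists_regular hV hp.out hRp (S.map ρ) (by
      rintro _ ⟨x, hx, rfl⟩ _ ⟨y, hy, rfl⟩
      rw [← map_mul, ← map_mul, hSc x hx y hy]) (by
      rintro _ ⟨x, hx, rfl⟩
      rw [← map_pow, hSexp x hx, map_one])
  have hfree : ∀ y ∈ S, ρ y v = v → y = 1 := fun y hy h1 =>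
    hfreeρ y hy (hv _ (Subgroup.mem_map_of_mem ρ hy) h1)
  have hzK' : (⟨z, hzK⟩ : K) ^ p = 1 := Subtype.ext hz
  have htK' : (⟨t, htK⟩ : K) ^ p = 1 := Subtype.ext ht
  have hztK : Commute (⟨z, hzK⟩ : K) ⟨t, htK⟩ := Subtype.ext hzt.eq
  obtain ⟨w, hw1, hw⟩ := exists_fixed_of_pair hV hp.out hRp (ρ ⟨t, htK⟩) (ρ ⟨z, hzK⟩)
    (by rw [← map_mul, ← map_mul, hztK.symm.eq]) (by rw [← map_pow, htK', map_one])
    (by rw [← map_pow, hzK', map_one])
  -- an element of `S` with a nontrivial fixed point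
  obtain ⟨e, heS, he1, hew⟩ : ∃ e ∈ S, e ≠ 1 ∧ ρ e w = w := by
    rcases hw with hw | ⟨i, hw⟩
    · refine ⟨⟨z, hzK⟩, hSmem _ hzK', fun h => hz1 (congrArg Subtype.val h), hw⟩
    · refine ⟨⟨t, htK⟩ * ⟨z, hzK⟩ ^ i, hSmem _ ?_, fun h => hti i (congrArg Subtype.val h), ?_⟩
      · have hc : Commute (⟨t, htK⟩ : K) (⟨z, hzK⟩ ^ i) := (hztK.symm).pow_right i
        rw [hc.mul_pow, htK', one_mul, ← pow_mul, mul_comm, pow_mul, hzK', one_pow]
      · rw [map_mul, map_pow]
        exact hw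
  have hv1 : v ≠ 1 := by
    intro h
    have := hfree ⟨z, hzK⟩ (hSmem _ hzK') (by rw [h, map_one])
    exact hz1 (congrArg Subtype.val this)
  have hv1' : (v : G) ≠ 1 := fun h => hv1 (Subtype.ext h)
  have hw1' : (w : G) ≠ 1 := fun h => hw1 (Subtype.ext h)
  have hov : orderOf (v : G) = q := orderOf_eq_prime (hRexp _ v.2) hv1'
  have how : orderOf (w : G) = q := orderOf_eq_prime (hRexp _ w.2) hw1'
  obtain ⟨g, hg⟩ := hS.zpowers (x := (v : G)) (y := (w : G)) (by rw [hov, how])
  have hgm : g ∈ (↑(R ⊔ K) : Set G) := by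
    rw [hs]
    trivial
  rw [Subgroup.normal_mul, Set.mem_mul] at hgm
  obtain ⟨r, hr, k, hk, rfl⟩ := hgm
  have h1 : (w : G) ∈ MulAut.conj (r * k) • Subgroup.zpowers (v : G) := by
    rw [hg]
    exact Subgroup.mem_zpowers _
  rw [mem_conj_smul_iff] at h1
  have h2 : (r * k)⁻¹ * (w : G) * (r * k) = k⁻¹ * (w : G) * k := by
    have h3 : r⁻¹ * (w : G) * r = w := by
      rw [mul_assoc, hRc _ w.2 _ hr, inv_mul_cancel_left]
    calc (r * k)⁻¹ * (w : G) * (r * k) = k⁻¹ * (r⁻¹ * (w : G) * r) * k := by group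
      _ = _ := by rw [h3]
  rw [h2] at h1
  have hu1 : k⁻¹ * (w : G) * k ≠ 1 := by
    intro h
    apply hw1'
    have : (w : G) = k * (k⁻¹ * (w : G) * k) * k⁻¹ := by group
    rw [this, h]
    group
  have hvu : (v : G) ∈ Subgroup.zpowers (k⁻¹ * (w : G) * k) :=
    mem_zpowers_of_orderOf_prime (by rw [hov]; exact hq.out) h1 hu1
  -- conjugate of `e`
  have he' : (⟨k, hk⟩ : K)⁻¹ * e * (⟨k, hk⟩ : K) ∈ S := by
    have := hSn.conj_mem e heS (⟨k, hk⟩ : K)⁻¹
    simpa using this
  have hcu : Commute (((⟨k, hk⟩ : K)⁻¹ * e * (⟨k, hk⟩ : K) : K) : G) (k⁻¹ * (w : G) * k) := by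
    have h3 : (e : G) * w * (e : G)⁻¹ = w := by
      have := hρ e w
      rw [hew] at this
      exact this.symm
    have h4 : (e : G) * w = w * e := mul_inv_eq_iff_eq_mul.mp h3
    change (k⁻¹ * (e : G) * k) * (k⁻¹ * (w : G) * k) = (k⁻¹ * (w : G) * k) * (k⁻¹ * (e : G) * k)
    calc (k⁻¹ * (e : G) * k) * (k⁻¹ * (w : G) * k) = k⁻¹ * ((e : G) * w) * k := by group
      _ = k⁻¹ * (w * (e : G)) * k := by rw [h4]
      _ = _ := by group
  have hcv : Commute (((⟨k, hk⟩ : K)⁻¹ * e * (⟨k, hk⟩ : K) : K) : G) (v : G) := by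
    obtain ⟨b, hb⟩ := hvu
    rw [← hb]
    exact hcu.zpow_right b
  have h5 := hfree _ he' (by
    apply Subtype.ext
    rw [hρ]
    rw [hcv.eq, mul_inv_cancel_right])
  apply he1
  have h6 : e = (⟨k, hk⟩ : K) * ((⟨k, hk⟩ : K)⁻¹ * e * (⟨k, hk⟩ : K)) * (⟨k, hk⟩ : K)⁻¹ := by group
  rw [h6, h5]
  group

/-- If `p` admits a noncyclic abelian subgroup of order `p ^ 2`, the elements of order dividing `p`
form an abelian normal subgroup. -/
theorem normal_sylow : ∀ (n : ℕ) (X : Type u) [Group X] [Finite X] [Group.IsSolvable X],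
    Nat.card X = n → Star X → ∀ (p : ℕ) [Fact p.Prime], HasE p X →
    ∃ S : Subgroup X, S.Normal ∧ (∀ x : X, x ^ p = 1 → x ∈ S) ∧ (∀ x ∈ S, x ^ p = 1) ∧
      (∀ x ∈ S, ∀ y ∈ S, x * y = y * x) := by
  intro n
  induction n using Nat.strong_induction_on with
  | _ n ih =>
    intro X _ _ _ hn hS p _ hE
    by_cases hne : pCore p X = ⊥
    swap
    · obtain ⟨h1, h2, h3⟩ := pCore_case hS hE hne
      exact ⟨pCore p X, inferInstance, h1, h2, h3⟩
    exfalso
    obtain ⟨z, t, E, hz, ht, hz1, hzt, hti, hzE, htE, hEc, hEcard, hEexp⟩ := HasE.exists_E hE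
    -- `z` does not lie in the Fitting subgroup
    have hzF : z ∉ fittingSubgroup X := by
      intro hzF
      haveI : Group.IsNilpotent (fittingSubgroup X) := fittingSubgroup_isNilpotent
      have hd : p ∣ Nat.card (fittingSubgroup X) := by
        have h1 : orderOf (⟨z, hzF⟩ : fittingSubgroup X) = p :=
          orderOf_eq_prime (Subtype.ext hz) (fun h => hz1 (congrArg Subtype.val h))
        rw [← h1]
        exact orderOf_dvd_natCard _
      let P : Sylow p (fittingSubgroup X) := default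
      have hPn : (P : Subgroup (fittingSubgroup X)).Normal := inferInstance
      haveI hPc : (P : Subgroup (fittingSubgroup X)).Characteristic := Sylow.characteristic_of_normal P hPn
      have hPG : ((P : Subgroup (fittingSubgroup X)).map (fittingSubgroup X).subtype).Normal := inferInstance
      have h1 : (P : Subgroup (fittingSubgroup X)).map (fittingSubgroup X).subtype ≤ pCore p X := by
        apply le_pCore hPG
        exact P.isPGroup'.map _
      rw [hne, le_bot_iff, Subgroup.map_eq_bot_iff_of_injective _ (fittingSubgroup X).subtype_injective] at h1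
      exact P.ne_bot_of_dvd_card hd h1
    -- so it acts nontrivially on some `O_q`
    have hzC : z ∉ Subgroup.centralizer (fittingSubgroup X : Set X) := fun h =>
      hzF (centralizer_fittingSubgroup_le h)
    obtain ⟨q, hqq⟩ : ∃ q : Nat.Primes, ¬ ∀ r ∈ pCore (q : ℕ) X, z * r * z⁻¹ = r := by
      by_contra hall
      push Not at hall
      apply hzC
      rw [Subgroup.mem_centralizer_iff]
      intro f hf
      have hle : fittingSubgroup X ≤ Subgroup.centralizer {z} := by
        rw [fittingSubgroup_eq_iSup_pCore]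
        apply iSup_le
        intro q r hr
        rw [Subgroup.mem_centralizer_iff]
        intro y hy
        rw [Set.mem_singleton_iff] at hy
        rw [hy]
        exact (mul_inv_eq_iff_eq_mul.mp (hall q r hr))
      have := hle hf
      rw [Subgroup.mem_centralizer_iff] at this
      exact (this z rfl).symm
    haveI hqf : Fact (q : ℕ).Prime := ⟨q.2⟩
    have hpq : p ≠ (q : ℕ) := by
      intro h
      apply hqq
      rw [← h, hne]
      intro r hr
      rw [Subgroup.mem_bot] at hr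
      rw [hr]
      group
    have hnc := not_centralize_of_star hS (pCore (q : ℕ) X) hz hz1 hqq
    have hRq : IsPGroup (q : ℕ) (pCore (q : ℕ) X) := pCore_isPGroup
    have hRne : pCore (q : ℕ) X ≠ ⊥ := by
      intro h
      apply hqq
      rw [h]
      intro r hr
      rw [Subgroup.mem_bot] at hr
      rw [hr]
      group
    by_cases hEq : HasE (q : ℕ) X
    · obtain ⟨h1, h2, h3⟩ := pCore_case hS hEq hRne
      have hRcop : (Nat.card (pCore (q : ℕ) X)).Coprime (pCore (q : ℕ) X).index := by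
        let P₀ : Sylow (q : ℕ) X := default
        have hle : (P₀ : Subgroup X) ≤ pCore (q : ℕ) X := by
          intro x hx
          obtain ⟨k, hk⟩ := P₀.isPGroup' ⟨x, hx⟩
          exact h1 x (pow_eq_one_of_hasE hS hEq (k := k) (congrArg Subtype.val hk))
        have heq : pCore (q : ℕ) X = (P₀ : Subgroup X) := le_antisymm (pCore_le_sylow P₀) hle
        rw [heq]
        exact P₀.card_coprime_index
      refine false_of_normal_sylow hpq hS hz ht hz1 hzt hti hzE htE hEcard (pCore (q : ℕ) X) hRne hRq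
        hRcop h2 h3 hnc ?_
      intro K hK hSK hEK
      exact ih _ (hn ▸ hK) K rfl hSK p hEK
    · rcases cyclic_or_quat_of_not_hasE hEq (pCore (q : ℕ) X) hRq with hc | ⟨h2, m, ⟨e⟩⟩
      · exact false_of_isCyclic hpq _ hRq hc hz ht hz1 hzt hti hnc
      · have hq2 : (q : ℕ) = 2 := h2
        have hRq2 : IsPGroup 2 (pCore (q : ℕ) X) := hq2 ▸ hRq
        exact false_of_quat (hq2 ▸ hpq) _ hRq2 e hz ht hz1 hzt hti hEcard hEexp hnc

end

end Cfsg.Agent.Lib.AbConj
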